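import Cfsg.Agent.Isa.I4

/-! Fixed point spaces on average; degrees of primitive characters and class sizes. (helper12) -/

set_option autoImplicit false
set_option maxSynthPendingDepth 3
set_option linter.unusedVariables false
set_option linter.unusedSectionVars false

namespace Cfsg.Agent.PF.CH

open Cfsg.Agent.BG
open scoped _root_.Classical ComplexConjugate commutatorElement

variable {X : Type*} [Group X] [Finite X]
variable {A B C D E G H K L M N P Q R S T U V W Y Z : Subgroup X} {χ ψ φ θ ω η ξ β : X → ℂ}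
  {a b g s x y : X} {p e f m n : ℕ} {π : Set ℕ}

local notation "Sol" => Group.IsSolvable
local notation "Nil" => Group.IsNilpotent

theorem card_cent1_dprod (h : Dprod D W U) (hD : x ∈ N[D]) (hW : x ∈ N[W]) :
    #(U ⊓ C1[x]) ≤ #(D ⊓ C1[x]) * #(W ⊓ C1[x]) := by
  have hc : W ⊓ C1[x] ≤ N[D ⊓ C1[x]] := cents_norm (centSS inf_le_left inf_le_left h.cent)
  rw [← card_sup_TI (.inr hc) (le_bot_iff.1 (h.inf ▸ inf_le_inf inf_le_left inf_le_left))]
  refine card_le_card fun u hu => ?_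
  obtain ⟨d, hd, w, hw, rfl⟩ := h.sdprod.mem hu.1
  have h1 := mem_cent1.1 hu.2
  have h2 : d⁻¹ * (x * d * x⁻¹) = w * (x * w⁻¹ * x⁻¹) := by
    have : x = d * w * x * w⁻¹ * d⁻¹ := by rw [h1]; group
    calc d⁻¹ * (x * d * x⁻¹) = d⁻¹ * (d * w * x * w⁻¹ * d⁻¹ * d * x⁻¹) := by rw [← this]
      _ = _ := by group
  have h3 : d⁻¹ * (x * d * x⁻¹) = 1 := (Subgroup.eq_bot_iff_forall _).1 h.inf _
    ⟨D.mul_mem (D.inv_mem hd) (conj_mem_of_norm hD hd),
      h2 ▸ W.mul_mem hw (conj_mem_of_norm hW (W.inv_mem hw))⟩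
  refine mul_mem_sup' ⟨hd, mem_cent1.2 ?_⟩ ⟨hw, mem_cent1.2 ?_⟩
  · rw [inv_mul_eq_one, eq_mul_inv_iff_mul_eq] at h3; exact h3
  · rw [← mul_inv_eq_one, ← h3, h2]; group

theorem prod_mul_right (F : X → ℕ) (hn : a ∈ N) :
    ∏ n ∈ fs (N : Set X), F (n * a) = ∏ n ∈ fs (N : Set X), F n :=
  Finset.prod_bij' (fun n _ => n * a) (fun n _ => n * a⁻¹) (fun n h => by simpa using N.mul_mem (by simpa using h) hn)
    (fun n h => by simpa using N.mul_mem (by simpa using h) (N.inv_mem hn)) (by simp) (by simp) (by simp)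

theorem avg_coset (hV : IsMulCommutative V) (hab : ⁅N, N⁆ ≤ C[V]) (hg : g ∈ N[N]) (h0 : V ⊓ C[N] = ⊥)
    (hd : ∀ U Y, U ≤ V → N ≤ N[U] → Y ≤ N → Dprod ⁅U, Y⁆ (U ⊓ C[Y]) U) (U : Subgroup X) (hU : U ≤ V)
    (h1 : N ≤ N[U]) (h2 : g ∈ N[U]) :
    (∏ n ∈ fs (N : Set X), #(U ⊓ C1[g * n])) ^ 2 ≤ #U ^ #N := by
  induction U using WellFoundedLT.induction with
  | ind U ih =>
  have hc : (fs (N : Set X)).card = #N := card_fs_subgroup N
  by_cases hU0 : U = ⊥
  · simp [hU0]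
  obtain ⟨Y, -, ⟨hY, hW⟩, hm⟩ := maxgroup_exists (P := fun Y => Y ≤ N ∧ U ⊓ C[Y] ≠ ⊥) (A := ⊥)
    ⟨bot_le, by rwa [cent_bot, inf_top_eq]⟩
  have hm' : ∀ Y' ≤ N, ¬ Y' ≤ Y → U ⊓ C[Y] ⊓ C[Y'] = ⊥ := fun Y' h3 h4 => by_contra fun h5 =>
    h4 (sup_eq_left.1 (hm _ ⟨sup_le hY h3, by rwa [cent_sup, ← inf_assoc]⟩ le_sup_left))
  have nY : N ≤ N[Y] := (sub_der1_normal (by_contra fun h => hW (by
    rw [← hm' _ (der_sub N) h, eq_comm, inf_eq_left]
    exact inf_le_left.trans (hU.trans (cents_symm hab)))) hY).norm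
  have hD := hd U Y hU h1 hY
  have nD : N ≤ N[⁅U, Y⁆] := normsR h1 nY
  have nW : N ≤ N[U ⊓ C[Y]] := normsI h1 (norms_cent nY)
  have ltD : ⁅U, Y⁆ < U := hD.lel.lt_of_ne fun e => hW (by rw [← hD.inf, e, ← inf_assoc, inf_idem])
  have hx : ∀ {A : Subgroup X}, N ≤ N[A] → g ∈ N[A] → ∀ n ∈ fs (N : Set X), g * n ∈ N[A] :=
    fun h h' n hn => mul_mem h' (h (by simpa using hn))
  by_cases h3 : g ∈ N[Y]
  · have gD : g ∈ N[⁅U, Y⁆] := normsR (C := Subgroup.zpowers g) (by simpa) (by simpa) (by simp)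
    have gW : g ∈ N[U ⊓ C[Y]] :=
      normsI (C := Subgroup.zpowers g) (by simpa) (norms_cent (by simpa)) (by simp)
    rcases hD.ler.eq_or_lt with e | e
    · obtain ⟨a, ha, h4⟩ := SetLike.not_le_iff_exists.1 fun h : N ≤ Y => hW (le_bot_iff.1
        (h0 ▸ inf_le_inf hU (le_antisymm hY h ▸ le_rfl)))
      rw [sq, ← hc, ← Finset.prod_const]
      nth_rw 2 [← prod_mul_right (fun n => #(U ⊓ C1[g * n])) ha]
      rw [← Finset.prod_mul_distrib]
      refine Finset.prod_le_prod' fun n _ => ?_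
      rw [← card_sup_TI (.inl (cents_norm (sub_abelian_cent2 hV (inf_le_left.trans hU)
        (inf_le_left.trans hU)))) (le_bot_iff.1 (hm' (Subgroup.zpowers a) (by simpa) (by simpa using h4) ▸ le_inf
          (inf_le_left.trans (inf_le_left.trans e.ge)) fun u hu => by
            rw [C_zpowers, mem_cent1_comm, show a = (g * n)⁻¹ * (g * (n * a)) by group]
            exact mul_mem (inv_mem (mem_cent1_comm.1 hu.1.2)) (mem_cent1_comm.1 hu.2.2)))]
      exact card_le_card (sup_le inf_le_left inf_le_left)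
    · refine (Nat.pow_le_pow_left (Finset.prod_le_prod' fun n hn =>
        card_cent1_dprod hD (hx nD gD n hn) (hx nW gW n hn)) 2).trans ?_
      rw [Finset.prod_mul_distrib, mul_pow, ← hD.card, mul_pow]
      exact Nat.mul_le_mul (ih _ ltD (ltD.le.trans hU) nD gD) (ih _ e (e.le.trans hU) nW gW)
  · obtain ⟨B, hB⟩ : ∃ B : Subgroup X, B = ⨅ h ∈ N ⊔ Subgroup.zpowers g, BG.cj h ⁅U, Y⁆ := ⟨_, rfl⟩
    have mB : ∀ v, v ∈ B ↔ ∀ h ∈ N ⊔ Subgroup.zpowers g, h⁻¹ * v * h ∈ ⁅U, Y⁆ := fun v => by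
      simp only [hB, Subgroup.mem_iInf, mem_cj]
    have nB : N ⊔ Subgroup.zpowers g ≤ N[B] := le_norm_iff.2 fun h hh v hv => (mB _).2 fun k hk => by
      simpa [mul_assoc] using (mB v).1 hv (h⁻¹ * k) (mul_mem (inv_mem hh) hk)
    have B1 : B ≤ ⁅U, Y⁆ := fun v hv => by simpa using (mB v).1 hv 1 (one_mem _)
    have B2 : B ≤ BG.cj g ⁅U, Y⁆ := fun v hv =>
      mem_cj.2 ((mB v).1 hv g (Subgroup.mem_sup_right (Subgroup.mem_zpowers g)))
    have hY' : BG.cj g Y ≤ N := cj_le_of_norm hg hY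
    have h4 : ⁅U, Y⁆ ⊔ BG.cj g ⁅U, Y⁆ = U := le_antisymm (sup_le hD.lel (cj_le_of_norm h2 hD.lel))
      (hD.sup.ge.trans (sup_le_sup_left (by
        have := (hd _ _ (inf_le_left.trans hU) nW hY').sup
        rw [hm' _ hY' fun h => h3 (mem_norm_of_cj_le h), sup_bot_eq] at this
        rw [← this, cj_comm, cj_of_norm h2]
        exact commSg _ inf_le_left) _))
    have h5 : #B * #(U ⊓ C[Y]) ^ 2 ≤ #U := by
      have h5 := card_sup_mul_inf (.inl (cents_norm (sub_abelian_cent2 hV (hD.lel.trans hU)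
        ((cj_le_of_norm h2 hD.lel).trans hU))))
      rw [h4, card_cj] at h5
      refine Nat.le_of_mul_le_mul_left ?_ (cardG_pos U)
      calc _ ≤ #U * (#(⁅U, Y⁆ ⊓ BG.cj g ⁅U, Y⁆) * #(U ⊓ C[Y]) ^ 2) :=
            Nat.mul_le_mul_left _ (Nat.mul_le_mul_right _ (card_le_card (le_inf B1 B2)))
        _ = (#⁅U, Y⁆ * #(U ⊓ C[Y])) ^ 2 := by rw [← mul_assoc, h5]; ring
        _ = _ := by rw [hD.card, sq]
    have h6 : ∀ n ∈ fs (N : Set X), #(U ⊓ C1[g * n]) ≤ #(B ⊓ C1[g * n]) * #(U ⊓ C[Y]) := fun n hn => by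
      have hn' : n ∈ N := by simpa using hn
      rw [← card_inf_mul_relIndex ⁅U, Y⁆, ← hD.sdprod.relIndexl]
      refine Nat.mul_le_mul (card_le_card (le_inf (fun v hv => (mB v).2 fun h hh => ?_)
        (inf_le_right.trans inf_le_right))) (Nat.le_of_dvd (relIndex_pos _ _)
          (relIndex_dvd_of_norm hD.normall.norm inf_le_left))
      have h7 : N ⊔ Subgroup.zpowers g ≤ Subgroup.zpowers (g * n) ⊔ N := sup_le le_sup_right (by
        simpa using mul_mem_sup' (Subgroup.mem_zpowers (g * n)) (N.inv_mem hn'))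
      obtain ⟨y, hy, k, hk, rfl⟩ := (mem_sup_normr (Subgroup.zpowers_le.2
        (mul_mem hg (normG N hn')))).1 (h7 hh)
      have h8 : y⁻¹ * v * y = v := by
        rw [mul_assoc, mem_cent1.1 (cent1_le_of_mem_zpowers hy hv.2.2), inv_mul_cancel_left]
      rw [show (y * k)⁻¹ * v * (y * k) = k⁻¹ * (y⁻¹ * v * y) * k by group, h8]
      exact conj_mem_of_norm' (nD hk) hv.1
    refine (Nat.pow_le_pow_left (Finset.prod_le_prod' h6) 2).trans ?_
    rw [Finset.prod_mul_distrib, Finset.prod_const, hc, mul_pow, ← pow_mul, mul_comm #N, pow_mul]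
    refine le_trans (Nat.mul_le_mul_right _ (ih B (B1.trans_lt ltD) (B1.trans (hD.lel.trans hU))
      (le_sup_left.trans nB) (nB (Subgroup.mem_sup_right (Subgroup.mem_zpowers g))))) ?_
    rw [← mul_pow]
    exact Nat.pow_le_pow_left h5 _

theorem avg_min {X' : Type*} [Group X'] [Fintype X'] (h : MinNormal V M) (hs : Sol M) (hV : V ≤ M)
    (hc : ¬ M ≤ C[V]) (π : X' → X) (h1 : ∀ g, π g ∈ M)
    (h2 : ∀ n ∈ M, ∃ m, ∀ g, π (g * m) = π g * n) :
    #V ^ Fintype.card X' ≤ (∏ g, C1[π g].relIndex V) ^ 2 := by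
  obtain ⟨p, hp, hA⟩ := minnormal_solvable h hV hs
  have := Fact.mk hp
  obtain ⟨N, -, hN⟩ := chief_factor_exists (subcent_normal h.norm) (normal_refl M) (inf_lt_left.2 hc)
  obtain ⟨q, hab, hq⟩ := chief_abelem hN (quotient_sol _ (solvableS hN.le hs))
  have := Fact.mk hq.prime
  have h0 : V ⊓ C[N] = ⊥ := (h.min _ inf_le_left (normsI h.norm (norms_cent hN.nU))).resolve_right
    fun e => hN.lt.not_ge (le_inf hN.le (cents_symm (inf_eq_left.1 e)))
  have hqp : q ≠ p := by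
    rintro rfl
    obtain ⟨S, hS, e⟩ := hq.exists
    refine pgroup_cent_ne_bot hS.pg hA.pg ((le_sup_right.trans e.le).trans (hN.le.trans h.norm)) h.ne
      (le_bot_iff.1 (h0 ▸ le_inf inf_le_left ?_))
    rw [← e]
    exact le_cent_sup (inf_le_left.trans (cents_symm inf_le_right)) inf_le_right
  have h3 := fun g => avg_coset hA.abelian (hab.trans inf_le_right) (hN.nU (h1 g)) h0
    (fun U Y hU nU hY => by
      obtain ⟨S, hS, e⟩ := RelP.exists (L := Y ⊓ C[V]) (P := Y) ⟨hq.prime,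
        subcent_normal (hY.trans (hN.le.trans h.norm)), hq.idx.of_dvd (by
          rw [Subgroup.inf_relIndex_left, ← Subgroup.inf_relIndex_right, inf_comm,
            show Y ⊓ C[V] = (M ⊓ C[V]) ⊓ Y by
              rw [inf_right_comm, inf_eq_right.2 (hY.trans hN.le)], Subgroup.inf_relIndex_right]
          exact relIndex_dvd_of_norm hN.normal.norm hY)⟩
      have h3 : S ≤ Y := le_sup_right.trans e.le
      have h4 : Y ⊓ C[V] ≤ C[U] := inf_le_right.trans (centS hU)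
      have h5 := coprime_abelian_cent_dprod (h3.trans (hY.trans nU))
        (pnat_coprime (pgroupS hU hA.pg.pi) (p'group_of_ne hS.pg hqp)) (abelianS hU hA.abelian)
      rwa [← e, cent_sup, ← inf_assoc, inf_eq_left.2 (cents_symm h4), commGC, commMG
        (.inr (h3.trans (subcent_normal (hY.trans (hN.le.trans h.norm))).norm))
        (cents_norm (centsS (commg_subr (h3.trans (hY.trans nU))) h4)), commG1.2 h4, bot_sup_eq,
        commGC]) V le_rfl (hN.le.trans h.norm) (h.norm (h1 g))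
  have h4 : (∏ g, #(V ⊓ C1[π g])) ^ 2 ≤ #V ^ Fintype.card X' := by
    rw [← Nat.pow_le_pow_iff_left (cardG_ne_zero N), ← pow_mul, mul_comm, pow_mul, ← pow_mul #V,
      mul_comm _ #N, pow_mul, ← Finset.card_univ, ← Finset.prod_const, ← card_fs_subgroup,
      ← Finset.prod_const, Finset.prod_congr rfl (g := fun n => ∏ g, #(V ⊓ C1[π g * n])) fun n hn => by
        obtain ⟨m, hm⟩ := h2 n (hN.le (by simpa using hn))
        simp only [← hm]
        exact (Fintype.prod_equiv (Equiv.mulRight m) _ _ fun _ => rfl).symm,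
      Finset.prod_comm, ← Finset.prod_pow, card_fs_subgroup]
    exact Finset.prod_le_prod' fun g _ => h3 g
  have h5 : (∏ g, #(V ⊓ C1[π g])) * ∏ g, C1[π g].relIndex V = #V ^ Fintype.card X' := by
    rw [← Finset.prod_mul_distrib, ← Finset.card_univ, ← Finset.prod_const]
    exact Finset.prod_congr rfl fun g _ => by rw [inf_comm, card_inf_mul_relIndex]
  refine Nat.le_of_mul_le_mul_left ?_ (pow_pos (cardG_pos V) (Fintype.card X'))
  nth_rw 1 2 [← h5]
  nlinarith [Nat.zero_le ((∏ g, C1[π g].relIndex V) ^ 2)]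

theorem relIndex_cent1_dvd (hL : L ⊴ K) (hg : g ∈ N[L]) :
    C1[g].relIndex L * C1[coset L g].relIndex (K /ᵍ L) ∣ C1[g].relIndex K := by
  have h1 : K ⊓ C1[g] ≤ N[L] := inf_le_left.trans hL.norm
  have h2 : L ⊔ K ⊓ C1[g] ≤ K := sup_le hL.le inf_le_left
  rw [← Subgroup.inf_relIndex_left K, ← Subgroup.relIndex_mul_relIndex _ _ _ le_sup_right h2,
    relIndex_sup_norm h1, ← Subgroup.inf_relIndex_right (K ⊓ C1[g]), inf_right_comm,
    inf_eq_right.2 hL.le, Subgroup.inf_relIndex_left,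
    ← index_quotient_eq h2 hL.norm (inf_le_right.trans le_sup_left), quotientYidl h1]
  refine Nat.mul_dvd_mul_left _ (Subgroup.relIndex_dvd_of_le_left _ ?_)
  rw [← C_zpowers (coset L g), ← quotient_zpowers hg]
  exact quotient_cents _ (by rw [C_zpowers]; exact inf_le_right)

theorem prim_class [Fintype X] (hp : p.Prime) (hs : Sol X) (hχ : χ ∈ Irr ⊤)
    (h : ¬ ∃ T, T < ⊤ ∧ ∃ ψ ∈ Irr T, Ind T ⊤ ψ = χ)
    (hT : ∀ L K, ChiefF ⊤ L K → RelP p L K → ⁅K, T⁆ ≤ L) :
    ∃ g, ∀ t ∈ T, (deg χ).factorization p ≤ C1[g * t].index.factorization p := by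
  have := Fact.mk hp
  have inv : ∀ L, L ⊴ ⊤ → ∀ φ ∈ Irr L, dot L χ φ ≠ 0 → ⊤ ≤ inertia φ := fun L hL φ hφ hd =>
    by_contra fun h1 => by
      obtain ⟨T, -, h2⟩ := exists_Ind_lt hL hχ hφ hd h1
      exact h ⟨T, h2⟩
  obtain ⟨b, h1, h2, h3⟩ := chief_ind (P := fun K => ∀ θ ∈ Irr K, dot K χ θ ≠ 0 → ∃ b : X → ℕ,
      (∀ g, p ^ b g ∣ C1[g].relIndex K) ∧ Fintype.card X * (deg θ).factorization p ≤ ∑ g, b g ∧
      ∀ g, ∀ t ∈ T, b (g * t) = b g) (normal_bot ⊤) (normal_refl ⊤) bot_le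
    (fun θ hθ _ => ⟨0, by simp, by simp [show deg θ = 1 by simpa using dvd_irr1_cardG hθ],
      by simp⟩) (fun L K _ _ hc ih θ hθ hd => by
      obtain ⟨q, hab, hq⟩ := chief_abelem hc (quotient_sol _ (solvable_of K))
      have nL : ∀ g, g ∈ N[L] := fun g => hc.nV (Subgroup.mem_top g)
      have dv := fun g => relIndex_cent1_dvd hc.normal (nL g)
      have tr : ∀ φ ∈ Irr L, dot L θ φ ≠ 0 → dot L χ φ ≠ 0 := fun φ hφ =>
        dot_ne_zero_trans hc.lt.le le_top (Irr_isChar hχ) hθ (Irr_isChar hφ) hd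
      rcases going_down hc hab hθ (inv K hc.normalU θ hθ hd) with h1 | ⟨φ, e, h1, rfl⟩ | ⟨φ, hφ, h1, h2⟩
      · obtain ⟨b, h2, h3⟩ := ih _ h1 (tr _ h1 (by
          rw [← dot_Res_left le_rfl, dot_Irr_self h1]; exact one_ne_zero))
        exact ⟨b, fun g => (h2 g).trans ((Dvd.intro _ rfl).trans (dv g)), by simpa using h3⟩
      · obtain ⟨b, h2, h3, h4⟩ := ih _ h1.irr (tr _ h1.irr (by
          rw [dot_smul_left, dot_Irr_self h1.irr, mul_one]; exact h1.ne))
        have e0 : e ≠ 0 := by simpa using h1.ne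
        rw [deg_eq_of (n := e * deg φ) (by simp [Irr_apply_one h1.irr]),
          Nat.factorization_mul e0 (Irr_deg_pos h1.irr).ne', Finsupp.add_apply, mul_add]
        by_cases h5 : p ∣ e
        swap
        · exact ⟨b, fun g => (h2 g).trans ((Dvd.intro _ rfl).trans (dv g)), by
            simpa [Nat.factorization_eq_zero_of_not_dvd h5] using h3, h4⟩
        obtain rfl : p = q := hq.idx p hp (h1.sq ▸ dvd_pow h5 two_ne_zero)
        have cV : #(K /ᵍ L) = e ^ 2 := by rw [card_quotient hc.normal.norm, h1.sq]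
        have pV : PiGrp {p} (K /ᵍ L) := by rw [PiGrp, card_quotient hc.normal.norm]; exact hq.idx
        have mV := chief_factor_minnormal hc
        have h6 := avg_min mV (quotient_sol _ (solvable_of ⊤)) (quotientS _ le_top) (fun h6 => by
          obtain ⟨Z, h7, h8⟩ := Cauchy_sub hp (cV ▸ dvd_pow h5 two_ne_zero)
          rw [← mV.map_eq h7 (cents_norm (centsS h7 h6)) (ne_bot_of_prime (h8 ▸ hp)), h8] at cV
          exact hp.not_isSquare ⟨e, by rw [cV, sq]⟩) (coset L)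
          (fun g => mem_quotient (nL g) (Subgroup.mem_top g)) fun n hn => by
            obtain ⟨m, -, h7, rfl⟩ := mem_quotient_iff.1 hn
            exact ⟨m, fun g => coset_mul (nL g) h7⟩
        have h7 : ∀ g, C1[coset L g].relIndex (K /ᵍ L) =
            p ^ (C1[coset L g].relIndex (K /ᵍ L)).factorization p := fun g => by
          obtain ⟨k, hk⟩ := (p_natP hp).1 (pV.of_dvd (Subgroup.relIndex_dvd_card C1[coset L g] _))
          rw [hk, hp.factorization_pow, Finsupp.single_eq_same]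
        refine ⟨fun g => b g + (C1[coset L g].relIndex (K /ᵍ L)).factorization p, fun g => ?_, ?_,
          fun g t ht => ?_⟩
        · rw [pow_add, ← h7]; exact (Nat.mul_dvd_mul_right (h2 g) _).trans (dv g)
        · rw [Finset.sum_add_distrib, add_comm]
          refine Nat.add_le_add h3 ((Nat.pow_le_pow_iff_right hp.one_lt).1 ?_)
          rw [cV, ← pow_mul, mul_comm, pow_mul, Nat.pow_le_pow_iff_left two_ne_zero,
            Finset.prod_congr rfl fun g _ => h7 g, Finset.prod_pow_eq_pow_sum] at h6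
          rw [mul_comm, pow_mul]
          exact (Nat.pow_le_pow_left (Nat.ordProj_le p e0) _).trans h6
        · have h8 : K /ᵍ L ≤ C1[coset L t] := le_cent1_iff.2 (cents_symm (quotient_cents2r
            (hT L K hc hq)) (mem_quotient (nL t) ht))
          have h9 : C1[coset L (g * t)] ⊓ K /ᵍ L = C1[coset L g] ⊓ K /ᵍ L := by
            ext v
            simp only [Subgroup.mem_inf, mem_cent1_comm (g := v), coset_mul (nL g) (nL t)]
            exact and_congr_left fun hv => mul_mem_cancel_right (mem_cent1_comm.1 (h8 hv))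
          simp only [h4 g t ht]
          rw [← Subgroup.inf_relIndex_right, h9, Subgroup.inf_relIndex_right]
      · exact (hc.lt.not_ge ((le_inf le_rfl (le_top.trans (inv L hc.normalV φ hφ (tr φ hφ (by
          rw [← dot_Ind_ne_zero hc.lt.le (CF_inv (Irr_CF hθ)), ← h2, dot_Irr_self hθ]
          exact one_ne_zero))))).trans h1)).elim) χ hχ (by rw [dot_Irr_self hχ]; exact one_ne_zero)
  obtain ⟨g, -, hg⟩ := Finset.exists_le_of_sum_le (f := fun _ => (deg χ).factorization p)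
    Finset.univ_nonempty (by simpa using h2)
  exact ⟨g, fun t ht => hg.trans (h3 g t ht ▸ (hp.pow_dvd_iff_le_factorization
    Subgroup.index_ne_zero_of_finite).1 (by simpa using h1 (g * t)))⟩

theorem prim_of [Fintype X] (χ : IrrCharacter X) (h : ¬ ∃ H : Subgroup X, H ≠ ⊤ ∧ ∃ θ : H → ℂ,
    IsCharacter H θ ∧ indFun H θ = (χ : X → ℂ)) :
    ¬ ∃ T, T < ⊤ ∧ ∃ ψ ∈ Irr T, Ind T ⊤ ψ = (χ : X → ℂ) := fun ⟨T, h1, ψ, hψ, e⟩ => by
  obtain ⟨θ, hθ, rfl⟩ := exists_ext_of_Irr hψ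
  exact h ⟨T, h1.ne, θ, hθ.isCharacter, by rw [← Ind_ext, e]⟩

end Cfsg.Agent.PF.CH
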