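import Cfsg.Agent.Isa.J2
import Cfsg.Agent.S0205
import Cfsg.Agent.BG.S1

/-! Isaacs–Navarro: groups whose real irreducible characters have `p'`-degree. (helper12) -/

set_option autoImplicit false
set_option maxSynthPendingDepth 3
set_option linter.unusedVariables false
set_option linter.unusedSectionVars false

namespace Cfsg.Agent.PF.CH

open Cfsg.Agent.BG
open scoped _root_.Classical ComplexConjugate commutatorElement

universe u
variable {X : Type u} [Group X] [Finite X]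
variable {A B C D E G H K L M N P Q R S T U : Subgroup X} {χ ψ φ θ ω η ξ β τ ν : X → ℂ}
  {a b g s t x y : X} {p q e m n : ℕ}

local notation "Sol" => Group.IsSolvable

theorem mu_star : mu C (star χ) (star ξ) = mu C χ ξ := by
  rw [mu, mu, dot_star_star, ← conj_dot, Complex.conj_re]

theorem dot_star_ne : dot C (star χ) (star ξ) ≠ 0 ↔ dot C χ ξ ≠ 0 := by
  rw [dot_star_star, Ne, dot_eq_zero_comm]

theorem dot_Ind_ext (hN : N ⊴ G) (hNS : N ≤ S) (hS : S ≤ G ⊓ inertia θ) (hθ : θ ∈ Irr N)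
    (hη : η ∈ CF S) (e : Res N η = θ) : dot N (Ind S G η) θ = S.relIndex (G ⊓ inertia θ) := by
  have hSG := hS.trans inf_le_left
  have h1 : dot S (∑ φ ∈ cfclass G θ, φ) η * #S = #N := by
    rw [mul_comm, card_mul_dot_of_support hNS fun g _ hg => by
      rw [Finset.sum_apply]
      exact Finset.sum_eq_zero fun φ h => CF_zero (Irr_CF (cfclass_subset_Irr hN.norm hθ h)) hg,
      ← dot_Res_self_right, e, dot_sum_cfclass hN.norm hθ hθ, if_pos (self_mem_cfclass θ), mul_one]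
  rw [← dot_Ind_right hN.le (CF_inv (Ind_mem_CF hSG)), dot_Ind_left hSG (CF_inv (Ind_mem_CF hN.le)),
    ← conj_dot, Ind_eq_sum_cfclass hN (Irr_CF hθ), dot_smul_left,
    ← Subgroup.relIndex_mul_relIndex _ _ _ hNS hS, eq_div_of_mul_eq (cardC_ne_zero S) h1,
    ← card_mul_relIndex hNS]
  have := cardC_ne_zero N
  have : (N.relIndex S : ℂ) ≠ 0 := Nat.cast_ne_zero.2 (relIndex_pos _ _).ne'
  push_cast
  rw [show ∀ a b c : ℂ, a ≠ 0 → c ≠ 0 → a * b * (c / (c * a)) = b from fun a b c _ _ => by field_simp,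
    map_natCast] <;> assumption

theorem exists_real_of_odd (hN : N ⊴ G) (hθ : θ ∈ Irr N) (ht : t ∈ G) (h : cj t θ = star θ)
    (hψ : IsChar G ψ) (hr : star ψ = ψ) (ho : Odd (mu N ψ θ)) :
    ∃ χ ∈ Irr G, star χ = χ ∧ dot N χ θ ≠ 0 := by
  by_contra! h0
  rw [mu_trans hN.le le_rfl hψ (Irr_isChar hθ), ← ZMod.natCast_ne_zero_iff_odd, Nat.cast_sum] at ho
  refine ho (Finset.sum_involution (fun χ _ => star χ) (fun χ h1 => ?_) (fun χ h1 h2 e => h2 ?_)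
    (fun χ => Irr_star) fun χ _ => star_star χ)
  · have e1 : mu G ψ (star χ) = mu G ψ χ := by rw [← mu_star, hr, star_star]
    have e2 : mu N (star χ) θ = mu N χ θ := by
      rw [← mu_star, star_star, ← h, mu_cj_right (le_inertia_of_CF (Irr_CF h1) ht) (hN.norm ht)]
    rw [e1, e2, CharTwo.add_self_eq_zero]
  · rw [mu_eq_of (χ := χ) (ξ := θ) (m := 0) (by simpa using h0 χ h1 e)]; simp

theorem exists_ext_ker (hK : T ≤ N[K]) (hN : N ≤ T) (h : T ≤ K ⊔ N) (hθ : θ ∈ Irr N)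
    (hk : N ⊓ K ≤ cfker θ) : ∃ η ∈ Irr T, Res N η = θ ∧ T ⊓ K ≤ cfker η := by
  obtain ⟨α, h1, rfl⟩ := exists_ifl (hN.trans hK) hθ hk
  have e : T /ᵍ K = N /ᵍ K :=
    le_antisymm ((quotientSK hK (hN.trans hK)).2 h) (quotientS K hN)
  exact ⟨_, ifl_irr hK (e ▸ h1), Res_ifl hN, ifl_ker hK⟩

theorem exists_real_over (hN : N ⊴ G) (hθ : θ ∈ Irr N) (h1 : θ 1 = 1) (ht : t ∈ G)
    (h : cj t θ = star θ) (hS : S ≤ G ⊓ inertia θ) (htS : t ∈ N[S]) (hk : N ⊓ S ≤ cfker θ)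
    (ho : ¬ 2 ∣ (N ⊔ S).relIndex (G ⊓ inertia θ)) : ∃ χ ∈ Irr G, star χ = χ ∧ dot N χ θ ≠ 0 := by
  have hn := (hS.trans inf_le_left).trans hN.norm
  have h2 := (cfker_normal hθ).norm
  have h3 := (hS.trans inf_le_right).trans (inertia_le_normalizer_cfker θ)
  have l : N ⊔ S ≤ G ⊓ inertia θ := sup_le (le_inf_inertia hN.le (Irr_CF hθ)) hS
  obtain ⟨η, h4, h5, h6⟩ := exists_ext_ker (T := N ⊔ S) (K := cfker θ ⊔ S) (sup_le (norm_of_commg_subl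
    ((comm_sup_le (normG _) h3 (commg_subl h2) (comm_le_of_inv hn hθ h1 (hS.trans inf_le_right))).trans
      le_sup_left)) (normsG le_sup_right)) le_sup_left
    (sup_le le_sup_right (le_sup_right.trans le_sup_left)) hθ (by
      rw [group_modl (.inr h3) (Irr_cfker_le hθ)]; exact sup_le le_rfl hk)
  have n := normsY (Subgroup.zpowers_le.2 (hN.norm ht)) (Subgroup.zpowers_le.2 htS)
    (Subgroup.mem_zpowers t)
  have h7 : cj t η = star η := CF_ext (cj_mem_CF (Irr_CF h4) n) (CF_star (Irr_CF h4)) fun x hx => by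
    obtain ⟨a, ha, b, hb, rfl⟩ := (mem_sup_norml hn).1 hx
    have e {a b} (ha : a ∈ N) (hb : b ∈ S) : η (a * b) = θ a := by
      rw [cfker_mul_right (Irr_CF h4) (h6 ⟨Subgroup.mem_sup_right hb, Subgroup.mem_sup_right hb⟩), ← h5,
        Res_of_mem _ ha]
    rw [cj_apply, Pi.star_apply, e ha hb, show t * (a * b) * t⁻¹ = t * a * t⁻¹ * (t * b * t⁻¹) by group,
      e (conj_mem_of_norm (hN.norm ht) ha) (conj_mem_of_norm htS hb), ← cj_apply t θ, h, Pi.star_apply]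
  refine exists_real_of_odd hN hθ ht h ((Irr_isChar h4).ind (l.trans inf_le_left)) (by
    rw [← Ind_star, ← h7, Ind_cj ht n]) ?_
  rw [mu_eq_of (dot_Ind_ext hN le_sup_left l hθ (Irr_CF h4) h5)]
  exact Nat.odd_iff.2 (Nat.two_dvd_ne_zero.1 ho)

theorem exists_inverted_ab (hN : IsMulCommutative N) (hs : s ∈ N[N]) (h2 : orderOf s = 2 ^ n)
    (hc : s ∉ C[N]) : ∃ t ∈ Subgroup.zpowers s, ∃ θ ∈ Irr N, ¬ N ≤ cfker θ ∧ cj t θ = star θ := by
  have h0 : ∃ k, s ^ 2 ^ k ∈ C[N] := ⟨n, by rw [← h2, pow_orderOf_eq_one]; exact one_mem _⟩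
  obtain ⟨k, hk⟩ := Nat.exists_eq_succ_of_ne_zero (n := Nat.find h0) fun e =>
    hc (by simpa [e] using Nat.find_spec h0)
  have h1 := Nat.find_min h0 (hk ▸ k.lt_succ_self)
  have h3 := Nat.find_spec h0
  rw [hk, pow_succ, pow_mul, pow_two] at h3
  have ht := pow_mem hs (2 ^ k)
  refine ⟨s ^ 2 ^ k, Subgroup.npow_mem_zpowers _ _, ?_⟩
  generalize s ^ 2 ^ k = t at *
  obtain ⟨θ, h4, h5, h6⟩ : ∃ θ ∈ Irr N, N ⊓ C1[t] ≤ cfker θ ∧ ¬ N ≤ cfker θ := by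
    by_contra! h
    have := le_of_cfker (sub_abelian_normal hN inf_le_left) le_rfl h
    exact h1 fun y hy => (mem_cent1.1 (this hy).2)
  refine ⟨θ, h4, h6, CF_ext (cj_mem_CF (Irr_CF h4) ht) (CF_star (Irr_CF h4)) fun x hx => ?_⟩
  have h7 := conj_mem_of_norm ht hx
  have h8 : t * x * t⁻¹ * x ∈ N ⊓ C1[t] := ⟨mul_mem h7 hx, mem_cent1.2 (by
    have := conj_eq_of_cent h3 hx
    calc _ = (t * t * x * (t * t)⁻¹) * (t * x * t⁻¹) * t := by rw [this, hN.comm h7 hx]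
      _ = _ := by group)⟩
  rw [cj_apply, Pi.star_apply, Complex.star_def, ← Irr_apply_inv h4, ← cfker_mul (h5 h8) x⁻¹,
    mul_inv_cancel_right]

theorem exists_inverted (hs : s ∈ N[N]) (h2 : orderOf s = 2 ^ n)
    (hc : ¬ ⁅N, Subgroup.zpowers s⁆ ≤ ⁅N, N⁆) :
    ∃ t ∈ Subgroup.zpowers s, ∃ θ ∈ Irr N, θ 1 = 1 ∧ ¬ N ≤ cfker θ ∧ cj t θ = star θ := by
  have n1 := (der_normal N).norm
  have n2 := norms_der (Subgroup.zpowers_le.2 hs)
  have n3 := n2 (Subgroup.mem_zpowers s)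
  obtain ⟨k, -, hk⟩ := (Nat.dvd_prime_pow Nat.prime_two).1 (h2 ▸ orderOf_coset_dvd n3)
  have ab := sub_der1_abelian (le_refl ⁅N, N⁆)
  obtain ⟨t, h3, θ, h4, h5, h6⟩ := exists_inverted_ab ab (quotient_norms _ (Subgroup.zpowers_le.2 hs)
    (mem_quotient n3 (Subgroup.mem_zpowers s))) hk fun h => hc ((quotient_cents2 n1 n2).1 (by
      rw [quotient_zpowers n3, centsC]; exact Subgroup.zpowers_le.2 h))
  rw [← quotient_zpowers n3] at h3
  obtain ⟨t, h7, h8, rfl⟩ := mem_quotient_iff.1 h3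
  refine ⟨t, h7, _, ifl_irr n1 h4, (Irr_apply_one_iff (ifl_irr n1 h4)).2
    ((le_inf (der_sub N) le_rfl).trans (ifl_ker n1)), fun h => h5 ((le_cfker_Irr h4).2 fun z hz => ?_), ?_⟩
  · obtain ⟨z, h9, -, rfl⟩ := mem_quotient_iff.1 hz
    rw [← ifl_of_mem (α := θ) h9, cfker_apply (h h9), ifl_one]
  · rw [cj_ifl n1 (Subgroup.zpowers_le.2 hs h7) h8, h6, ifl, ifl, ← Res_star]; rfl

theorem star_ifl {α : Quo K → ℂ} : star (ifl K G α) = ifl K G (star α) := by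
  rw [ifl, ifl, ← Res_star]; rfl

theorem sylow_le_of_index [Fact p.Prime] (hT : T ≤ G) (h : ¬ p ∣ T.relIndex G) :
    ∃ P, SylowIn p P G ∧ P ≤ T := by
  obtain ⟨P, hP⟩ := Sylow_exists p T
  exact ⟨P, pHall_trans_idx hP hT ((p'natE Fact.out).2 h), hP.le⟩

theorem norm_inertia (ht : t ∈ G) (h : cj t θ = star θ) : t ∈ N[G ⊓ inertia θ] :=
  normsI (normsG (Subgroup.zpowers_le.2 ht)) (Subgroup.zpowers_le.2 (Subgroup.mem_normalizer_iff.2
    fun x => by rw [← mem_inertia_cj, h, inertia_star])) (Subgroup.mem_zpowers t)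

theorem normal_Sylow_of_real [hp : Fact p.Prime] (n : ℕ) : ∀ {X : Type u} [Group X] [Finite X]
    {G P L : Subgroup X}, #G = n → SylowIn p P G → L ⊴ G → Sol L → P ≤ L →
    (∀ M, M ⊴ G → ¬ 2 ∣ M.relIndex G → G ≤ M ⊔ P) → (∀ χ ∈ Irr G, star χ = χ → ¬ p ∣ deg χ) →
    G ≤ N[P] := by
  induction n using Nat.strong_induction_on with | _ n ih => ?_
  intro X _ _ G P L hn hP hL sL PL hM hd
  by_cases h0 : L = ⊥
  · rw [le_bot_iff.1 (PL.trans h0.le), norm_bot]; exact le_top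
  obtain ⟨N, mN, NL⟩ := minnormal_exists h0 hL.norm
  obtain ⟨q, hq, aN⟩ := minnormal_solvable mN NL sL
  have hN : N ⊴ G := ⟨NL.trans hL.le, mN.norm⟩
  have nP := hP.le.trans hN.norm
  have h1 : G ≤ N[N ⊔ P] := norms_of_quotient hN.norm (normalYl nP) (by
    rw [quotientYidl nP]
    refine ih _ (hn ▸ ltn_quotient mN.ne hN.le) rfl (quotient_pHall hN.norm hP) (quotient_normal N hL)
      (quotient_sol N sL) (quotientS N PL) (fun M h1 h2 => ?_) fun χ h1 h2 => ?_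
    · obtain ⟨M, h3, h4, rfl⟩ := inv_quotientN hN h1
      rw [← quotientY (h4.le.trans hN.norm) nP]
      exact quotientS N (hM M h4 (by
        rwa [index_quotient_eq h4.le hN.norm (inf_le_right.trans h3)] at h2))
    · rw [← deg_ifl (G := G)]
      exact hd _ (ifl_irr hN.norm h1) (by rw [star_ifl, h2]))
  by_cases e : q = p
  · rwa [sup_of_le_right (normal_sub_Hall hP hN (e ▸ aN.pg).pi)] at h1
  have := Fact.mk hq
  have cN : (#N).Coprime #P := pnat_coprime' (p'group_of_ne aN.pg e) hP.pi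
  have l := sup_le hN.le hP.le
  obtain ⟨H, hH⟩ : ∃ H, H = G ⊓ N[P] := ⟨_, rfl⟩
  have HG : H ≤ G := hH ▸ inf_le_left
  have HP : H ≤ N[P] := hH ▸ inf_le_right
  have nH := HG.trans hN.norm
  have h2 : G ≤ N ⊔ H := (Frattini_arg ⟨l, h1⟩ (pHall_subl le_sup_right l hP)).ge.trans
    (sup_le (sup_le_sup_left ((le_inf hP.le (normG P)).trans hH.ge) _) (hH.ge.trans le_sup_right))
  rcases mN.min (N ⊓ C[P]) inf_le_left (h2.trans (sup_le (sub_abelian_norm aN.abelian inf_le_left)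
    (normsI nH (norms_cent HP)))) with h3 | h3
  swap
  · exact h2.trans (sup_le (h3.ge.trans (inf_le_right.trans (cent_sub P))) HP)
  have h4 : N ⊓ H = ⊥ := by
    rw [eq_bot_iff, ← h3, ← coprime_norm_cent nP cN]; exact inf_le_inf_left _ HP
  obtain ⟨t, h5, θ, h6, h7, h8⟩ : ∃ t ∈ H, ∃ θ ∈ Irr N, ¬ N ≤ cfker θ ∧ cj t θ = star θ := by
    by_cases e2 : q = 2
    · obtain ⟨θ, h5, h6⟩ := by simpa using mt (comm_eq_bot_of_cfker (le_refl N)) mN.ne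
      refine ⟨1, one_mem _, θ, h5, h6, CF_ext (by simpa using Irr_CF h5) (CF_star (Irr_CF h5))
        fun x hx => ?_⟩
      rw [cj_one, Pi.star_apply, Complex.star_def, ← Irr_apply_inv h5,
        inv_eq_of_mul_eq_one_left (a := x) (b := x) (by rw [← pow_two, ← e2, aN.pow hx])]
    obtain ⟨S, hS⟩ := Sylow_exists 2 H
    by_cases h5 : S ≤ C[N]
    · have h6 : H ⊓ C[N] ⊴ G := ⟨inf_le_left.trans HG, h2.trans (sup_le
        (cents_norm (centsC.1 inf_le_right)) (subcent_normal nH).norm)⟩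
      refine (mN.ne (le_bot_iff.1 (h4 ▸ le_inf le_rfl (hN.le.trans ((hM _ h6 ?_).trans
        (sup_le inf_le_left (hH ▸ le_inf hP.le (normG P)))))))).elim
      rw [← Subgroup.relIndex_mul_relIndex _ _ _ inf_le_left HG, Nat.prime_two.dvd_mul, not_or,
        (Sdprod.mk (le_antisymm (sup_le hN.le HG) h2) nH h4).relIndexr]
      exact ⟨fun h => hS.not_dvd (h.trans (Subgroup.relIndex_dvd_of_le_left _ (le_inf hS.le h5))),
        (p'natE Nat.prime_two).1 (p'group_of_ne aN.pg e2)⟩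
    obtain ⟨s, h6, h7⟩ := SetLike.not_le_iff_exists.1 h5
    obtain ⟨k, hk⟩ := IsPGroup.iff_orderOf.1 hS.pg ⟨s, h6⟩
    obtain ⟨t, h8, h9⟩ := exists_inverted_ab aN.abelian (nH (hS.le h6))
      (by rw [← hk, ← Subgroup.orderOf_coe]) h7
    exact ⟨t, Subgroup.zpowers_le.2 (hS.le h6) h8, h9⟩
  have h9 := (Irr_apply_one_iff h6).2 ((der1_eq_bot.2 aN.abelian).le.trans bot_le)
  have h10 := le_inf_inertia hN.le (Irr_CF h6)
  obtain ⟨χ, h11, h12, h13⟩ := exists_real_over hN h6 h9 (HG h5) h8 (S := G ⊓ inertia θ ⊓ H) inf_le_left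
    (normsI (Subgroup.zpowers_le.2 (norm_inertia (HG h5) h8)) (normsG (Subgroup.zpowers_le.2 h5))
      (Subgroup.mem_zpowers t))
    ((inf_le_inf_left _ inf_le_right).trans (h4.le.trans bot_le)) (by
      rw [← group_modl (.inr nH) h10, inf_of_le_left (inf_le_left.trans h2), Subgroup.relIndex_self]
      norm_num)
  obtain ⟨k, -, -, h14⟩ := dvdn_constt_Res1_irr1 hN h11 h6 h13
  obtain ⟨P₁, h15, h16⟩ := sylow_le_of_index (p := p) (inf_le_left : G ⊓ inertia θ ≤ G) fun h =>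
    hd χ h11 h12 (h14 ▸ ((Subgroup.inf_relIndex_left G _ ▸ h).mul_left _).mul_right _)
  obtain ⟨g, hg, rfl⟩ := Sylow_trans h15 hP
  have h17 : BG.cj g P₁ ≤ N ⊔ P₁ := by
    have := cj_of_norm (inv_mem (h1 hg))
    rw [cj_sup, BG.cj_inv_cj, cj_of_norm (inv_mem (hN.norm hg))] at this
    exact le_sup_right.trans this.ge
  refine (h7 ((coprime_cent_prod' nP cN (.inl (pgroup_sol hP.pg))).ge.trans (sup_le ?_
    (h3.le.trans bot_le)))).elim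
  rw [commGC]
  exact comm_le_of_inv nP h6 h9 (h17.trans ((sup_le h10 h16).trans inf_le_right))

/-- the subgroup generated by the `p`-elements -/
abbrev gen (p : ℕ) (X : Type*) [Group X] : Subgroup X :=
  Subgroup.closure {g : X | ∃ k : ℕ, orderOf g = p ^ k}

instance gen_normal : (gen p X).Normal := NormalIn.normal ⟨le_top, norms_closure fun g _ x ⟨k, h⟩ =>
  ⟨k, by rw [← h, orderOf_conj']⟩⟩

theorem le_gen [Fact p.Prime] (h : IsPGroup p P) : P ≤ gen p X := fun x hx => by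
  obtain ⟨k, hk⟩ := IsPGroup.iff_orderOf.1 h ⟨x, hx⟩
  exact Subgroup.subset_closure ⟨k, by rw [← hk, ← Subgroup.orderOf_coe]⟩

theorem not_dvd_gen [Fact p.Prime] : ¬ p ∣ (gen p X).relIndex ⊤ := fun h => by
  obtain ⟨P, hP⟩ := Sylow_exists p (⊤ : Subgroup X)
  exact hP.not_dvd (h.trans (Subgroup.relIndex_dvd_of_le_left _ (le_gen hP.pg)))

theorem gen_le [Fact p.Prime] (hM : M ⊴ U) (h : ¬ p ∣ M.relIndex U) (hU : gen p X ≤ U) :
    gen p X ≤ M := (Subgroup.closure_le _).2 fun x ⟨k, hk⟩ => by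
  obtain ⟨P, h1, h2⟩ := sylow_le_of_index hM.le h
  have hx : Subgroup.zpowers x ≤ U := Subgroup.zpowers_le.2 (hU (Subgroup.subset_closure ⟨k, hk⟩))
  obtain ⟨g, h3, h4⟩ := Sylow_subJ h1 hx (IsPGroup.of_card ((Nat.card_zpowers x).trans hk))
  exact cj_le_of_norm (hM.norm h3) h2 (h4 (Subgroup.mem_zpowers x))

theorem star_eq_iff_im : star χ = χ ↔ ∀ g, (χ g).im = 0 :=
  funext_iff.trans (forall_congr' fun g => Complex.conj_eq_iff_im)

theorem real_hyp (h : ∀ χ : IrrCharacter X, (∀ g, ((χ : X → ℂ) g).im = 0) →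
    ¬ p ∣ charDegree (χ : X → ℂ)) : ∀ χ ∈ Irr (⊤ : Subgroup X), star χ = χ → ¬ p ∣ deg χ :=
  fun χ h1 h2 => h ⟨χ, mem_Irr_top.1 h1⟩ (star_eq_iff_im.1 h2)

theorem norm_Sylow_of_gen [hp : Fact p.Prime] (hs : Sol (gen p X))
    (hd : ∀ χ ∈ Irr (⊤ : Subgroup X), star χ = χ → ¬ p ∣ deg χ) [U.Normal] (hU : gen 2 X ≤ U)
    (hi : (gen 2 X).relIndex U = p ^ n) (hP : SylowIn p P U) : U ≤ N[P] := by
  refine normal_Sylow_of_real _ rfl hP (norm_normalI (norm_of_normal (gen p X) U))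
    (solvableS inf_le_right hs) (le_inf hP.le (le_gen hP.pg)) (fun M h1 h2 => ?_) fun θ h1 h2 h3 => ?_
  · refine (sup_eq_of_coprime_idx h1.le hP.le ?_).ge
    exact ((Nat.Coprime.pow_left n ((Nat.Prime.coprime_iff_not_dvd hp.out).2 hP.not_dvd)).coprime_dvd_left
      (hi ▸ Subgroup.relIndex_dvd_of_le_left _ (gen_le h1 h2 hU)))
  · obtain ⟨χ, ⟨h4, h5, h6⟩, -⟩ := existsUnique_real (normal_top U) (fun h => not_dvd_gen
      (h.trans (Subgroup.relIndex_dvd_of_le_left _ hU))) h1 h2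
    exact hd χ h4 h6 (h3.trans (deg_dvd_deg (normal_top U) h1 h4 h5))

theorem sylow_normal_of_norm [hp : Fact p.Prime] (h : ∀ P, SylowIn p P U → U ≤ N[P]) (Q : Sylow p U) :
    (Q : Subgroup U).Normal :=
  normal_map_subtype_iff.1 ⟨Subgroup.map_subtype_le _, h _ (sylowIn_of_sylow Q)⟩

theorem real_below (hK : K ⊴ G) (hi : ¬ 2 ∣ K.relIndex G) (hχ : χ ∈ Irr G) (hr : star χ = χ)
    (hθ : θ ∈ Irr K) (h : dot K χ θ ≠ 0) : star θ = θ := by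
  obtain ⟨g, hg, e⟩ := mem_cfclass.1 ((constt_Res_conj hK hχ hθ (Irr_star hθ) h).1
    (by rwa [← hr, dot_star_ne]))
  have h1 : g ^ 2 ∈ inertia θ := by rw [mem_inertia, pow_two, ← cj_cj, e, cj_star, e, star_star]
  obtain ⟨k, hk⟩ := Nat.odd_iff.2 (Nat.two_dvd_ne_zero.1 hi)
  have h2 := le_inertia_of_CF (Irr_CF hθ) (pow_relIndex_mem hK.norm hg)
  rw [hk, pow_succ, pow_mul, Subgroup.mul_mem_cancel_left _ (pow_mem h1 k)] at h2
  rw [← e, mem_inertia.1 h2]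

theorem res_eq_of_real' (hL : L ⊴ K) (hi : ¬ 2 ∣ L.relIndex K)
    (hν : ν ∈ IrrFix L K) (hr : star ν = ν) (hθ : θ ∈ Irr K) (hd : dot L θ ν ≠ 0)
    (hr' : star θ = θ) : Res L θ = ν := by
  have := hL.subgroupOf
  haveI := Fintype.ofFinite (L.subgroupOf K)
  haveI := Fintype.ofFinite K
  have hνi := IrrFix_irr hν
  have ho := Nat.odd_iff.2 (Nat.two_dvd_ne_zero.1 hi)
  have h := Block.res_eq_of_over_pow _ K (L.subgroupOf K) rfl (S0205.result ho) ho (k := #K - 1)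
    ((Nat.coprime_self_sub_left Nat.card_pos).2 (Nat.coprime_one_left _))
    (fun g _ => pow_card_sub_one g) (Irr_subgroupOf hL.le hνi) (fun n => by
      rw [Subgroup.coe_pow, pow_card_sub_one, Subgroup.coe_inv, Irr_apply_inv hνi]
      exact congrFun hr _) (fun g => funext fun n => congrFun (IrrFix_inv hν g.2) n)
    _ (mem_Irr.1 hθ).2 (by rwa [dot_eq_sub hL.le] at hd) ((star_eq_iff hθ).1 hr')
  exact CF_ext (Res_mem_CF_of_le hL.le (Irr_CF hθ)) (Irr_CF hνi) fun g hg => by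
    rw [Res_of_mem _ hg]; exact h ⟨⟨g, hL.le hg⟩, hg⟩

theorem deg_real (hK : K ⊴ G) (hi : ¬ 2 ∣ K.relIndex G) (hχ : χ ∈ Irr G) (hr : star χ = χ)
    (hθ : θ ∈ Irr K) (h : dot K χ θ ≠ 0) : deg χ = (cfclass G θ).card * deg θ := by
  have h1 := real_below hK hi hχ hr hθ h
  have h2 := le_inf_inertia hK.le (Irr_CF hθ)
  have h3 := hK.subl h2 inf_le_left
  have h4 : ¬ 2 ∣ K.relIndex (G ⊓ inertia θ) := fun h =>
    hi (h.trans (relIndex_dvd_of_norm hK.norm inf_le_left))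
  obtain ⟨η, ⟨h5, h6, h7⟩, -⟩ := existsUnique_real h3 h4 hθ h1
  rw [(existsUnique_real hK hi hθ h1).unique ⟨hχ, h, hr⟩
    ⟨Ind_inertia_irr hK hθ h2 inf_le_left le_rfl h5 h6,
      by rwa [dot_Ind_inertia hK hθ h2 inf_le_left le_rfl h5 h6], by rw [← Ind_star, h7]⟩,
    (Irr_isChar h5).deg_Ind inf_le_left, card_cfclass, Subgroup.inf_relIndex_left, ← deg_Res K,
    res_eq_of_real' h3 h4 (mem_IrrFix.2 ⟨hθ, inf_le_right⟩) h1 h5 h6 h7]

theorem relP_bot (hp : p.Prime) (hP : PiGrp {p} P) : RelP p ⊥ P :=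
  ⟨hp, normal_bot P, by rwa [Subgroup.relIndex_bot_left]⟩

theorem under_conj (hp : p.Prime) (hP : SylowIn p P G) (hK : K ⊴ G) (hχ : χ ∈ Irr G)
    (hd : ¬ p ∣ deg χ) : (∃ θ ∈ IrrFix K P, dot K χ θ ≠ 0) ∧ ∀ θ ∈ IrrFix K P, dot K χ θ ≠ 0 →
      (IrrFix K P).filter (dot K χ · ≠ 0) = cfclass (G ⊓ N[P]) θ := by
  have := Fact.mk hp
  obtain ⟨θ, h⟩ := (relP_bot hp hP.pi).under_eq (normal_bot G) hP.le hP.not_dvd hK bot_le hχ hd
  exact ⟨⟨θ, Finset.mem_filter.1 (h ▸ self_mem_cfclass θ)⟩, fun φ h1 h2 =>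
    h.trans (cfclass_eq_of_mem (h ▸ Finset.mem_filter.2 ⟨h1, h2⟩)).symm⟩

theorem PCor.deg_mod {V : Finset (X → ℂ)} (h : PCor p C V (IrrFix C P)) (hp : p.Prime) (hP : PiGrp {p} P)
    (hC : C ≤ K) (hn : P ≤ N[C]) (hθ : θ ∈ IrrFix K P) (hV : θ ∈ V) (hη : η ∈ IrrFix C P)
    (hm : ¬ p ∣ mu C θ η) : (deg η : ZMod p) = deg θ ∨ (deg η : ZMod p) = -deg θ := by
  have := Fact.mk hp
  rw [deg_eq_sum_mu hC (Irr_isChar (IrrFix_irr hθ)), sum_modEq_fixed hp hP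
    (fun x hx β h => Irr_cj h (hn hx)) _ (fun x hx β _ => by
      rw [mu_cj_right (IrrFix_inv hθ hx) (hn hx), deg_cj]), Nat.cast_sum,
    Finset.sum_eq_single_of_mem (s := Finset.filter _ _) η hη fun β h1 h2 => (ZMod.natCast_eq_zero_iff _ _).2
      ((by_contra fun h3 => h2 (h.uniq θ hV β h1 η hη h3 hm) : p ∣ mu C θ β).mul_right _), Nat.cast_mul]
  rcases sq_eq_one_iff.1 (h.sq θ hV η hη hm) with e | e <;> simp [e]

theorem real_corr (hp : p.Prime) (hP : SylowIn p P G) (hK : K ⊴ G) (hi : ¬ 2 ∣ K.relIndex G)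
    (hQ : K ≤ N[K ⊓ P]) (hN : N = G ⊓ N[P]) (hd : ∀ χ ∈ Irr G, star χ = χ → ¬ p ∣ deg χ) :
    ∃ f : (X → ℂ) → X → ℂ, Set.BijOn f {χ | χ ∈ Irr G ∧ star χ = χ}
      {ξ | ξ ∈ Irr N ∧ star ξ = ξ ∧ ¬ p ∣ deg ξ} ∧ ∀ χ ∈ Irr G, star χ = χ →
        (deg (f χ) : ZMod p) = deg χ ∨ (deg (f χ) : ZMod p) = -deg χ := by
  have := Fact.mk hp
  obtain ⟨C, hC⟩ : ∃ C, C = K ⊓ N[P] := ⟨_, rfl⟩
  have nK := hP.le.trans hK.norm
  have NG : N ≤ G := hN ▸ inf_le_left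
  have NP : N ≤ N[P] := hN ▸ inf_le_right
  have CK : C ≤ K := hC ▸ inf_le_left
  have nC : C ⊴ N := ⟨hC ▸ hN ▸ inf_le_inf_right _ hK.le, hC ▸ normsI (NG.trans hK.norm) (norms_norm NP)⟩
  have iC : ¬ 2 ∣ C.relIndex N := by
    rw [show C = N ⊓ K by rw [hC, hN, inf_right_comm, inf_of_le_right hK.le], Subgroup.inf_relIndex_left]
    exact fun h => hi (h.trans (relIndex_dvd_of_norm hK.norm NG))
  have sN : SylowIn p P N := pHall_subl (hN ▸ le_inf hP.le (normG P)) NG hP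
  have eN : N ⊓ N[P] = N := inf_of_le_left NP
  have pc : PCor p C (IrrFix K P) (IrrFix C P) := hC ▸ RelP.pcor ⟨hp, inf_comm P K ▸ norm_normalI nK,
    hP.pi.of_dvd (Subgroup.relIndex_dvd_card _ _)⟩ ⟨inf_le_left, hQ⟩ nK (Sylow_setI_normal hK hP).not_dvd
  have cK {g θ} (hg : g ∈ N) (h : θ ∈ IrrFix K P) := cj_mem_IrrFix (hK.norm (NG hg)) (NP hg) h
  have cC {g θ} (hg : g ∈ N) (h : θ ∈ IrrFix C P) := cj_mem_IrrFix (nC.norm hg) (NP hg) h
  obtain ⟨R, hR⟩ : ∃ R : (X → ℂ) → (X → ℂ) → Prop, ∀ χ ξ, R χ ξ ↔ ∃ θ ∈ IrrFix K P, ∃ η ∈ IrrFix C P,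
    dot K χ θ ≠ 0 ∧ dot C ξ η ≠ 0 ∧ ¬ p ∣ mu C θ η := ⟨_, fun _ _ => Iff.rfl⟩
  have hA χ (h1 : χ ∈ Irr G) (h2 : star χ = χ) : ∃ ξ, (ξ ∈ Irr N ∧ star ξ = ξ) ∧ R χ ξ := by
    obtain ⟨θ, h3, h4⟩ := (under_conj hp hP hK h1 (hd χ h1 h2)).1
    obtain ⟨η, h5, h6⟩ := pc.exi θ h3
    have h7 := real_below hK hi h1 h2 (IrrFix_irr h3) h4
    obtain ⟨ξ, ⟨h8, h9, h10⟩, -⟩ := existsUnique_real nC iC (IrrFix_irr h5) (pc.uniq θ h3 _
      (mem_IrrFix.2 ⟨Irr_star (IrrFix_irr h5), inertia_star η ▸ IrrFix_inv h5⟩) η h5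
      (by rwa [← h7, mu_star]) h6)
    exact ⟨ξ, ⟨h8, h10⟩, (hR _ _).2 ⟨θ, h3, η, h5, h4, h9, h6⟩⟩
  have hD χ (h1 : χ ∈ Irr G) (h2 : star χ = χ) ξ (h3 : ξ ∈ Irr N) (h4 : star ξ = ξ) (h : R χ ξ) :
      (deg ξ : ZMod p) = deg χ ∨ (deg ξ : ZMod p) = -deg χ := by
    obtain ⟨θ, h5, η, h6, h7, h8, h9⟩ := (hR _ _).1 h
    have e1 : ((cfclass G θ).card : ZMod p) = (cfclass N η).card := by
      rw [card_modEq_fixed hp hP.pi fun x hx β hβ => by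
        obtain ⟨g, hg, rfl⟩ := mem_cfclass.1 hβ
        exact mem_cfclass.2 ⟨g * x, mul_mem hg (hP.le hx), (cj_cj _ _ _).symm⟩]
      have e2 := (under_conj hp hP hK h1 (hd χ h1 h2)).2 θ h5 h7
      rw [← hN] at e2
      rw [show (cfclass G θ).filter (P ≤ inertia ·) = cfclass N θ from e2 ▸ Finset.ext fun β => by
        simp only [Finset.mem_filter, mem_IrrFix]
        exact ⟨fun h => have a := cfclass_subset_Irr hK.norm (IrrFix_irr h5) h.1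
          ⟨⟨a, h.2⟩, (constt_Res_conj hK h1 (IrrFix_irr h5) a h7).2 h.1⟩,
          fun h => ⟨(constt_Res_conj hK h1 (IrrFix_irr h5) h.1.1 h7).1 h.2, h.1.2⟩⟩, card_cfclass,
        card_cfclass, ← Subgroup.inf_relIndex_left N, ← Subgroup.inf_relIndex_left N (inertia η),
        show N ⊓ inertia θ = N ⊓ inertia η from Subgroup.ext fun x => and_congr_right fun hx =>
          pc.inv_iff (hK.norm (NG hx)) (nC.norm hx) (NP hx) h5 h6 h9]
    rw [deg_real hK hi h1 h2 (IrrFix_irr h5) h7, deg_real nC iC h3 h4 (IrrFix_irr h6) h8, Nat.cast_mul,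
      Nat.cast_mul, e1]
    rcases pc.deg_mod hp hP.pi CK (sN.le.trans nC.norm) h5 h5 h6 h9 with e | e <;> simp [e]
  choose! f hf using hA
  refine ⟨f, ⟨fun χ h => ⟨(hf χ h.1 h.2).1.1, (hf χ h.1 h.2).1.2, fun h1 => hd χ h.1 h.2 ?_⟩,
    fun χ h χ' h' e => ?_, fun ξ h => ?_⟩, fun χ h1 h2 =>
      hD χ h1 h2 _ (hf χ h1 h2).1.1 (hf χ h1 h2).1.2 (hf χ h1 h2).2⟩
  · rw [← ZMod.natCast_eq_zero_iff] at h1 ⊢
    rcases hD χ h.1 h.2 _ (hf χ h.1 h.2).1.1 (hf χ h.1 h.2).1.2 (hf χ h.1 h.2).2 with e | e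
    · rwa [← e]
    · rwa [← neg_eq_zero, ← e]
  · obtain ⟨θ, h5, η, h6, h7, h8, h9⟩ := (hR _ _).1 (hf χ h.1 h.2).2
    obtain ⟨θ', h5', η', h6', h7', h8', h9'⟩ := (hR _ _).1 (hf χ' h'.1 h'.2).2
    obtain ⟨g, hg, rfl⟩ := mem_cfclass.1 ((constt_Res_conj nC (hf χ h.1 h.2).1.1 (IrrFix_irr h6)
      (IrrFix_irr h6') h8).1 (e ▸ h8'))
    obtain rfl := pc.inj _ (cK hg h5) θ' h5' _ h6' (by rwa [mu_cj (nC.norm hg)]) h9'
    rw [dot_cj_right (CF_inv (Irr_CF h'.1)) (NG hg) (hK.norm (NG hg))] at h7'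
    exact (existsUnique_real hK hi (IrrFix_irr h5) (real_below hK hi h.1 h.2 (IrrFix_irr h5) h7)).unique
      ⟨h.1, h7, h.2⟩ ⟨h'.1, h7', h'.2⟩
  · obtain ⟨η, h3, h4⟩ := (under_conj hp sN nC h.1 h.2.2).1
    obtain ⟨θ, h5, h6⟩ := pc.surj η h3
    have h7 := real_below nC iC h.1 h.2.1 (IrrFix_irr h3) h4
    obtain ⟨χ, ⟨h8, h9, h10⟩, -⟩ := existsUnique_real hK hi (IrrFix_irr h5) (pc.inj _
      (mem_IrrFix.2 ⟨Irr_star (IrrFix_irr h5), inertia_star θ ▸ IrrFix_inv h5⟩) θ h5 η h3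
      (by rwa [← h7, mu_star]) h6)
    refine ⟨χ, ⟨h8, h10⟩, ?_⟩
    obtain ⟨θ', h5', η', h6', h7', h8', h9'⟩ := (hR _ _).1 (hf χ h8 h10).2
    have e2 := (under_conj hp hP hK h8 (hd χ h8 h10)).2 θ h5 h9
    obtain ⟨g, hg, rfl⟩ := mem_cfclass.1 (e2 ▸ Finset.mem_filter.2 ⟨h5', h7'⟩ : θ' ∈ cfclass _ θ)
    rw [← hN] at hg
    obtain rfl := pc.uniq _ h5' _ (cC hg h3) η' h6' (by rwa [mu_cj (nC.norm hg)]) h9'
    rw [dot_cj_right (CF_inv (Irr_CF (hf χ h8 h10).1.1)) hg (nC.norm hg)] at h8'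
    exact (existsUnique_real nC iC (IrrFix_irr h3) h7).unique
      ⟨(hf χ h8 h10).1.1, h8', (hf χ h8 h10).1.2⟩ ⟨h.1, h4, h.2.1⟩

theorem star_ez {χ : IrrCharacter G} : star (ez χ) = ez χ ↔ ∀ g, (χ.1 g).im = 0 := by
  rw [star_eq_iff_im]
  refine ⟨fun h g => by simpa only [ez_coe] using h g, fun h g => ?_⟩
  by_cases hg : g ∈ G
  · rw [ez_of_mem _ hg, h]
  · rw [CF_zero (Irr_CF (ez_irr χ)) hg, Complex.zero_im]

theorem real_bij (hp : p.Prime) (hP : SylowIn p P ⊤) [K.Normal] (hi : ¬ 2 ∣ K.relIndex ⊤)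
    (hQ : K ≤ N[K ⊓ P]) (hd : ∀ χ ∈ Irr (⊤ : Subgroup X), star χ = χ → ¬ p ∣ deg χ) :
    ∃ f : {χ : IrrCharacter X // ∀ g, (χ.1 g).im = 0} → {ξ : IrrCharacter N[P] //
      (∀ n, (ξ.1 n).im = 0) ∧ ¬ p ∣ charDegree ξ.1}, Function.Bijective f ∧ ∀ χ,
      ((charDegree (f χ).1.1 : ZMod p) = charDegree χ.1.1 ∨
        (charDegree (f χ).1.1 : ZMod p) = -charDegree χ.1.1) := by
  obtain ⟨f, h1, h2⟩ := real_corr hp hP (normal_top K) hi hQ (top_inf_eq _).symm hd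
  have m (χ : {χ : IrrCharacter X // ∀ g, (χ.1 g).im = 0}) :
    χ.1.1 ∈ {χ | χ ∈ Irr ⊤ ∧ star χ = χ} := ⟨mem_Irr_top.2 χ.1.2, star_eq_iff_im.2 χ.2⟩
  choose F hF using fun χ => exists_ez (h1.1 (m χ)).1
  refine ⟨fun χ => ⟨F χ, star_ez.1 (hF χ ▸ (h1.1 (m χ)).2.1), by
      rw [← deg_ez, hF]; exact (h1.1 (m χ)).2.2⟩,
    ⟨fun χ ψ e => Subtype.ext (Subtype.ext (h1.2.1 (m χ) (m ψ) ?_)), fun ξ => ?_⟩, fun χ => ?_⟩
  · rw [← hF, ← hF, show F χ = F ψ from congrArg Subtype.val e]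
  · obtain ⟨χ, h3, h4⟩ := h1.surjOn (show ez ξ.1 ∈ _ from Set.mem_ofPred.2 ⟨ez_irr ξ.1,
      star_ez.2 ξ.2.1, by rw [deg_ez]; exact ξ.2.2⟩)
    exact ⟨⟨⟨χ, mem_Irr_top.1 h3.1⟩, star_eq_iff_im.1 h3.2⟩, Subtype.ext (ez_inj
      ((hF _).trans h4))⟩
  · simp only [← deg_ez, hF]; exact h2 _ (m χ).1 (m χ).2

theorem gen2_norm [hp : Fact p.Prime] (hs : Sol (gen p X))
    (hd : ∀ χ ∈ Irr (⊤ : Subgroup X), star χ = χ → ¬ p ∣ deg χ) (hP : SylowIn p P ⊤) :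
    gen 2 X ≤ N[gen 2 X ⊓ P] :=
  norm_Sylow_of_gen (n := 0) hs hd le_rfl (by simp) (Sylow_setI_normal (normal_top _) hP)

end Cfsg.Agent.PF.CH
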