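import Cfsg.Agent.Isa.J5
import Cfsg.Agent.Block.Q8
import Mathlib.NumberTheory.GaussSum
import Mathlib.NumberTheory.MulChar.Lemmas
import Mathlib.FieldTheory.Finite.GaloisField

/-! Knörr's criterion for the `k(GV)` problem. (helper12) -/

set_option autoImplicit false
set_option maxSynthPendingDepth 3
set_option linter.unusedVariables false
set_option linter.unusedSectionVars false

namespace Cfsg.Agent.PF.CH

open Cfsg.Agent.BG Cfsg.Agent.Block
open scoped _root_.Classical ComplexConjugate commutatorElement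

universe u
variable {X : Type u} [Group X] [Finite X]
variable {A B C D E G H K L N P Q R S T U V W : Subgroup X} {χ ψ φ θ ω η ξ β τ ν : X → ℂ}
  {a b g h s t v x y : X} {p q r e m n : ℕ} {π : Set ℕ} {c : ℂ}

theorem card_le_of_gal {ι : Type*} (s : Finset ι) (f : ι → ℂ) (h0 : ∀ i ∈ s, f i ≠ 0)
    (hi : ∀ i ∈ s, IsIntegral ℤ (f i)) {b : ℝ} (h : ∀ σ : ℂ ≃+* ℂ, ∑ i ∈ s, ‖σ (f i)‖ ^ 2 ≤ b) :
    s.card ≤ b := by
  obtain ⟨σ, h1⟩ : ∃ σ : ℂ ≃+* ℂ, 1 ≤ ‖σ (∏ i ∈ s, f i)‖ := by_contra fun e => by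
    obtain ⟨n, h1, h2⟩ := Char.exists_pow_eq_one_of_forall_norm_le (Finset.prod_ne_zero_iff.2 h0)
      (IsIntegral.prod _ hi) fun σ => (not_le.1 (not_exists.1 e σ)).le
    exact e ⟨RingEquiv.refl ℂ, ((pow_eq_one_iff_of_nonneg (norm_nonneg _) h1.ne').1
      (by rw [← norm_pow, RingEquiv.refl_apply, h2, NormOneClass.norm_one])).ge⟩
  have h2 : ∀ i ∈ s, 0 < ‖σ (f i)‖ ^ 2 := fun i hi => pow_pos (norm_pos_iff.2 (by simpa using h0 i hi)) 2
  have h3 := Finset.sum_le_sum fun i hi => Real.log_le_sub_one_of_pos (h2 i hi)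
  rw [← Real.log_prod fun i hi => (h2 i hi).ne', Finset.prod_pow, ← norm_prod, ← map_prod,
    Finset.sum_sub_distrib, Finset.sum_const, nsmul_eq_mul, mul_one] at h3
  linarith [h σ, Real.log_nonneg (one_le_pow₀ (n := 2) h1)]

/-- algebraic integer combinations of characters of `H` (as functions on `H`) -/
inductive IC (H : Subgroup X) : (X → ℂ) → Prop
  | char {χ : X → ℂ} : IsChar H χ → IC H χ
  | congr {φ ψ : X → ℂ} : IC H φ → (∀ g ∈ H, φ g = ψ g) → IC H ψ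
  | add {φ ψ : X → ℂ} : IC H φ → IC H ψ → IC H (φ + ψ)
  | smul {c : ℂ} {φ : X → ℂ} : IsIntegral ℤ c → IC H φ → IC H (c • φ)

namespace IC

theorem sum {ι : Type*} {s : Finset ι} {f : ι → X → ℂ} (h : ∀ i ∈ s, IC H (f i)) : IC H (∑ i ∈ s, f i) :=
  Finset.sum_induction _ _ (fun _ _ => .add) (.char isChar_zero) h

theorem res (hH : H ≤ G) (h : IsChar G χ) : IC H χ := (char (h.res hH)).congr fun _ => Res_of_mem _

theorem mul (h : IC H φ) (h' : IC H ψ) : IC H (φ * ψ) := by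
  induction h with
  | char h =>
    induction h' with
    | char h' => exact char (h.mul h')
    | congr _ e ih => exact ih.congr fun g hg => by simp [e g hg]
    | add _ _ i j => rw [mul_add]; exact i.add j
    | smul hc _ ih => rw [mul_smul_comm]; exact ih.smul hc
  | congr _ e ih => exact ih.congr fun g hg => by simp [e g hg]
  | add _ _ i j => rw [add_mul]; exact i.add j
  | smul hc _ ih => rw [smul_mul_assoc]; exact ih.smul hc

theorem dot (h : IC H φ) (h' : IsChar H ψ) : IsIntegral ℤ (dot H φ ψ) := by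
  induction h with
  | char h => obtain ⟨n, e⟩ := h.dot_nat h'; exact e ▸ isIntegral_natCast n
  | congr _ e ih => exact dot_congr e (fun _ _ => rfl) ▸ ih
  | add _ _ i j => rw [dot_add_left]; exact i.add j
  | smul hc _ ih => rw [dot_smul_left]; exact hc.mul ih

theorem int (h : IC H φ) (hg : g ∈ H) : IsIntegral ℤ (φ g) := by
  induction h with
  | char h => exact ZIrr_isIntegral h.mem_ZIrr g
  | congr _ e ih => exact e g hg ▸ ih
  | add _ _ i j => exact i.add j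
  | smul hc _ ih => exact hc.mul ih

theorem cf (h : IC H φ) : Res H φ ∈ CF H := by
  induction h with
  | char h => exact Res_mem_CF (CF_inv h.mem_CF)
  | congr _ e ih => exact Res_congr e ▸ ih
  | add _ _ i j => exact map_add (Res H) _ _ ▸ add_mem i j
  | smul hc _ ih => exact map_smul (Res H) _ _ ▸ Submodule.smul_mem _ _ ih

theorem of_dot (h : Res H φ ∈ CF H) (hi : ∀ β ∈ Irr H, IsIntegral ℤ (PF.dot H φ β)) : IC H φ :=
  (sum fun β hβ => .smul (hi β hβ) (char (Irr_isChar hβ))).congr fun g hg => by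
    rw [← Res_of_mem φ hg, apply_eq_sum_Irr (CF_inv h) hg, Finset.sum_apply]
    simp only [dot_Res_left le_rfl, Pi.smul_apply, smul_eq_mul]

theorem of_smul (h : IC H ((n : ℂ) • φ)) (hc : n.Coprime #H) (hi : ∀ g ∈ H, IsIntegral ℤ (φ g)) :
    IC H φ := by
  have h0 : (n : ℂ) ≠ 0 ∨ #H = 1 := or_iff_not_imp_left.2 fun e => by
    rwa [Nat.cast_eq_zero.1 (not_not.1 e), Nat.coprime_zero_left] at hc
  refine of_dot ⟨fun g => Res_of_not_mem _, fun x hx g => ?_⟩ fun β hβ => ?_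
  · rcases h0 with h0 | h0
    · simpa [h0] using (h.cf.2 x hx g)
    · rw [show x = 1 from Subgroup.mem_bot.1 (Subgroup.card_eq_one.1 h0 ▸ hx), one_mul, inv_one, mul_one]
  obtain ⟨a, b, e⟩ := Nat.isCoprime_iff_coprime.2 hc
  have h1 := h.dot (Irr_isChar hβ)
  have h2 : IsIntegral ℤ (#H * PF.dot H φ β) := card_mul_dot (H := H) ▸ IsIntegral.sum _ fun g hg =>
    (hi g (mem_fs.1 hg)).mul (Char.isIntegral_conj (ZIrr_isIntegral (Irr_ZIrr hβ) g))
  rw [dot_smul_left] at h1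
  have h3 := ((isIntegral_intCast a).mul h1).add ((isIntegral_intCast b).mul h2)
  rwa [← mul_assoc, ← mul_assoc, ← add_mul, show (a : ℂ) * n + b * #H = 1 by exact_mod_cast e, one_mul] at h3

theorem shift (hχ : IsChar G χ) (hH : H ≤ G) (hv : v ∈ G) (hc : H ≤ C1[v]) : IC H fun g => χ (g * v) := by
  obtain ⟨Y, hY⟩ : ∃ Y, Y = H ⊔ Subgroup.zpowers v := ⟨_, rfl⟩
  have h1 : Y ≤ G := hY ▸ sup_le hH (Subgroup.zpowers_le.2 hv)
  have h2 : v ∈ Y := hY ▸ Subgroup.mem_sup_right (Subgroup.mem_zpowers v)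
  have h3 : H ≤ Y := hY ▸ le_sup_left
  have h4 : Y ≤ C1[v] := hY ▸ sup_le hc (Subgroup.zpowers_le.2 (cent1_self v))
  have h5 : ∀ β ∈ Irr Y, ∀ g ∈ Y, β (g * v) = β v / β 1 * β g := fun β hβ g hg => by
    rw [div_mul_eq_mul_div, eq_div_iff (Irr_apply_one_ne_zero hβ), mul_comm, Irr_mul_central hβ hg h2
      fun y hy => by rw [mem_cent1.1 (h4 hy)]; simp, mul_comm]
  refine (sum (s := Irr Y) fun β hβ => smul (c := mu Y χ β * (β v / β 1)) ((isIntegral_natCast _).mul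
    (IsIntegral.of_pow (orderOf_pos v) ?_)) (res h3 (Irr_isChar hβ))).congr fun g hg => ?_
  · have : ∀ k, β (v ^ k) = (β v / β 1) ^ k * β 1 := fun k => by
      induction k with
      | zero => simp
      | succ k ih => rw [pow_succ, h5 β hβ _ (pow_mem h2 k), ih]; ring
    have h6 := this (orderOf v)
    rw [pow_orderOf_eq_one, eq_comm, mul_eq_right₀ (Irr_apply_one_ne_zero hβ)] at h6
    exact h6 ▸ isIntegral_one
  · rw [apply_eq_sum_Irr ((CF_inv hχ.mem_CF).mono h1) (mul_mem (h3 hg) h2), Finset.sum_apply]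
    refine Finset.sum_congr rfl fun β hβ => ?_
    rw [h5 β hβ g (h3 hg), dot_eq_mu h1 hχ (Irr_isChar hβ), Pi.smul_apply, smul_eq_mul, mul_assoc]

end IC

theorem sum_aut {Y : Type*} [AddCommMonoid Y] (σ : ℂ →+* ℂ) (f : (X → ℂ) → Y) :
    ∑ χ ∈ Irr H, f (aut σ χ) = ∑ χ ∈ Irr H, f χ := by
  rw [← Finset.sum_image fun _ _ _ _ e => aut_injective σ e]
  refine Finset.sum_congr (Finset.eq_of_subset_of_card_le (Finset.image_subset_iff.2 fun χ h => Irr_aut h σ)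
    (Finset.card_image_of_injective _ (aut_injective σ)).ge) fun _ _ => rfl

theorem sum_card_cent1 : ∑ g ∈ fs (H : Set X), (#(H ⊓ C1[g] : Subgroup X) : ℝ) = #H * (Irr H).card := by
  rw [Finset.sum_congr rfl fun g hg => (sum_Irr_norm_sq (mem_fs.1 hg)).symm, Finset.sum_comm,
    Finset.sum_congr rfl fun χ hχ => by rw [← card_mul_nrm, nrm_Irr hχ], Finset.sum_const, nsmul_eq_mul]
  ring

theorem card_cent1_le (hs : Sdprod V G ⊤) (hab : IsMulCommutative V) (hp : PiGrp π V) (hG : PiGrp πᶜ G)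
    (hv : v ∈ V) (hg : g ∈ G ⊓ C1[v]) :
    #C1[g * v] ≤ #(V ⊓ C1[g] : Subgroup X) * #(G ⊓ C1[v] ⊓ C1[g] : Subgroup X) := by
  obtain ⟨h1, h2⟩ := constt_eq (π := πᶜ) (mem_cent1.1 hg.2) (mem_p_elt hG hg.1)
    (by simpa using mem_p_elt hp hv)
  have h3 := h1 ▸ cent1_le_constt πᶜ (g * v)
  have h4 := h2 ▸ cent1_le_constt πᶜᶜ (g * v)
  have h5 : C1[g * v] ≤ V ⊔ (G ⊓ C1[v] ⊓ C1[g]) := fun x hx => by
    obtain ⟨w, a1, k, a2, rfl⟩ := hs.mem (Subgroup.mem_top x)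
    have a3 := (Subgroup.mul_mem_cancel_left _ (mem_cent1.2 (IsMulCommutative.comm hab a1 hv))).1 (h4 hx)
    refine Subgroup.mul_mem_sup a1 ⟨⟨a2, a3⟩, mem_cent1.2 (mul_inv_eq_one.1 (hs.inf.le ⟨?_,
      G.mul_mem (G.mul_mem a2 hg.1) (G.inv_mem (G.mul_mem hg.1 a2))⟩))⟩
    have a4 := mem_cent1.1 (h3 hx)
    rw [show k * g * (g * k)⁻¹ = w⁻¹ * (w * k * g) * (g * k)⁻¹ by group, a4,
      show w⁻¹ * (g * (w * k)) * (g * k)⁻¹ = w⁻¹ * (g * w * g⁻¹) by group]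
    exact V.mul_mem (V.inv_mem a1) (hs.normal.conj_mem trivial a1)
  rw [← card_inf_mul_relIndex V C1[g * v]]
  refine Nat.mul_le_mul (Subgroup.card_le_of_le (inf_le_inf_left _ h3)) (Nat.le_of_dvd (cardG_pos _) ?_)
  refine (relIndex_dvd_of_norm (le_top.trans hs.normal.norm) h5).trans ?_
  rw [relIndex_sup_norml (le_top.trans hs.normal.norm)]
  exact Subgroup.relIndex_dvd_card _ _

/-- Knörr's generalized character for the action of `H` on `W` -/
structure Kn (M : Ideal AlgInt) [M.IsMaximal] (H W : Subgroup X) (η : X → ℂ) : Prop where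
  ic : IC H η
  le : ∀ σ : ℂ ≃+* ℂ, ∀ g ∈ H, ‖σ (η g)‖ ^ 2 ≤ C1[g].relIndex W
  zero : ∀ g ∈ H, g ∉ C[W] → red M (η g) = 0
  one : red M (η 1) ≠ 0

variable {M : Ideal AlgInt} [PMod p M]

theorem knorr (hs : Sdprod V G ⊤) (hab : IsMulCommutative V) (hp : PiGrp {p} V) (hG : PiGrp {p}ᶜ G)
    (hv : v ∈ V) (hW : W ≤ V) (hf : G ⊓ C1[v] ⊓ C[W] = ⊥) (h : Kn M (G ⊓ C1[v]) W η) :
    (Irr (⊤ : Subgroup X)).card ≤ #V := by
  have hq := PMod.prime M
  have := Fact.mk hq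
  obtain ⟨H, hH⟩ : ∃ H, H = G ⊓ C1[v] := ⟨_, rfl⟩
  rw [← hH] at h hf
  have h1 : ∀ χ ∈ Irr (⊤ : Subgroup X), IC H (η * fun g => χ (g * v)) := fun χ hχ =>
    h.ic.mul (IC.shift (Irr_isChar hχ) le_top trivial (hH ▸ inf_le_right))
  have h2 := card_le_of_gal (Irr (⊤ : Subgroup X) ×ˢ Irr H) (fun z => dot H (η * fun g => z.1 (g * v)) z.2)
    (fun z hz e => ?_) (fun z hz => (h1 _ (Finset.mem_product.1 hz).1).dot (Irr_isChar (Finset.mem_product.1 hz).2))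
    (b := #V * (Irr H).card) fun σ => ?_
  · rw [Finset.card_product, Nat.cast_mul] at h2
    exact_mod_cast le_of_mul_le_mul_right h2 (Nat.cast_pos.2 (Finset.card_pos.2 ⟨_, one_mem_Irr H⟩))
  · obtain ⟨χ, μ⟩ := z
    obtain ⟨a1, a2⟩ := Finset.mem_product.1 hz
    have a3 := congrArg (red M) (card_mul_dot (H := H) (φ := η * fun g => χ (g * v)) (ψ := μ))
    have o1 := fun g => mem_O_of_isIntegral (M := M) (ZIrr_isIntegral (Irr_ZIrr a1) g)
    have o2 := fun g => mem_O_of_isIntegral (M := M) (Char.isIntegral_conj (ZIrr_isIntegral (Irr_ZIrr a2) g))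
    have o3 := fun g (hg : g ∈ H) => mem_O_of_isIntegral (M := M) (h.ic.int hg)
    simp only at e a1 a2 o1 o2
    rw [e, mul_zero, red_zero, red_sum (f := fun g => (η * fun g => χ (g * v)) g * conj (μ g)) _
      fun g hg => mul_mem (mul_mem (o3 g (mem_fs.1 hg)) (o1 _)) (o2 g),
      Finset.sum_eq_single 1 (fun g b1 b2 => by
        rw [Pi.mul_apply, mul_assoc, red_mul (o3 g (mem_fs.1 b1)) (mul_mem (o1 _) (o2 g)),
          h.zero g (mem_fs.1 b1) fun e => b2 (hf.le ⟨mem_fs.1 b1, e⟩), zero_mul]) (by simp),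
      Pi.mul_apply, red_mul (mul_mem (o3 1 (one_mem _)) (o1 _)) (o2 1), red_mul (o3 1 (one_mem _)) (o1 _),
      one_mul, red_apply_pElt (mem_Irr_top.1 a1).isCharacter ((p_natP hq).1 (mem_p_elt hp hv)),
      Irr_apply_one a1, Irr_apply_one a2, map_natCast] at a3
    refine mul_ne_zero (mul_ne_zero h.one (red_natCast_ne_zero fun e => (p'natE hq).1 hG (e.trans ?_)))
      (red_natCast_ne_zero fun e => (p'natE hq).1 hG (e.trans ((dvd_irr1_cardG a2).trans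
        (cardSg (hH ▸ inf_le_left))))) a3.symm
    have := hs.normal.normal
    rw [← hs.relIndexl, Subgroup.relIndex_top_right]
    exact CharDeep.charDegree_dvd_index_of_abelian V (fun _ a _ b => IsMulCommutative.comm hab a b)
      (mem_Irr_top.1 a1)
  · have a1 : ∀ χ ∈ Irr (⊤ : Subgroup X), ∑ μ ∈ Irr H, ‖σ (dot H (η * fun g => χ (g * v)) μ)‖ ^ 2 =
        (#H : ℝ)⁻¹ * ∑ g ∈ fs (H : Set X), ‖σ (η g)‖ ^ 2 * ‖aut σ χ (g * v)‖ ^ 2 := fun χ hχ => by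
      have a1 := aut_mem_CF (h1 χ hχ).cf (σ : ℂ →+* ℂ)
      have a2 := nrm_eq_sum_Irr (CF_inv a1)
      rw [← sum_aut (σ : ℂ →+* ℂ), Finset.sum_congr rfl fun μ hμ => by
        rw [dot_aut _ (Irr_ZIrr hμ), dot_Res_left le_rfl], nrm_eq_sum] at a2
      refine a2.symm.trans (congrArg _ (Finset.sum_congr rfl fun g hg => ?_))
      rw [aut_apply, Res_of_mem _ (mem_fs.1 hg), Pi.mul_apply, map_mul, norm_mul, mul_pow]; rfl
    rw [Finset.sum_product, Finset.sum_congr rfl a1, sum_aut (σ : ℂ →+* ℂ) fun χ => (#H : ℝ)⁻¹ *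
      ∑ g ∈ fs (H : Set X), ‖σ (η g)‖ ^ 2 * ‖χ (g * v)‖ ^ 2, ← Finset.mul_sum, Finset.sum_comm,
      inv_mul_le_iff₀ (Nat.cast_pos.2 (cardG_pos H)), mul_left_comm, ← sum_card_cent1, Finset.mul_sum]
    refine Finset.sum_le_sum fun g hg => ?_
    rw [← Finset.mul_sum, sum_Irr_norm_sq (Subgroup.mem_top _), top_inf_eq, ← card_inf_mul_relIndex C1[g] V, inf_comm,
      Nat.cast_mul, mul_comm (#_ : ℝ), mul_assoc, ← Nat.cast_mul, hH]
    exact mul_le_mul ((h.le σ g (mem_fs.1 hg)).trans (Nat.cast_le.2 (Subgroup.relIndex_le_of_le_right hW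
      (relIndex_pos _ _).ne'))) (Nat.cast_le.2 (card_cent1_le hs hab hp hG hv (hH ▸ mem_fs.1 hg)))
      (by positivity) (by positivity)

theorem Kn.bot : Kn M H ⊥ (PF.one H) :=
  ⟨.char (Irr_isChar (one_mem_Irr H)), fun σ g hg => by simp [one_of_mem hg],
    fun g _ h => (h (by simp)).elim, by simp⟩

theorem Kn.sup (h : Kn M H U η) (h' : Kn M H W θ) (hU : H ≤ N[U]) (hW : H ≤ N[W]) (hn : W ≤ N[U])
    (hi : U ⊓ W = ⊥) : Kn M H (U ⊔ W) (η * θ) := by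
  have o1 := fun g (hg : g ∈ H) => mem_O_of_isIntegral (M := M) (h.ic.int hg)
  have o2 := fun g (hg : g ∈ H) => mem_O_of_isIntegral (M := M) (h'.ic.int hg)
  refine ⟨h.ic.mul h'.ic, fun σ g hg => ?_, fun g hg e => ?_, ?_⟩
  · rw [Pi.mul_apply, map_mul, norm_mul, mul_pow]
    refine (mul_le_mul (h.le σ g hg) (h'.le σ g hg) (by positivity) (by positivity)).trans ?_
    have hs : Sdprod U W (U ⊔ W) := ⟨rfl, hn, hi⟩
    have h1 : C1[g] ⊓ (U ⊔ W) ≤ (C1[g] ⊓ U) ⊔ (C1[g] ⊓ W) := fun x hx => by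
      obtain ⟨a, a1, b, a2, rfl⟩ := hs.mem hx.2
      have a3 := mem_cent1.1 hx.1
      have a4 := conj_mem_of_norm (hU hg) a1
      have a5 := conj_mem_of_norm (hW hg) a2
      have a6 : a⁻¹ * (g * a * g⁻¹) = b * (g * b * g⁻¹)⁻¹ := by
        rw [show a⁻¹ * (g * a * g⁻¹) = a⁻¹ * (g * (a * b)) * b⁻¹ * g⁻¹ by group, ← a3]; group
      have a7 : a⁻¹ * (g * a * g⁻¹) = 1 := hi.le ⟨U.mul_mem (U.inv_mem a1) a4,
        a6 ▸ W.mul_mem a2 (W.inv_mem a5)⟩
      exact Subgroup.mul_mem_sup ⟨mem_cent1.2 (eq_mul_inv_iff_mul_eq.1 (inv_mul_eq_one.1 a7)), a1⟩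
        ⟨mem_cent1.2 (eq_mul_inv_iff_mul_eq.1 (mul_inv_eq_one.1 (a6.symm.trans a7))), a2⟩
    have h2 : Sdprod (C1[g] ⊓ U) (C1[g] ⊓ W) (C1[g] ⊓ (U ⊔ W)) :=
      ⟨h1.antisymm' (sup_le (inf_le_inf_left _ le_sup_left) (inf_le_inf_left _ le_sup_right)),
        normsI (inf_le_left.trans Subgroup.le_normalizer) (inf_le_right.trans hn),
        le_bot_iff.1 (hi ▸ inf_le_inf inf_le_right inf_le_right)⟩
    rw [← Nat.cast_mul, Nat.cast_le]
    refine (Nat.eq_of_mul_eq_mul_left (cardG_pos (C1[g] ⊓ (U ⊔ W))) ?_).le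
    rw [card_inf_mul_relIndex, ← hs.card, ← h2.card, mul_mul_mul_comm, card_inf_mul_relIndex,
      card_inf_mul_relIndex]
  · rw [Pi.mul_apply, red_mul (o1 g hg) (o2 g hg), mul_eq_zero]
    exact or_iff_not_imp_left.2 fun e1 => h'.zero g hg fun e2 => e (cents_symm (sup_le (cents_symm
      (Subgroup.zpowers_le.2 (by_contra fun e3 => e1 (h.zero g hg e3)))) (cents_symm
      (Subgroup.zpowers_le.2 e2))) (Subgroup.mem_zpowers g))
  · rw [Pi.mul_apply, red_mul (o1 1 (one_mem _)) (o2 1 (one_mem _))]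
    exact mul_ne_zero h.one h'.one

theorem Kn.greedy (hab : IsMulCommutative U) (hU : H ≤ N[U]) (hc : (#U).Coprime #H) (hf : H ⊓ C[U] = ⊥)
    (h : ∀ N, N ⊴ H → ⁅U, N⁆ ≠ ⊥ → ∃ W ≤ ⁅U, N⁆, W ≠ ⊥ ∧ H ≤ N[W] ∧ ∃ η, Kn M H W η) :
    ∃ W ≤ U, H ⊓ C[W] = ⊥ ∧ ∃ η, Kn M H W η := by
  obtain ⟨W, ⟨a1, a2, η, a3⟩, a4⟩ := Set.Finite.exists_maximal (Set.toFinite
    {W | W ≤ U ∧ H ≤ N[W] ∧ ∃ η, Kn M H W η}) ⟨⊥, bot_le, le_top.trans (normal_top ⊥).norm, _, Kn.bot⟩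
  refine ⟨W, a1, by_contra fun e => ?_, η, a3⟩
  have b1 : H ⊓ C[W] ⊴ H := ⟨inf_le_left, normsI Subgroup.le_normalizer (norms_cent a2)⟩
  obtain ⟨Y, b2, b3, b4, θ, b5⟩ := h _ b1 fun e' => e (le_bot_iff.1 (hf ▸ le_inf inf_le_left
    (cents_symm (Subgroup.commutator_eq_bot_iff_le_centralizer.1 e'))))
  have b6 := b2.trans (commg_subl (b1.le.trans hU))
  have b7 : W ⊓ Y = ⊥ := le_bot_iff.1 (coprime_abel_cent_TI (b1.le.trans hU)
    (hc.coprime_dvd_right (cardSg b1.le)) hab ▸ le_inf (inf_le_right.trans b2)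
      (inf_le_left.trans (cents_symm inf_le_right)))
  exact b3 (le_bot_iff.1 (b7 ▸ le_inf (le_sup_right.trans (a4 ⟨sup_le a1 b6, normsY a2 b4, _,
    a3.sup b5 a2 b4 ((sub_abelian_cent2 hab b6 a1).trans (cent_sub _)) b7⟩ le_sup_left)) le_rfl))

theorem norm_gaussSum {F : Type*} [Field F] [Fintype F] {χ : MulChar F ℂ} (h : χ ≠ 1) {ψ : AddChar F ℂ}
    (h' : ψ ≠ 1) (σ : ℂ →+* ℂ) : ‖σ (gaussSum χ ψ)‖ ^ 2 = Fintype.card F := by
  have h1 := gaussSum_mul_gaussSum_eq_card ((MulChar.ringHomComp_ne_one_iff σ.injective).2 h)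
    (AddChar.IsPrimitive.of_ne_one (ψ := σ.toMonoidHom.compAddChar ψ) fun e => h' (AddChar.ext _ _ fun x =>
      σ.injective (by simpa using congrArg (· x) e)))
  rw [← star_gaussSum_eq, RCLike.star_def, Complex.mul_conj'] at h1
  have h2 : σ (gaussSum χ ψ) = gaussSum (χ.ringHomComp σ) (σ.toMonoidHom.compAddChar ψ) := by
    simp [gaussSum]
  rw [h2]
  exact_mod_cast h1

theorem Kn.abelian (hab : IsMulCommutative H) (hW : MinNormal W H) (hp : PiGrp {p} W) :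
    ∃ η, Kn M H W η := by
  have hq := PMod.prime M
  have := Fact.mk hq
  obtain ⟨a, a1, a2⟩ := abelian_minnormal_cyclic_quo hab hW (pgroup_sol hp.pg)
  obtain ⟨φ, hφ⟩ : ∃ φ : H →* MulAut W, ∀ g w, (φ g w : X) = g * w * (g : X)⁻¹ :=
    ⟨(conjAut W).comp (Subgroup.inclusion hW.norm), fun _ _ => rfl⟩
  have a3 : ∀ g : H, φ g = 1 ↔ g.1 ∈ C[W] := fun g => ⟨fun e w hw => (mul_inv_eq_iff_eq_mul.1
    ((hφ g ⟨w, hw⟩).symm.trans (by rw [e]; rfl))).symm, fun e => MulEquiv.ext fun w => Subtype.ext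
      ((hφ g w).trans (mul_inv_eq_iff_eq_mul.2 (e w w.2).symm))⟩
  have a4 : ∀ g ∈ H, g ∉ C[W] → W ⊓ C1[g] = ⊥ := fun g b1 b2 => by_contra fun e => b2 (le_cent1_iff.1
    ((hW.map_eq inf_le_left (normsI hW.norm (norms_cent1 (le_cent1_iff.2 (abelian_iff.1 hab b1)))) e).ge.trans
      inf_le_right))
  have a5 : IsCyclic φ.range := ⟨⟨⟨_, ⟨a, a1⟩, rfl⟩, by
    rintro ⟨_, g, rfl⟩
    obtain ⟨k, b1, _, ⟨i, rfl⟩, e⟩ := (mem_sup_norml (Subgroup.zpowers_le.2 (sub_abelian_norm hab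
      inf_le_left a1))).1 (a2.ge g.2)
    refine ⟨i, Subtype.ext ?_⟩
    rw [show g = ⟨k, b1.1⟩ * ⟨a, a1⟩ ^ i from Subtype.ext e]
    simp [(a3 ⟨k, b1.1⟩).2 b1.2]⟩⟩
  obtain ⟨n, a6⟩ := (p_natP hq).1 hp
  have a7 : n ≠ 0 := fun e => (cardG_gt1 hW.ne).ne' (by rw [a6, e, pow_zero])
  have := Fintype.ofFinite (GaloisField p n)
  have a8 : Fintype.card (GaloisField p n) = #W := by
    rw [a6, ← GaloisField.card p n a7, Nat.card_eq_fintype_card]
  obtain ⟨χ, a9⟩ := MulChar.exists_mulChar_orderOf (GaloisField p n) (n := #φ.range) (a8 ▸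
    (Nat.modEq_iff_dvd' (cardG_pos W)).1 (Frob.card_modEq_one_of_free (A := φ.range) 1 (fun _ => map_one _)
      (by
        rintro ⟨_, g, rfl⟩ b1 w b2
        exact Subtype.ext ((a4 g g.2 fun e => b1 (Subtype.ext ((a3 g).2 e))).le ⟨w.2, mem_cent1.2
          (mul_inv_eq_iff_eq_mul.1 ((hφ g w).symm.trans (congrArg Subtype.val b2))).symm⟩))).symm)
    (Complex.isPrimitiveRoot_exp _ (cardG_pos _).ne')
  obtain ⟨f, b1⟩ : ∃ f : H →* MulChar (GaloisField p n) ℂ, ∀ g, f g = 1 ↔ g.1 ∈ C[W] := by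
    let e := mulEquivOfCyclicCardEq (G := φ.range) (G' := Subgroup.zpowers χ) (by rw [Nat.card_zpowers, a9])
    exact ⟨(Subgroup.subtype _).comp (e.toMonoidHom.comp φ.rangeRestrict), fun g => by
      simp [← a3, Subtype.ext_iff]⟩
  obtain ⟨ψ, b2⟩ : ∃ ψ : AddChar (GaloisField p n) ℂ, ψ ≠ 1 := by
    obtain ⟨ψ, h⟩ := AddChar.exists_apply_ne_zero.2 (one_ne_zero (α := GaloisField p n))
    exact ⟨ψ, fun e => h (by rw [e]; rfl)⟩
  have b3 : ∀ x, ψ x ^ p ^ 1 = 1 := fun x => by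
    rw [← AddChar.map_nsmul_eq_pow, pow_one, nsmul_eq_mul, CharP.cast_eq_zero, zero_mul, AddChar.map_zero_eq_one]
  have b4 : ∀ x, IC H (extendByZero H fun g => f g x) := fun x => by
    by_cases hx : IsUnit x
    · obtain ⟨l, hl⟩ := exists_lin_of_mul (H := H) (extendByZero H fun g => f g x)
        (by rw [CharDeep.extendByZero_of_mem _ _ (one_mem H)]; exact (congrArg (· x) f.map_one).trans (MulChar.one_apply hx))
        fun a ha b hb => by
          rw [CharDeep.extendByZero_of_mem _ _ ha, CharDeep.extendByZero_of_mem _ _ hb, CharDeep.extendByZero_of_mem _ _ (mul_mem ha hb)]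
          exact congrArg (· x) (f.map_mul ⟨a, ha⟩ ⟨b, hb⟩)
      exact (IC.char (isChar_lin l)).congr hl
    · exact (IC.char isChar_zero).congr fun g hg => by
        rw [CharDeep.extendByZero_of_mem _ _ hg, MulChar.map_nonunit _ hx]; rfl
  have b5 : ∀ g (hg : g ∈ H), (∑ x, ψ x • extendByZero H fun g => f g x) g = gaussSum (f ⟨g, hg⟩) ψ :=
    fun g hg => by simp [gaussSum, CharDeep.extendByZero_of_mem _ _ hg, mul_comm]
  refine ⟨_, IC.sum (s := Finset.univ) fun x _ => .smul (IsIntegral.of_pow (pow_pos hq.pos 1)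
    (b3 x ▸ isIntegral_one)) (b4 x), fun σ g hg => ?_, fun g hg e => ?_, ?_⟩
  · rw [b5 g hg]
    by_cases e : g ∈ C[W]
    · rw [(b1 ⟨g, hg⟩).2 e, gaussSum_one_left b2]
      simpa using Nat.succ_le_of_lt (relIndex_pos _ _)
    · refine (norm_gaussSum (mt (b1 ⟨g, hg⟩).1 e) b2 (σ : ℂ →+* ℂ)).le.trans (Nat.cast_le.2 ?_)
      rw [a8, ← card_inf_mul_relIndex C1[g] W, inf_comm, a4 g hg e, Subgroup.card_bot, one_mul]
  · have o1 := fun x => mem_O_of_isIntegral (M := M) ((b4 x).int hg)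
    simp only [CharDeep.extendByZero_of_mem _ _ hg] at o1
    have o2 := fun x => mem_O_of_pow_eq_one (M := M) (pow_pos hq.pos 1).ne' (b3 x)
    rw [b5 g hg, gaussSum, red_sum _ fun x _ => mul_mem (o1 x) (o2 x), Finset.sum_congr rfl fun x _ => by
      rw [red_mul (o1 x) (o2 x), red_eq_one_of_pow_p_pow (b3 x), mul_one], ← red_sum _ fun x _ => o1 x,
      MulChar.sum_eq_zero_of_ne_one (mt (b1 ⟨g, hg⟩).1 e), red_zero]
  · rw [b5 1 (one_mem H), (b1 ⟨1, one_mem H⟩).2 (one_mem _), gaussSum_one_left b2, red_neg, red_one]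
    simp

theorem kgv [Fact p.Prime] [V.Normal] (he : ∀ v ∈ V, v ^ p = 1) (hi : ¬ p ∣ V.index) (hc : C[V] = V)
    (hs : Subgroup.IsComplement' V G) (hv : v ∈ V)
    (h : ∀ (M : Ideal AlgInt) [PMod p M], Abelem p V → PiGrp {p}ᶜ G → G ⊓ C[V] = ⊥ →
      ∃ W ≤ V, G ⊓ C1[v] ⊓ C[W] = ⊥ ∧ ∃ η, Kn M (G ⊓ C1[v]) W η) :
    Nat.card (ConjClasses X) ≤ Nat.card V := by
  obtain ⟨M, hM⟩ := exists_pMod p
  have h1 : Abelem p V := abelemP.2 ⟨abelian_iff.2 hc.ge, he⟩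
  have h2 := isComplement'_iff_sdprod.1 hs
  have h3 : PiGrp {p}ᶜ G := (p'natE Fact.out).2 (by rwa [← h2.relIndexl, Subgroup.relIndex_top_right])
  obtain ⟨W, a1, a2, η, a3⟩ := h M h1 h3 (by rw [hc, inf_comm, h2.inf])
  refine le_trans (Eq.le ?_) (knorr h2 h1.abelian h1.pg.pi h3 hv a1 a2 a3)
  rw [← Char.card_irr_eq_card_conjClasses, ← Nat.card_eq_finsetCard]
  exact Nat.card_congr (Equiv.subtypeEquivRight fun _ => mem_Irr_top.symm)

end Cfsg.Agent.PF.CH
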