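import Cfsg.Agent.Isa.J5
import Cfsg.Agent.CH.Ito2
import Cfsg.Agent.Block.Q8

/-! Characters of small degree of groups with a TI Sylow subgroup. (helper12) -/

set_option autoImplicit false
set_option maxSynthPendingDepth 3
set_option linter.unusedVariables false
set_option linter.unusedSectionVars false

namespace Cfsg.Agent.PF.CH

open Cfsg.Agent.BG Matrix
open scoped _root_.Classical ComplexConjugate

variable {p n : ℕ} [hp : Fact p.Prime]

theorem norm_eq_zero_of_lt {P k : Type*} [Group P] [Fintype P] [Field k] [CharP k p] [Finite k] (hP : IsPGroup p P)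
    (B : P →* Matrix (Fin n) (Fin n) k) (hn : n < Fintype.card P) (v : Fin n → k) : ∑ u, B u *ᵥ v = 0 := by
  let φ := Fintype.linearCombination k fun u => B u *ᵥ v
  have h1 : LinearMap.ker φ ≠ ⊥ := LinearMap.ker_ne_bot_of_finrank_lt (by simpa)
  letI : MulAction P (LinearMap.ker φ) :=
    { smul := fun x f => ⟨fun u => f.1 (x⁻¹ * u), by
        have := congrArg (B x *ᵥ ·) (LinearMap.mem_ker.1 f.2)
        simp only [φ, Fintype.linearCombination_apply, LinearMap.mem_ker] at this ⊢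
        rw [← Equiv.sum_comp (Equiv.mulLeft x)]
        simpa [mulVec_sum, mulVec_smul] using this⟩
      one_smul := fun f => Subtype.ext (funext fun u => congrArg f.1 (by simp))
      mul_smul := fun a b f => Subtype.ext (funext fun u => congrArg f.1 (by simp [mul_assoc])) }
  obtain ⟨f, h2, h3⟩ := hP.exists_fixed_point_of_prime_dvd_card_of_fixed_point (LinearMap.ker φ) (by
    obtain ⟨x, hx, h0⟩ := (Submodule.ne_bot_iff _).1 h1
    refine (addOrderOf_eq_prime (p := p) (x := (⟨x, hx⟩ : LinearMap.ker φ)) ?_ (mt Subtype.ext_iff.1 h0)) ▸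
      addOrderOf_dvd_natCard _
    rw [← Nat.cast_smul_eq_nsmul k, CharP.cast_eq_zero, zero_smul]) (a := 0) fun _ => rfl
  have h4 : ∀ u, f.1 u = f.1 1 := fun u => by
    rw [← congrFun (congrArg Subtype.val (h2 u)) u]; exact congrArg f.1 (inv_mul_cancel u)
  have h5 := LinearMap.mem_ker.1 f.2
  simp only [φ, Fintype.linearCombination_apply, h4, ← Finset.smul_sum] at h5
  exact (smul_eq_zero.1 h5).resolve_left fun e => h3 (Subtype.ext (funext fun u => ((h4 u).trans e).symm))

theorem sum_eq_zero_of_TI {G : Type*} [Group G] [Fintype G] {P N : Subgroup G} [Fintype N] (hP : IsPGroup p P)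
    (hN : P ≤ N) (h : ∀ g, ∀ u ∈ P, u ≠ 1 → g⁻¹ * u * g ∈ N → g ∈ N) {ψ : G → ℂ} (hψ : IsIrrCharacter G ψ)
    (h0 : ∑ g, ψ g = 0) (hd : charDegree ψ < #P) : ∑ g : N, ψ g = 0 := by
  obtain ⟨M, _⟩ := Block.exists_pMod p
  obtain ⟨R, _, _, _, k, _, _, _, ι, red, n, A, hm, hA, -⟩ := Cfsg.Agent.CH.Low.exists_model p M hψ
  have := ι.charZero
  have := Fintype.ofFinite (G ⧸ N)
  have := Fintype.ofFinite P
  by_contra e
  let S := Fintype.card G • ∑ g : N, A g - Fintype.card N • ∑ g, A g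
  have a1 : ∀ g ∈ N, A g * S = S := fun g hg => by
    simp only [S, mul_sub, mul_smul_comm, Finset.mul_sum, ← map_mul]
    rw [← Equiv.sum_comp (Equiv.mulLeft g) A, ← Equiv.sum_comp (Equiv.mulLeft (⟨g, hg⟩ : N)) fun x : N => A x]
    rfl
  have a2 : (∑ g, A g) * S = 0 := by
    have : ∀ x, (∑ g, A g) * A x = ∑ g, A g := fun x => by
      simp only [Finset.sum_mul, ← map_mul]; exact Equiv.sum_comp (Equiv.mulRight x) A
    rw [mul_sub, mul_smul_comm, mul_smul_comm, Finset.mul_sum, Finset.mul_sum]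
    simp only [this, Finset.sum_const, Finset.card_univ, smul_smul, mul_comm, sub_self]
  obtain ⟨i, j, hij⟩ : ∃ i j, S i j ≠ 0 := by
    by_contra! e'
    have := congrArg (fun x => ι x.trace) (show S = 0 from Matrix.ext e')
    simp only [S, trace_sub, trace_smul, trace_sum, map_sub, map_nsmul, map_sum, hA, h0] at this
    simp [e] at this
  obtain ⟨s, hs⟩ := (IsPrincipalIdealRing.principal (Ideal.span (Set.range fun i => S i j))).principal
  choose w hw using fun i => show ∃ t, t * s = S i j from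
    Ideal.mem_span_singleton'.1 (hs.le (Ideal.subset_span ⟨i, rfl⟩))
  have a3 : s ≠ 0 := fun e => hij (by rw [← hw, e, mul_zero])
  obtain ⟨t, ht⟩ := (Submodule.mem_span_range_iff_exists_fun R).1 (hs.ge (Submodule.mem_span_singleton_self s))
  have a4 : ∀ Y : Matrix (Fin n) (Fin n) R, ∀ i, (Y *ᵥ w) i * s = (Y * S) i j := fun Y i => by
    simp [mulVec, dotProduct, mul_apply, ← hw, mul_assoc, Finset.sum_mul]
  have a5 : ∀ g ∈ N, A g *ᵥ w = w := fun g hg => funext fun i => mul_right_cancel₀ a3 (by rw [a4, a1 g hg, hw])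
  have a6 : ∀ g : G, A (g : G ⧸ N).out *ᵥ w = A g *ᵥ w := fun g => by
    obtain ⟨x, e⟩ := QuotientGroup.mk_out_eq_mul N g
    rw [e, map_mul, ← mulVec_mulVec, a5 _ x.2]
  have a7 : ∑ q : G ⧸ N, A q.out *ᵥ w = 0 := by
    have : (∑ g, A g) *ᵥ w = 0 := funext fun i => mul_right_cancel₀ a3 (by simp [a4, a2])
    rw [sum_mulVec, Char.sum_eq_sum_quotient N] at this
    simp only [map_mul, ← mulVec_mulVec, fun x : N => a5 x x.2, Finset.sum_const, ← Finset.smul_sum] at this
    exact (smul_eq_zero.1 this).resolve_left Fintype.card_ne_zero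
  let B : G →* Matrix (Fin n) (Fin n) k := red.mapMatrix.toMonoidHom.comp A
  have a8 : ∀ g, red ∘ (A g *ᵥ w) = B g *ᵥ (red ∘ w) := fun g => funext fun i => red.map_mulVec _ _ i
  have a9 : ∑ q ∈ Finset.univ.erase ((1 : G) : G ⧸ N), B q.out *ᵥ (red ∘ w) = 0 := by
    refine Finset.sum_cancels_of_partition_cancels (MulAction.orbitRel P (G ⧸ N)) fun q hq => ?_
    obtain ⟨g, rfl⟩ := QuotientGroup.mk_surjective q
    have b1 : g ∉ N := fun e => (Finset.mem_erase.1 hq).1 (QuotientGroup.eq.2 (by simpa using e))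
    rw [← norm_eq_zero_of_lt hP (B.comp P.subtype) (by
      rw [← Nat.card_eq_fintype_card]
      refine lt_of_eq_of_lt ?_ hd
      exact (deg_eq_of (χ := ψ) (by rw [← hA]; simp)).symm) (B g *ᵥ (red ∘ w))]
    refine (Finset.sum_bij (fun (u : P) _ => ((u * g : G) : G ⧸ N)) (fun u _ => Finset.mem_filter.2 ⟨Finset.mem_erase.2
      ⟨fun e => b1 ?_, Finset.mem_univ _⟩, u, rfl⟩) (fun u _ u' _ e => by_contra fun e' => b1 (h g _
        (P.mul_mem (P.inv_mem u.2) u'.2) (fun e'' => e' (Subtype.ext (inv_mul_eq_one.1 e''))) ?_))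
      (fun q hq => ?_) fun u _ => ?_).symm
    · simpa [N.mul_mem_cancel_left (hN u.2), N.mul_mem_cancel_right (N.inv_mem (hN u.2))] using QuotientGroup.eq.1 e
    · simpa [mul_assoc] using QuotientGroup.eq.1 e
    · obtain ⟨u, e⟩ := (Finset.mem_filter.1 hq).2
      exact ⟨u, Finset.mem_univ _, e⟩
    · rw [← a8 (Quotient.out _), a6, a8, map_mul, ← mulVec_mulVec]; rfl
  have b1 := congrArg (red ∘ ·) a7
  rw [show red ∘ (∑ q : G ⧸ N, A q.out *ᵥ w) = ∑ q : G ⧸ N, B q.out *ᵥ (red ∘ w) from funext fun i => by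
    simp [← a8], ← Finset.add_sum_erase _ _ (Finset.mem_univ ((1 : G) : G ⧸ N)), a9, ← a8, a6, map_one,
    one_mulVec, add_zero] at b1
  have h2 : ∑ i, t i * w i = 1 := mul_right_cancel₀ a3 (by
    rw [one_mul, Finset.sum_mul]; simpa [← hw, mul_assoc] using ht)
  simpa [show ∀ i, red (w i) = 0 from fun i => by simpa using congrFun b1 i] using congrArg red h2

end Cfsg.Agent.PF.CH
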