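import Cfsg.Agent.CH.Real
import Cfsg.Agent.CharDeep.Extend
import Cfsg.Agent.Block.Q8
import Cfsg.Agent.Transfer.SylowIn

/-! Thompson's parity argument: a real projective character has an orthogonal constituent of odd
multiplicity. (helper12) -/

set_option autoImplicit false
set_option linter.unusedVariables false
set_option linter.unusedSectionVars false

namespace Cfsg.Agent.Isa.Th

open Cfsg Cfsg.Agent.Char Cfsg.Agent.CharDeep Matrix Subgroup
open scoped ComplexConjugate _root_.Classical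

/-- An idempotent `E` with `A * E` skew and `A` invertible has even trace. -/
theorem trace_even {n : ℕ} (A E : Matrix (Fin n) (Fin n) ℂ) (hA : IsUnit A) (hE : E * E = E)
    (h : (A * E)ᵀ = -(A * E)) : ∃ r : ℕ, E.trace = 2 * r := by
  set U := LinearMap.range (toLin' E) with hU
  have hfix : ∀ y ∈ U, E *ᵥ y = y := by
    rintro _ ⟨x, rfl⟩
    simp [Matrix.mulVec_mulVec, hE]
  have hp : LinearMap.IsProj U (toLin' E) := ⟨fun x => ⟨x, rfl⟩, fun x hx => by simpa using hfix x hx⟩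
  have ht : E.trace = (Module.finrank ℂ U : ℂ) := by rw [← hp.trace, Matrix.trace_toLin'_eq]
  let B : LinearMap.BilinForm ℂ U := LinearMap.BilinForm.restrict (Matrix.toBilin' (A * E)) U
  have hB : ∀ x y : U, B x y = (x : Fin n → ℂ) ⬝ᵥ (A * E) *ᵥ (y : Fin n → ℂ) := fun x y => by
    simp [B, Matrix.toBilin'_apply']
  have sk : ∀ x y : Fin n → ℂ, x ⬝ᵥ (A * E) *ᵥ y = -(y ⬝ᵥ (A * E) *ᵥ x) := fun x y => by
    rw [Matrix.dotProduct_mulVec, ← Matrix.mulVec_transpose, h, dotProduct_comm, Matrix.neg_mulVec,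
      dotProduct_neg]
  have nd : ∀ y : U, (∀ x : U, B x y = 0) → y = 0 := fun y hy => by
    have h1 : (A * E) *ᵥ (y : Fin n → ℂ) = 0 := by
      refine dotProduct_eq_zero _ fun x => ?_
      have := hy ⟨E *ᵥ x, ⟨x, rfl⟩⟩
      rw [hB, sk] at this
      rw [dotProduct_comm, sk]
      simpa [Matrix.mulVec_mulVec, Matrix.mul_assoc, hE] using this
    rw [← Matrix.mulVec_mulVec, hfix y y.2] at h1
    exact Subtype.ext ((Matrix.mulVec_injective_iff_isUnit.2 hA) (by simpa using h1))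
  have nd' : B.Nondegenerate := by
    refine ⟨fun x hx => nd x fun y => ?_, fun y hy => nd y hy⟩
    rw [hB, sk, ← hB, hx, neg_zero]
  let b := Module.finBasis ℂ U
  have hd := (LinearMap.BilinForm.nondegenerate_iff_det_ne_zero b).1 nd'
  have e : (LinearMap.BilinForm.toMatrix b B)ᵀ = -(LinearMap.BilinForm.toMatrix b B) := by
    ext i j
    simp only [Matrix.transpose_apply, LinearMap.BilinForm.toMatrix_apply, Matrix.neg_apply]
    rw [hB, sk, ← hB]
  have e2 := congrArg Matrix.det e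
  rw [Matrix.det_transpose, Matrix.det_neg, Fintype.card_fin] at e2
  rcases Nat.even_or_odd (Module.finrank ℂ U) with ⟨r, hr⟩ | ho
  · exact ⟨r, by rw [ht, hr]; push_cast; ring⟩
  · rw [ho.neg_one_pow] at e2
    exact absurd (by linear_combination e2 / 2) hd

/-- twice an algebraic integer -/
def Ev (z : ℂ) : Prop := ∃ w, IsIntegral ℤ w ∧ z = 2 * w

/-- the subgroup `2𝔸` -/
def EvS : AddSubgroup ℂ where
  carrier := {z | Ev z}
  zero_mem' := ⟨0, isIntegral_zero, by simp⟩
  add_mem' := by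
    rintro _ _ ⟨a, ha, rfl⟩ ⟨b, hb, rfl⟩
    exact ⟨a + b, ha.add hb, by ring⟩
  neg_mem' := by
    rintro _ ⟨a, ha, rfl⟩
    exact ⟨-a, ha.neg, by ring⟩

theorem Ev.mul {z w : ℂ} (h : Ev z) (hw : IsIntegral ℤ w) : Ev (z * w) := by
  obtain ⟨a, ha, rfl⟩ := h
  exact ⟨a * w, ha.mul hw, by ring⟩

theorem ev_sum {ι : Type*} [Fintype ι] (σ : ι → ι) (hσ : ∀ i, σ (σ i) = i) (F : ι → ℂ)
    (h1 : ∀ i, F (σ i) = F i) (h2 : ∀ i, IsIntegral ℤ (F i)) (h3 : ∀ i, σ i = i → Ev (F i)) :
    Ev (∑ i, F i) := by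
  have : ∑ i, (QuotientAddGroup.mk' EvS) (F i) = 0 := by
    refine Finset.sum_involution (fun i _ => σ i) (fun i _ => ?_) (fun i _ h0 e => h0 ?_)
      (fun i _ => Finset.mem_univ _) (fun i _ => hσ i)
    · rw [← map_add, h1]
      exact (QuotientAddGroup.eq_zero_iff _).2 ⟨F i, h2 i, by ring⟩
    · exact (QuotientAddGroup.eq_zero_iff _).2 (h3 i e)
  rw [← map_sum] at this
  exact (QuotientAddGroup.eq_zero_iff _).1 this

theorem not_ev_odd {o : ℕ} (ho : Odd o) : ¬ Ev o := by
  rintro ⟨w, hw, e⟩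
  obtain ⟨z, hz⟩ := exists_int_of_isIntegral_of_rat hw ((o : ℚ) / 2) (by
    push_cast; linear_combination -e / 2)
  rw [hz] at e
  have : (o : ℤ) = 2 * z := by exact_mod_cast e
  obtain ⟨k, rfl⟩ := ho
  omega

variable {G : Type*} [Group G] [Fintype G]

theorem even_mult {χ : G → ℂ} (hχ : IsIrrCharacter G χ) (h1 : fsInd χ = -1) {K : Type*} [Group K]
    [Fintype K] (f : K →* G) (lam : K →* ℂˣ) (t : G) (σ : K ≃ K)
    (hσ : ∀ k, f (σ k) = t * (f k)⁻¹ * t⁻¹) (hl : ∀ k, lam (σ k) = lam k) (k0 : K)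
    (h0 : f k0 = t * t) (hl0 : lam k0 = 1) :
    ∃ r : ℕ, classInner (fun k => χ (f k)) (fun k => (lam k : ℂ)) = 2 * r := by
  obtain ⟨n, U, hU, rfl⟩ := CH.exists_unitary hχ.isCharacter
  have hr : ∀ g, ((U g).trace).im = 0 := by
    by_contra hc
    push Not at hc
    simp [hχ.fsInd_eq_zero hc] at h1
  obtain ⟨⟨M, hM0, hM⟩, h2⟩ := CH.form U hχ hr
  have hs := h2 M hM
  rw [h1, neg_one_smul] at hs
  have hMU : ∀ g, M * U g = (U g).map conj * M := fun g => by
    have e : (U g).map conj * (U g)ᵀ = 1 := by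
      have := congrArg Matrix.transpose (hU g).1
      rwa [Matrix.transpose_mul, Matrix.transpose_one, mul_eq_one_comm] at this
    conv_rhs => rw [← hM g, ← Matrix.mul_assoc, ← Matrix.mul_assoc, e, Matrix.one_mul]
  have hMU' : ∀ g, M.map conj * (U g).map conj = U g * M.map conj := fun g => by
    have := congrArg (fun A : Matrix (Fin n) (Fin n) ℂ => A.map conj) (hMU g)
    simp only [Matrix.map_mul] at this
    rw [this]
    congr 1
    ext i j
    simp
  obtain ⟨c, hc⟩ := CH.exists_smul_one U hχ (M.map conj * M) fun g => by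
    rw [Matrix.mul_assoc, hMU, ← Matrix.mul_assoc, hMU', Matrix.mul_assoc]
  have hst : M.map conj = -Mᴴ := by
    ext i j
    have := congrFun (congrFun hs j) i
    simp only [Matrix.transpose_apply, Matrix.neg_apply] at this
    simp [this]
  have hc0 : c ≠ 0 := by
    rintro rfl
    rw [hst, zero_smul, Matrix.neg_mul, neg_eq_zero] at hc
    open scoped ComplexOrder in exact hM0 (Matrix.conjTranspose_mul_self_eq_zero.1 hc)
  have hMu : IsUnit M := by
    have : (c⁻¹ • M.map conj) * M = 1 := by rw [Matrix.smul_mul, hc, smul_smul, inv_mul_cancel₀ hc0, one_smul]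
    exact (Matrix.isUnit_iff_isUnit_det _).2 (Matrix.isUnit_det_of_left_inverse this)
  have hT : ∀ g, (U g)ᵀ * M = M * U g⁻¹ := fun g => by
    conv_rhs => rw [← hM g]
    rw [Matrix.mul_assoc, ← map_mul, mul_inv_cancel, map_one, Matrix.mul_one]
  set E : Matrix (Fin n) (Fin n) ℂ := (Nat.card K : ℂ)⁻¹ • ∑ k, ((lam k)⁻¹ : ℂˣ) • U (f k) with hE
  have hUE : ∀ k, U (f k) * E = (lam k) • E := fun k => by
    rw [hE, Matrix.mul_smul, smul_comm (lam k), Finset.mul_sum, Finset.smul_sum (r := lam k)]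
    congr 1
    refine Fintype.sum_equiv (Equiv.mulLeft k) _ _ fun x => ?_
    simp [smul_smul, ← mul_assoc]
  have hEE : E * E = E := by
    conv_lhs => rw [hE, Matrix.smul_mul, Finset.sum_mul, ← hE]
    simp only [Matrix.smul_mul, hUE, smul_smul, inv_mul_cancel, one_smul]
    rw [Finset.sum_const, Finset.card_univ, ← Nat.card_eq_fintype_card, ← Nat.cast_smul_eq_nsmul ℂ,
      smul_smul, inv_mul_cancel₀ natCard_cast_ne_zero, one_smul]
  have hsk : (M * U t * E)ᵀ = -(M * U t * E) := by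
    have e1 : U t * E = U t⁻¹ * E := by
      have := hUE k0
      rw [hl0, one_smul, h0] at this
      conv_rhs => rw [← this, ← Matrix.mul_assoc, ← map_mul, inv_mul_cancel_left]
    have e2 : Eᵀ * (M * U t⁻¹) = M * (U t⁻¹ * E) := by
      rw [hE, Matrix.transpose_smul, Matrix.smul_mul, Matrix.mul_smul, Matrix.mul_smul,
        Matrix.transpose_sum, Finset.sum_mul, Finset.mul_sum, Finset.mul_sum]
      congr 1
      refine Fintype.sum_equiv σ _ _ fun k => ?_
      rw [hl, hσ, Matrix.transpose_smul, Matrix.smul_mul, Matrix.mul_smul, Matrix.mul_smul,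
        ← Matrix.mul_assoc, hT, Matrix.mul_assoc, ← map_mul, ← map_mul]
      congr 3
      group
    rw [Matrix.transpose_mul, Matrix.transpose_mul, hs, Matrix.mul_neg, hT, Matrix.mul_neg, e2,
      Matrix.mul_assoc, e1]
  obtain ⟨r, hr⟩ := trace_even (M * U t) E (hMu.mul ((Group.isUnit t).map U)) hEE hsk
  refine ⟨r, ?_⟩
  rw [← hr, hE, Matrix.trace_smul, Matrix.trace_sum, classInner_def, smul_eq_mul]
  congr 1
  refine Finset.sum_congr rfl fun k _ => ?_
  rw [← (isCharacter_hom lam).apply_inv, map_inv, Matrix.trace_smul, Units.smul_def, smul_eq_mul,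
    mul_comm]

/-- average of `χ` over the coset `s P` -/
noncomputable def D (s : G) (P : Subgroup G) (χ : G → ℂ) : ℂ :=
  (Nat.card P : ℂ)⁻¹ * ∑ u : P, χ (s * u)

theorem D_eq (s : G) (P : Subgroup G) (hP : P ≤ centralizer {s}) :
    ∃ f : zpowers s × P →* G, (∀ k, f k = k.1 * k.2) ∧ ∀ χ : G → ℂ, D s P χ =
      ∑ μ : IrrCharacter (zpowers s), classInner (fun k => χ (f k)) (fun k => μ.1 k.1) *
        μ.1 ⟨s, mem_zpowers s⟩ := by
  have hc : ∀ (a : zpowers s) (u : P), Commute (a : G) (u : G) := by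
    rintro ⟨_, k, rfl⟩ u
    exact Commute.zpow_left (mem_centralizer_iff.1 (hP u.2) s rfl) k
  refine ⟨(zpowers s).subtype.noncommCoprod P.subtype hc, fun k => rfl, fun χ => ?_⟩
  have hF : IsClassFunction (zpowers s) fun a => D (a : G) P χ := fun a b => by
    rw [mul_comm' b a, mul_inv_cancel_right]
  refine (hF.apply_eq_sum_irr ⟨s, mem_zpowers s⟩).trans (Finset.sum_congr rfl fun μ _ => ?_)
  congr 1
  rw [classInner_def, classInner_def, Fintype.sum_prod_type, Nat.card_prod, Nat.cast_mul, mul_inv,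
    mul_assoc, Finset.mul_sum (a := (Nat.card P : ℂ)⁻¹)]
  congr 1
  refine Finset.sum_congr rfl fun a _ => ?_
  rw [D, mul_assoc, Finset.sum_mul]
  rfl

theorem D_int (s : G) (P : Subgroup G) (hP : P ≤ centralizer {s}) {χ : G → ℂ}
    (hχ : IsCharacter G χ) : IsIntegral ℤ (D s P χ) := by
  obtain ⟨f, -, hf⟩ := D_eq s P hP
  rw [hf]
  refine IsIntegral.sum _ fun μ _ => IsIntegral.mul ?_ (μ.2.isCharacter.isIntegral _)
  obtain ⟨n, hn⟩ := (hχ.comp f).exists_nat_classInner
    (μ.2.isCharacter.comp (MonoidHom.fst (zpowers s) P))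
  exact hn ▸ isIntegral_natCast n

/-- data attached to a real element -/
structure RD (s : G) (P : Subgroup G) (t : G) : Prop where
  le : P ≤ centralizer {s}
  inv : t * s⁻¹ * t⁻¹ = s
  nrm : ∀ u ∈ P, t * u * t⁻¹ ∈ P
  sq : t * t ∈ P

theorem RD.tau {s t : G} {P : Subgroup G} (h : RD s P t) :
    ∃ τ : P ≃ P, ∀ (a : zpowers s) (u : P), (a : G) * τ u = t * ((a : G) * u)⁻¹ * t⁻¹ := by
  refine ⟨Equiv.ofBijective (fun u => ⟨t * u⁻¹ * t⁻¹, h.nrm _ (inv_mem u.2)⟩)
    (Finite.injective_iff_bijective.1 fun u v e => by simpa using e), ?_⟩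
  rintro ⟨_, k, rfl⟩ u
  have e : t * (s ^ k)⁻¹ * t⁻¹ = s ^ k := by rw [← _root_.inv_zpow, ← conj_zpow, h.inv]
  have hc : Commute (s ^ k) (u : G) := Commute.zpow_left (mem_centralizer_iff.1 (h.le u.2) s rfl) k
  show s ^ k * (t * (u : G)⁻¹ * t⁻¹) = t * (s ^ k * u)⁻¹ * t⁻¹
  rw [hc.eq]
  conv_lhs => rw [← e]
  group

theorem RD.ev {s t : G} {P : Subgroup G} (h : RD s P t) {χ : G → ℂ} (hχ : IsIrrCharacter G χ)
    (h1 : fsInd χ = -1) : Ev (D s P χ) := by
  obtain ⟨f, hf1, hf⟩ := D_eq s P h.le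
  obtain ⟨τ, hτ⟩ := h.tau
  rw [hf]
  refine EvS.sum_mem fun μ _ => Ev.mul ?_ (μ.2.isCharacter.isIntegral _)
  obtain ⟨lam, hl⟩ := μ.2.exists_hom_of_comm fun a b => mul_comm' a b
  obtain ⟨r, hr⟩ := even_mult hχ h1 f (lam.comp (MonoidHom.fst _ _)) t
    ((Equiv.refl _).prodCongr τ) (fun k => by rw [hf1, hf1]; exact hτ k.1 k.2) (fun k => rfl)
    (1, ⟨t * t, h.sq⟩) (by simp [hf1]) (by simp)
  rw [hl]
  exact ⟨r, isIntegral_natCast r, hr⟩

theorem RD.cj {s t : G} {P : Subgroup G} (h : RD s P t) {χ : G → ℂ} (hχ : IsCharacter G χ) :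
    D s P (fun g => conj (χ g)) = D s P χ := by
  obtain ⟨τ, hτ⟩ := h.tau
  rw [D, D]
  congr 1
  refine Fintype.sum_equiv τ _ _ fun u => ?_
  rw [hτ ⟨s, mem_zpowers s⟩ u, hχ.isClassFunction, hχ.apply_inv]

theorem exists_RD (s x : G) (hx : x * s⁻¹ * x⁻¹ = s) :
    ∃ P t, RD s P t ∧ Transfer.IsSylowIn 2 P (centralizer {s}) := by
  obtain ⟨k, m, hm, e⟩ := Nat.exists_eq_two_pow_mul_odd (orderOf_pos x).ne'
  have hx' : x * s * x⁻¹ = s⁻¹ := by
    conv_rhs => rw [← hx]
    group
  have h2 : Commute (x ^ 2) s := by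
    have : x * (x * s * x⁻¹) * x⁻¹ = s := by rw [hx', hx]
    rw [Commute, SemiconjBy, sq]
    conv_rhs => rw [← this]
    group
  obtain ⟨j, rfl⟩ := hm
  set t := x ^ (2 * j + 1) with ht
  have ht1 : t * s⁻¹ * t⁻¹ = s := by
    have := (h2.pow_left j).inv_right.eq
    rw [ht, pow_succ', pow_mul, mul_assoc x, this]
    conv_rhs => rw [← hx]
    group
  have ht1' : t * s * t⁻¹ = s⁻¹ := by
    conv_rhs => rw [← ht1]
    group
  have ht2 : IsPGroup 2 (zpowers t) := by
    refine IsPGroup.of_card_dvd_pow (n := k) ?_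
    rw [Nat.card_zpowers, orderOf_dvd_iff_pow_eq_one, ht, ← pow_mul, mul_comm, ← e, pow_orderOf_eq_one]
  have hn : t ∈ normalizer (centralizer {s} : Set G) := by
    refine Transfer.mem_normalizer_of_conj_smul_le (Transfer.conj_smul_le_iff.2 fun y hy => ?_)
    rw [mem_centralizer_singleton_iff] at hy ⊢
    have : y * s⁻¹ = s⁻¹ * y := (Commute.inv_right hy).eq
    conv_lhs => rw [← ht1]
    conv_rhs => rw [← ht1]
    calc _ = t * (y * s⁻¹) * t⁻¹ := by group
      _ = _ := by rw [this]; group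
  obtain ⟨T, hT, hle⟩ := Transfer.exists_isSylowIn_ge ht2 (zpowers_le.2 hn)
  have htT : t ∈ T := hle (mem_zpowers t)
  refine ⟨T ⊓ centralizer {s}, t, ⟨inf_le_right, ht1, fun u hu => ⟨T.mul_mem (T.mul_mem htT hu.1)
    (T.inv_mem htT), (mem_normalizer_iff.1 hn u).1 hu.2⟩, T.mul_mem htT htT, ?_⟩,
    hT.inf_of_le_normalizer le_normalizer le_rfl⟩
  refine mem_centralizer_singleton_iff.2 ?_
  have : t * (t * s * t⁻¹) * t⁻¹ = s := by rw [ht1', ht1]
  conv_rhs => rw [← this]
  group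

theorem D_van {s : G} (hs : Odd (orderOf s)) {P : Subgroup G} (hP : P ≤ centralizer {s})
    (h2 : IsPGroup 2 P) {Φ : G → ℂ} (hv : ∀ g, 2 ∣ orderOf g → Φ g = 0) :
    Φ s = Nat.card P * D s P Φ := by
  rw [D, ← mul_assoc, mul_inv_cancel₀ natCard_cast_ne_zero, one_mul, Finset.sum_eq_single 1]
  · simp
  · intro u _ hu
    refine hv _ ?_
    obtain ⟨k, hk⟩ := IsPGroup.iff_orderOf.1 h2 u
    have hc : Commute s (u : G) := mem_centralizer_iff.1 (hP u.2) s rfl
    rw [hc.orderOf_mul_eq_mul_orderOf_of_coprime (by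
      rw [orderOf_coe, hk]; exact (Nat.coprime_two_right.2 hs).pow_right k), orderOf_coe, hk]
    refine Dvd.dvd.mul_left (dvd_pow_self 2 ?_) _
    rintro rfl
    exact hu (orderOf_eq_one_iff.1 hk)
  · simp

/-- inversion of classes -/
def invC : ConjClasses G → ConjClasses G :=
  Quotient.lift (fun g => ConjClasses.mk g⁻¹) fun a b h => by
    obtain ⟨c, rfl⟩ := isConj_iff.1 h
    exact ConjClasses.mk_eq_mk_iff_isConj.2 (isConj_iff.2 ⟨c, by group⟩)

/-- Thompson's parity theorem. -/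
theorem thompson {Φ Ψ : G → ℂ} (hΦ : IsCharacter G Φ) (hv : ∀ g, 2 ∣ orderOf g → Φ g = 0)
    (hr : ∀ g, Φ g⁻¹ = Φ g) (hΨ : IsClassFunction G Ψ) (hi : ∀ g, IsIntegral ℤ (conj (Ψ g)))
    (hr' : ∀ g, Ψ g⁻¹ = Ψ g) (h1 : classInner Φ Ψ = 1) :
    ∃ χ : IrrCharacter G, fsInd χ.1 = 1 ∧ ∃ m : ℕ, Odd m ∧ classInner Φ χ = m := by
  by_contra hc
  push Not at hc
  obtain ⟨m, hm, -⟩ := hΦ.exists_nat_coeff
  have hDs : ∀ s P, D s P Φ = ∑ χ : IrrCharacter G, m χ * D s P χ.1 := fun s P => by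
    simp only [D, hΦ.isClassFunction.apply_eq_sum_irr, hm]
    rw [Finset.sum_comm, Finset.mul_sum]
    refine Finset.sum_congr rfl fun χ _ => ?_
    rw [← Finset.mul_sum]
    ring
  have hev : ∀ s P t, RD s P t → Ev (D s P Φ) := fun s P t h => by
    rw [hDs]
    refine ev_sum (fun χ => ⟨fun g => conj (χ.1 g), χ.2.conj⟩) (fun χ => Subtype.ext (by simp)) _
      (fun χ => ?_) (fun χ => (isIntegral_natCast _).mul (D_int s P h.le χ.2.isCharacter))
      fun χ e => ?_
    · rw [h.cj χ.2.isCharacter, ← hm, ← hm, hΦ.classInner_comm χ.2.isCharacter,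
        ← classInner_conj_conj]
      congr 2
      · ext g
        simp
      · ext g
        rw [← hΦ.apply_inv, hr]
    · rcases χ.2.fsInd_eq_one_or_neg_one (conj_eq_iff_forall_im.1 (congrArg Subtype.val e)) with
        h1 | h1
      · obtain ⟨r, hr⟩ := Nat.not_odd_iff_even.1 fun ho => hc χ h1 _ ho (hm χ)
        exact Ev.mul ⟨r, isIntegral_natCast r, by rw [hr]; push_cast; ring⟩
          (D_int s P h.le χ.2.isCharacter)
      · rw [mul_comm]
        exact (h.ev χ.2 h1).mul (isIntegral_natCast _)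
  obtain ⟨k, o, ho, e⟩ := Nat.exists_eq_two_pow_mul_odd (Nat.card_pos (α := G)).ne'
  let F : G → ℂ := fun g => o * (Φ g * conj (Ψ g)) / Nat.card (centralizer ({g} : Set G))
  have hF : ∀ a b, IsConj a b → F a = F b := fun a b h => by
    simp only [F]
    rw [hΦ.isClassFunction.apply_eq_of_isConj h, hΨ.apply_eq_of_isConj h]
    obtain ⟨c, rfl⟩ := isConj_iff.1 h
    rw [← Transfer.card_conj_smul c (centralizer {a})]
    congr 4
    ext y
    rw [Transfer.mem_conj_smul, mem_centralizer_singleton_iff, mem_centralizer_singleton_iff]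
    constructor <;> intro h
    · calc _ = c * (c⁻¹ * y * c * a) * c⁻¹ := by group
        _ = _ := by rw [h]; group
    · calc _ = c⁻¹ * (y * (c * a * c⁻¹)) * c := by group
        _ = _ := by rw [h]; group
  have hF1 : ∀ a, F a⁻¹ = F a := fun a => by
    simp only [F]
    rw [hr, hr']
    congr 4
    ext y
    rw [mem_centralizer_singleton_iff, mem_centralizer_singleton_iff]
    exact ⟨fun h => by simpa using (Commute.inv_right h).eq, fun h => (Commute.inv_right h).eq⟩
  have hF2 : ∀ s P, Odd (orderOf s) → Transfer.IsSylowIn 2 P (centralizer {s}) →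
      ∃ w, IsIntegral ℤ w ∧ F s = D s P Φ * w := fun s P hs hP => by
    have e1 : P.relIndex (centralizer {s}) * Nat.card P = Nat.card (centralizer ({s} : Set G)) := by
      rw [← Nat.card_congr (subgroupOfEquivOfLe hP.le).toEquiv, relIndex, index_mul_card]
    have hd : P.relIndex (centralizer {s}) ∣ o := by
      refine Nat.Coprime.dvd_of_dvd_mul_left (m := 2 ^ k)
        ((Nat.coprime_two_right.2 (Nat.odd_iff.2 (Nat.two_dvd_ne_zero.1 hP.not_dvd))).pow_right k) ?_
      rw [← e]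
      exact (Dvd.intro _ e1).trans (card_subgroup_dvd_card _)
    obtain ⟨q, hq⟩ := hd
    refine ⟨q * conj (Ψ s), (isIntegral_natCast q).mul (hi s), ?_⟩
    simp only [F]
    rw [D_van hs hP.le hP.isPGroup hv, div_eq_iff natCard_cast_ne_zero, ← e1, hq]
    push_cast
    ring
  let f : ConjClasses G → ℂ := Quotient.lift F hF
  have hs := sum_card_centralizer_smul f
  have hs2 : ∑ C, f C = o := by
    refine mul_left_cancel₀ (natCard_cast_ne_zero (G := G)) ?_
    rw [← nsmul_eq_mul, ← hs, mul_comm, ← mul_one (Nat.card G : ℂ), ← h1, card_mul_classInner,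
      Finset.mul_sum]
    refine Finset.sum_congr rfl fun g _ => ?_
    rw [nsmul_eq_mul]
    exact mul_div_cancel₀ _ natCard_cast_ne_zero
  refine not_ev_odd ho ?_
  rw [← hs2]
  refine ev_sum invC ?_ f ?_ ?_ ?_
  · rintro ⟨a⟩
    exact congrArg ConjClasses.mk (inv_inv a)
  · rintro ⟨a⟩
    exact hF1 a
  · rintro ⟨s⟩
    show IsIntegral ℤ (F s)
    rcases Nat.even_or_odd (orderOf s) with h | h
    · simp [F, hv s h.two_dvd, isIntegral_zero]
    · obtain ⟨P, hP⟩ := Transfer.exists_isSylowIn (p := 2) (centralizer {s})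
      obtain ⟨w, hw, e⟩ := hF2 s P h hP
      rw [e]
      exact (D_int s P hP.le hΦ).mul hw
  · rintro ⟨s⟩ hs
    show Ev (F s)
    rcases Nat.even_or_odd (orderOf s) with h | h
    · exact ⟨0, isIntegral_zero, by simp [F, hv s h.two_dvd]⟩
    · obtain ⟨x, hx⟩ := isConj_iff.1 (ConjClasses.mk_eq_mk_iff_isConj.1 hs)
      obtain ⟨P, t, h1, hP⟩ := exists_RD s x hx
      obtain ⟨w, hw, e⟩ := hF2 s P h hP
      rw [e]
      exact (hev s P t h1).mul hw

theorem murray (N : Subgroup G) [hN : N.Normal] [Fintype N] (h2 : IsPGroup 2 (G ⧸ N))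
    (φ : IrrCharacter N) (hdef : 2 ^ (Nat.card N).factorization 2 ∣ charDegree φ.1)
    (x : G) (hx : conjN N x φ.1 = fun n => conj (φ.1 n)) :
    ∃ χ : IrrCharacter G, fsInd χ.1 = 1 ∧ classInner (fun n : N => χ.1 n) φ.1 = 1 := by
  have hΦ := isCharacter_indFun N φ.2.isCharacter
  have hr : ∀ g, indFun N φ.1 g⁻¹ = indFun N φ.1 g := fun g => by
    rw [hΦ.apply_inv, ← congrFun (indFun_conj N φ.1) g, ← hx, indFun_conjN]
  obtain ⟨M, hM⟩ := Block.exists_pMod 2
  have hd : (charDegree φ.1).factorization 2 = (Nat.card N).factorization 2 :=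
    le_antisymm (Block.factorization_deg_le 2 φ) ((Nat.prime_two.pow_dvd_iff_le_factorization
      φ.2.charDegree_pos.ne').1 hdef)
  have hT : (Nat.card (inertia N φ.1) : ℂ) ≠ 0 := natCard_cast_ne_zero
  have hi : ∀ g, IsIntegral ℤ (conj ((((Nat.card N : ℂ) / Nat.card (inertia N φ.1)) •
      indFun N φ.1) g)) := fun g => by
    rw [Pi.smul_apply, smul_eq_mul, map_mul, ← hΦ.apply_inv, hr, map_div₀, map_natCast, map_natCast]
    by_cases hg : g ∈ N
    · have := congrFun (res_indFun_normal N φ.1) ⟨g, hg⟩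
      simp only [Pi.smul_apply, smul_eq_mul] at this
      rw [this, Finset.sum_comp (fun η : N → ℂ => η) (fun y => conjN N y φ.1),
        Finset.sum_congr rfl (g := fun η => Nat.card (inertia N φ.1) • η) (fun η hη => by
          obtain ⟨b, -, rfl⟩ := Finset.mem_image.1 hη
          congr 1
          convert card_filter_conjN_eq N φ.1 b), ← Finset.smul_sum, Pi.smul_apply, nsmul_eq_mul,
        div_mul_eq_mul_div, mul_inv_cancel_left₀ natCard_cast_ne_zero, mul_div_cancel_left₀ _ hT,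
        Finset.sum_apply]
      refine IsIntegral.sum _ fun η hη => ?_
      obtain ⟨b, -, rfl⟩ := Finset.mem_image.1 hη
      exact (isCharacter_conjN N φ.2.isCharacter b).isIntegral _
    · rw [indFun_normal_of_not_mem N _ hg, mul_zero]
      exact isIntegral_zero
  obtain ⟨χ, h1, m, hm, e⟩ := thompson (Ψ := ((Nat.card N : ℂ) / Nat.card (inertia N φ.1)) •
      indFun N φ.1) hΦ (fun g hg => indFun_eq_zero_of_forall N _ fun y hy =>
        Block.apply_eq_zero_of_defect_zero hd (by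
          rw [← orderOf_coe]
          exact (orderOf_injective (MulAut.conj y).toMonoidHom (MulAut.conj y).injective g).symm ▸
            hg) M) hr
    (fun a b => by simp only [Pi.smul_apply, hΦ.isClassFunction a b]) hi
    (fun g => by simp only [Pi.smul_apply, hr]) (by
      rw [classInner_smul_right, map_div₀, map_natCast, map_natCast, div_mul_eq_mul_div,
        card_mul_classInner_indFun_self N φ.2, div_self hT])
  · refine ⟨χ, h1, ?_⟩
    rw [hΦ.classInner_comm χ.2.isCharacter, classInner_indFun_right _ _ χ.2.isClassFunction] at e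
    have h0 : classInner (fun n : N => χ.1 n) φ.1 ≠ 0 := by
      rw [e]
      exact_mod_cast hm.pos.ne'
    obtain ⟨d, hd1, hd2⟩ := exists_apply_one_eq_mul_dvd_index N φ.2 χ.2 h0
    rw [apply_one_eq_mul_index N χ.2 φ.2 h0, e] at hd2
    have hd3 : m * (inertia N φ.1).index = d := by
      exact_mod_cast mul_right_cancel₀ φ.2.apply_one_ne_zero hd2
    obtain ⟨k, hk⟩ := IsPGroup.iff_card.1 h2
    have : m ∣ 2 ^ k := by
      rw [← hk]
      exact (Dvd.intro _ hd3).trans hd1
    rw [e, Nat.Coprime.eq_one_of_dvd ((Nat.coprime_two_right.2 hm).pow_right k) this,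
      Nat.cast_one]

end Cfsg.Agent.Isa.Th
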