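import Cfsg.Agent.Isa.K2
import Cfsg.Agent.CharDeep.Clifford

/-! Gagola's embedding of solvable groups into groups of central type. (helper12) -/

set_option autoImplicit false
set_option linter.unusedVariables false
set_option linter.unusedSectionVars false

namespace Cfsg.Agent.Isa.Ga

open RegularWreathProduct
open scoped _root_.Classical

universe u

/-- `lam` is a fully ramified invariant linear character of `ker Θ`, and `G` embeds in `L`. -/
structure CT (G H L : Type u) [Group G] [Group H] [Group L] (Θ : H →* L) (lam : H → ℂ) : Prop where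
  surj : Function.Surjective Θ
  emb : ∃ ι : G →* L, Function.Injective ι
  one : lam 1 = 1
  mul : ∀ a b, Θ a = 1 → Θ b = 1 → lam (a * b) = lam a * lam b
  cj : ∀ z x, Θ z = 1 → lam (x * z * x⁻¹) = lam z
  fr : ∀ h, Θ h ≠ 1 → ∃ x, Θ (x * h * x⁻¹ * h⁻¹) = 1 ∧ lam (x * h * x⁻¹ * h⁻¹) ≠ 1
  pr : ∀ q, q.Prime → q ∣ Nat.card H → q ∣ Nat.card G
  ex : ∀ z e, Θ z = 1 → (∀ q, q.Prime → q ∣ Nat.card G → q ∣ e) → lam z ^ e = 1
  el : ∀ q, q.Prime → q ∣ Nat.card G → ∃ z, Θ z = 1 ∧ orderOf (lam z) = q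

section step
variable (p : ℕ) [hp : Fact p.Prime]

/-- cyclic group of order `p` -/
abbrev A := Multiplicative (ZMod p)

variable {p}

/-- the pairing -/
noncomputable def β (a : A p) : A p →* ℂ :=
  (ZMod.stdAddChar (N := p)).toMonoidHom.comp (AddMonoidHom.toMultiplicative (AddMonoidHom.mulLeft a.toAdd))

theorem β_apply (a b : A p) : β a b = ZMod.stdAddChar (N := p) (a.toAdd * b.toAdd) := rfl

theorem β_mul (a a' b : A p) : β (a * a') b = β a b * β a' b := by
  simp [β_apply, add_mul, AddChar.map_add_eq_mul]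

theorem β_one (b : A p) : β 1 b = 1 := by simp [β_apply]

theorem β_ne {a b : A p} (ha : a ≠ 1) (hb : b ≠ 1) : β a b ≠ 1 := fun h => by
  rw [β_apply, ← (ZMod.stdAddChar (N := p)).map_zero_eq_one] at h
  rcases mul_eq_zero.1 (ZMod.injective_stdAddChar h) with h | h
  exacts [ha h, hb h]

theorem β_pow (a b : A p) : β a b ^ p = 1 := by
  rw [← map_pow, show b ^ p = 1 by simpa using pow_card_eq_one' (x := b), map_one]

variable {K L : Type u} [Group K] [Group L] (Θ : K →* L) (lam : K → ℂ)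

/-- the new quotient map -/
def Θ' : (K × A p) ≀ᵣ A p →* (L ≀ᵣ A p) × A p :=
  MonoidHom.mk' (fun h => (⟨fun q => Θ (h.left q).1, h.right⟩, ∏ q, (h.left q).2)) fun a b => by
    refine Prod.ext (RegularWreathProduct.ext (funext fun q => by simp) rfl) ?_
    simp only [mul_left, Pi.mul_apply, Prod.snd_mul, Finset.prod_mul_distrib]
    rw [← Equiv.prod_comp (Equiv.mulLeft a.right⁻¹) fun q => (b.left q).2]
    rfl

theorem Θ'_eq {h : (K × A p) ≀ᵣ A p} :
    Θ' Θ h = 1 ↔ h.right = 1 ∧ (∀ q, Θ (h.left q).1 = 1) ∧ ∏ q, (h.left q).2 = 1 :=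
  ⟨fun e => ⟨congrArg (fun x => x.1.right) e, fun q => congrArg (fun x => x.1.left q) e,
    congrArg Prod.snd e⟩, fun e => Prod.ext (RegularWreathProduct.ext (funext e.2.1) e.1) e.2.2⟩

/-- the new character -/
noncomputable def lam' (h : (K × A p) ≀ᵣ A p) : ℂ := (∏ q, lam (h.left q).1) * ∏ q, β q (h.left q).2

/-- element of the base group supported at one point -/
noncomputable def sg (q : A p) (d : K × A p) : (K × A p) ≀ᵣ A p := ⟨Pi.mulSingle q d, 1⟩

theorem prod_sg {M : Type*} [CommMonoid M] (F : A p → K × A p → M) (hF : ∀ q, F q 1 = 1) (q : A p)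
    (d : K × A p) : ∏ i, F i (Pi.mulSingle (M := fun _ => K × A p) q d i) = F q d := by
  rw [Finset.prod_eq_single q (fun i _ hi => by rw [Pi.mulSingle_eq_of_ne hi, hF]) (by simp),
    Pi.mulSingle_eq_same]

variable {Θ lam}

theorem CT.sgl {M : Type u} [Group M] (h : CT M K L Θ lam) (q : A p) {z : K} (hz : Θ z = 1) :
    Θ' Θ (sg q (z, 1)) = 1 ∧ lam' lam (sg q (z, 1)) = lam z := by
  refine ⟨(Θ'_eq Θ).2 ⟨rfl, fun i => ?_, prod_sg (fun _ d => d.2) (fun _ => rfl) q _⟩, ?_⟩
  · by_cases e : i = q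
    · subst e
      simpa [sg] using hz
    · simp [sg, Pi.mulSingle_eq_of_ne e]
  · rw [lam', sg, prod_sg (fun _ d => lam d.1) (fun _ => h.one),
      prod_sg (fun i d => β i d.2) (fun _ => map_one _), map_one, mul_one]

theorem CT.cm {M : Type u} [Group M] (h : CT M K L Θ lam) (a : A p) (y : (K × A p) ≀ᵣ A p) :
    Θ' Θ (sg 1 (1, a) * y * (sg 1 (1, a))⁻¹ * y⁻¹) = 1 ∧
      lam' lam (sg 1 (1, a) * y * (sg 1 (1, a))⁻¹ * y⁻¹) = β y.right a⁻¹ := by
  have e1 : ∀ q, ((sg 1 (1, a) * y * (sg 1 (1, a))⁻¹ * y⁻¹).left q).1 = 1 := fun q => by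
    simp [sg, Pi.mulSingle_apply, apply_ite Prod.fst]
  have e2 : ∀ q, ((sg 1 (1, a) * y * (sg 1 (1, a))⁻¹ * y⁻¹).left q).2 =
      (Pi.mulSingle (M := fun _ => K × A p) 1 (1, a) q).2 *
        (Pi.mulSingle (M := fun _ => K × A p) y.right (1, a⁻¹) q).2 := fun q => by
    simp [sg, Pi.mulSingle_apply, apply_ite Prod.snd, inv_mul_eq_one, eq_comm, mul_right_comm,
      apply_ite Inv.inv]
  refine ⟨(Θ'_eq Θ).2 ⟨by simp [sg], fun q => by rw [e1, map_one], ?_⟩, ?_⟩
  · simp only [e2, Finset.prod_mul_distrib]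
    rw [prod_sg (fun _ d => d.2) (fun _ => rfl), prod_sg (fun _ d => d.2) (fun _ => rfl),
      mul_inv_cancel]
  · simp only [lam', e1, e2, h.one, map_mul, Finset.prod_mul_distrib, Finset.prod_const_one]
    rw [prod_sg (fun i d => β i d.2) (fun _ => map_one _),
      prod_sg (fun i d => β i d.2) (fun _ => map_one _), β_one, one_mul, one_mul]

theorem CT.step {G : Type u} [Group G] [Finite G] [Finite K] (π : G →* A p)
    (hπ : Function.Surjective π) (h : CT π.ker K L Θ lam) :
    CT G ((K × A p) ≀ᵣ A p) ((L ≀ᵣ A p) × A p) (Θ' Θ) (lam' lam) := by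
  have hc : Nat.card G = Nat.card π.ker * p := by
    rw [← Subgroup.card_mul_index π.ker, Subgroup.index_ker, MonoidHom.range_eq_top.2 hπ]
    simp
  have a1 : (Multiplicative.ofAdd 1 : A p) ≠ 1 := one_ne_zero (α := ZMod p)
  have sh : ∀ (r : A p) (z : A p → A p), ∏ q, β q (z (r⁻¹ * q)) = β r (∏ q, z q) * ∏ q, β q (z q) :=
    fun r z => by
      rw [← Equiv.prod_comp (Equiv.mulLeft r), map_prod, ← Finset.prod_mul_distrib]
      simp [β_mul]
  refine ⟨fun ⟨w, a⟩ => ?_, ?_, ?_, fun a b ha hb => ?_, fun z x hz => ?_, fun y hy => ?_,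
    fun q hq hd => ?_, fun z e hz he => ?_, fun q hq hd => ?_⟩
  · choose k hk using h.surj
    refine ⟨⟨fun q => (k (w.left q), (Pi.mulSingle (M := fun _ => K × A p) 1 (1, a) q).2), w.right⟩,
      Prod.ext (RegularWreathProduct.ext (funext fun q => hk _) rfl) ?_⟩
    exact prod_sg (K := K) (fun _ d => d.2) (fun _ => rfl) 1 (1, a)
  · obtain ⟨ι, hι⟩ := h.emb
    obtain ⟨F, hF, -⟩ := PF.CH.kk_embed π ι hι
    exact ⟨(MonoidHom.inl _ _).comp F, fun a b e => hF (congrArg Prod.fst e)⟩
  · simp [lam', h.one]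
  · rw [Θ'_eq] at ha hb
    simp only [lam', mul_left, ha.1, inv_one, one_mul, Pi.mul_apply, Prod.fst_mul, Prod.snd_mul,
      map_mul, h.mul _ _ (ha.2.1 _) (hb.2.1 _), Finset.prod_mul_distrib]
    ring
  · rw [Θ'_eq] at hz
    have e : ∀ q, (x * z * x⁻¹).left q = x.left q * z.left (x.right⁻¹ * q) * (x.left q)⁻¹ :=
      fun q => by simp [hz.1]
    simp only [lam', e, Prod.fst_mul, Prod.snd_mul, Prod.fst_inv, Prod.snd_inv,
      h.cj _ _ (hz.2.1 _), mul_inv_cancel_comm]
    rw [sh x.right fun q => (z.left q).2, hz.2.2, map_one, one_mul,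
      ← Equiv.prod_comp (Equiv.mulLeft x.right⁻¹) fun q => lam (z.left q).1]
    rfl
  · by_cases h1 : y.right = 1
    · by_cases h2 : ∀ q, Θ (y.left q).1 = 1
      · have h3 : ∏ q, (y.left q).2 ≠ 1 := fun e => hy ((Θ'_eq Θ).2 ⟨h1, h2, e⟩)
        set a : A p := Multiplicative.ofAdd 1
        have e : ∀ q, (inl a * y * (inl a)⁻¹ * y⁻¹ : (K × A p) ≀ᵣ A p).left q =
            y.left (a⁻¹ * q) * (y.left q)⁻¹ := fun q => by simp [h1]
        refine ⟨inl a, (Θ'_eq Θ).2 ⟨by simp [h1], fun q => by simp [e, h2, -mul_left], ?_⟩, ?_⟩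
        · simp only [e, Prod.snd_mul, Prod.snd_inv, Finset.prod_mul_distrib, Finset.prod_inv_distrib]
          rw [mul_inv_eq_one, ← Equiv.prod_comp (Equiv.mulLeft a⁻¹) fun q => (y.left q).2]
          rfl
        · have hi : ∀ q, Θ (y.left q).1⁻¹ = 1 := fun q => by rw [map_inv, h2, inv_one]
          simp only [lam', e, Prod.fst_mul, Prod.snd_mul, Prod.fst_inv, Prod.snd_inv, map_mul,
            h.mul _ _ (h2 _) (hi _), Finset.prod_mul_distrib]
          rw [sh a fun q => (y.left q).2, show ∏ q, lam (y.left (a⁻¹ * q)).1 = ∏ q, lam (y.left q).1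
            from Equiv.prod_comp (Equiv.mulLeft a⁻¹) fun q => lam (y.left q).1,
            ← Finset.prod_mul_distrib, mul_assoc, ← Finset.prod_mul_distrib]
          simp only [← h.mul _ _ (h2 _) (hi _), h.one, ← map_mul, mul_inv_cancel, map_one,
            Finset.prod_const_one, one_mul, mul_one]
          exact β_ne a1 h3
      · push Not at h2
        obtain ⟨q, hq⟩ := h2
        obtain ⟨x, hx1, hx2⟩ := h.fr _ hq
        have e : sg q (x, 1) * y * (sg q (x, 1))⁻¹ * y⁻¹ =
            sg q (x * (y.left q).1 * x⁻¹ * (y.left q).1⁻¹, 1) := by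
          refine RegularWreathProduct.ext (funext fun i => ?_) (by simp [sg])
          by_cases e : i = q
          · subst e
            ext <;> simp [sg, h1]
          · simp [sg, h1, Pi.mulSingle_eq_of_ne e]
        refine ⟨sg q (x, 1), ?_⟩
        rw [e, (h.sgl q hx1).2]
        exact ⟨(h.sgl q hx1).1, hx2⟩
    · exact ⟨_, (h.cm _ y).1, by rw [(h.cm _ y).2]; exact β_ne h1 (inv_ne_one.2 a1)⟩
  · rw [RegularWreathProduct.card, Nat.card_prod] at hd
    simp only [Nat.card_eq_fintype_card, Fintype.card_multiplicative, ZMod.card] at hd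
    rw [hc]
    rcases (Nat.Prime.dvd_mul hq).1 hd with hd | hd
    · rcases (Nat.Prime.dvd_mul hq).1 (hq.dvd_of_dvd_pow hd) with hd | hd
      exacts [(h.pr q hq hd).mul_right _, hd.mul_left _]
    · exact hd.mul_left _
  · rw [Θ'_eq] at hz
    obtain ⟨c, rfl⟩ := he p hp.out (hc ▸ dvd_mul_left _ _)
    rw [lam', mul_pow, ← Finset.prod_pow, ← Finset.prod_pow, Finset.prod_eq_one fun q _ =>
      h.ex _ _ (hz.2.1 q) fun r hr hd => he r hr (hc ▸ hd.mul_right _), one_mul]
    exact Finset.prod_eq_one fun q _ => by rw [pow_mul, β_pow, one_pow]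
  · rw [hc] at hd
    rcases (Nat.Prime.dvd_mul hq).1 hd with hd | hd
    · obtain ⟨z, hz, e⟩ := h.el q hq hd
      exact ⟨_, (h.sgl 1 hz).1, by rw [(h.sgl 1 hz).2, e]⟩
    · obtain rfl := (Nat.prime_dvd_prime_iff_eq hq hp.out).1 hd
      refine ⟨_, (h.cm (Multiplicative.ofAdd 1) (inl (Multiplicative.ofAdd 1))).1, ?_⟩
      rw [(h.cm _ _).2]
      exact orderOf_eq_prime (β_pow _ _) (β_ne a1 (inv_ne_one.2 a1))

end step

theorem exists_CT (n : ℕ) : ∀ (G : Type u) [Group G] [Finite G], Group.IsSolvable G → Nat.card G = n →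
    ∃ (H L : Type u) (_ : Group H) (_ : Group L) (_ : Finite H) (Θ : H →* L) (lam : H → ℂ),
      CT G H L Θ lam := by
  induction n using Nat.strong_induction_on with
  | _ n ih =>
  intro G _ _ hs hn
  rcases subsingleton_or_nontrivial G with h | h
  · have h1 : Nat.card G = 1 := Nat.card_unique
    exact ⟨G, G, inferInstance, inferInstance, inferInstance, MonoidHom.id G, fun _ => 1,
      Function.surjective_id, ⟨MonoidHom.id G, Function.injective_id⟩, rfl, by simp, by simp,
      fun x hx => absurd (Subsingleton.elim _ _) hx, fun q _ h => h, by simp,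
      fun q hq hd => absurd (h1 ▸ hd) hq.not_dvd_one⟩
  · obtain ⟨M, hM, hle⟩ := (eq_top_or_exists_le_coatom (commutator G)).resolve_left
      (Group.IsSolvable.commutator_lt_top_of_nontrivial G).ne
    have : M.Normal := Subgroup.Normal.of_commutator_le G hle
    have hq : IsSimpleGroup (G ⧸ M) := by
      have : Nontrivial (G ⧸ M) := QuotientGroup.nontrivial_iff.2 hM.1
      refine ⟨fun N _ => ?_⟩
      have h1 : M ≤ N.comap (QuotientGroup.mk' M) := fun x hx => by
        rw [Subgroup.mem_comap, QuotientGroup.mk'_apply, (QuotientGroup.eq_one_iff x).2 hx]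
        exact N.one_mem
      rw [← Subgroup.map_comap_eq_self_of_surjective (QuotientGroup.mk'_surjective M) N]
      rcases hM.le_iff.1 h1 with e | e <;> rw [e]
      · exact Or.inr (Subgroup.map_top_of_surjective _ (QuotientGroup.mk'_surjective M))
      · exact Or.inl (QuotientGroup.map_mk'_self M)
    have hc : IsMulCommutative (G ⧸ M) := Subgroup.Normal.quotient_commutative_iff_commutator_le.2 hle
    have hp : Fact (Nat.card (G ⧸ M)).Prime := ⟨@IsSimpleGroup.prime_card _ { (inferInstance : Group (G ⧸ M)) with mul_comm := mul_comm' } hq⟩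
    let e : G ⧸ M ≃* A (Nat.card (G ⧸ M)) := mulEquivOfPrimeCardEq rfl (by simp)
    let π := e.toMonoidHom.comp (QuotientGroup.mk' M)
    have hπ : Function.Surjective π := e.surjective.comp (QuotientGroup.mk'_surjective M)
    have hlt : Nat.card π.ker < n := by
      rw [← hn, ← Subgroup.card_mul_index π.ker, Subgroup.index_ker, MonoidHom.range_eq_top.2 hπ]
      refine lt_mul_of_one_lt_right Nat.card_pos ?_
      simpa using hp.out.one_lt
    obtain ⟨K, L, _, _, _, Θ, lam, h⟩ := ih _ hlt π.ker inferInstance rfl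
    exact ⟨_, _, inferInstance, inferInstance, inferInstance, _, _, h.step π hπ⟩

/-- making the character faithful -/
theorem CT.faith {G H L : Type u} [Group G] [Group H] [Finite H] [Group L] {Θ : H →* L} {lam : H → ℂ}
    (h : CT G H L Θ lam) : ∃ (H' : Type u) (_ : Group H') (_ : Finite H') (Θ' : H' →* L) (lam' : H' → ℂ),
      CT G H' L Θ' lam' ∧ ∀ z, Θ' z = 1 → lam' z = 1 → z = 1 := by
  let N : Subgroup H :=
    { carrier := {z | Θ z = 1 ∧ lam z = 1}
      one_mem' := ⟨map_one _, h.one⟩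
      mul_mem' := fun ha hb => ⟨by rw [map_mul, ha.1, hb.1, one_mul], by
        rw [h.mul _ _ ha.1 hb.1, ha.2, hb.2, one_mul]⟩
      inv_mem' := fun {a} ha => ⟨by rw [map_inv, ha.1, inv_one], by
        have := h.mul a a⁻¹ ha.1 (by rw [map_inv, ha.1, inv_one])
        rwa [mul_inv_cancel, h.one, ha.2, one_mul, eq_comm] at this⟩ }
  have hN : N.Normal := ⟨fun z hz x => ⟨by simp [hz.1], by rw [h.cj _ _ hz.1, hz.2]⟩⟩
  have key : ∀ z : H, Θ z = 1 → lam (z : H ⧸ N).out = lam z := fun z hz => by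
    obtain ⟨n, hn⟩ := QuotientGroup.mk_out_eq_mul N z
    rw [hn, h.mul _ _ hz n.2.1, n.2.2, mul_one]
  let Θ₁ : H ⧸ N →* L := QuotientGroup.lift N Θ fun x hx => hx.1
  have hΘ : ∀ x : H, Θ₁ x = Θ x := fun _ => rfl
  refine ⟨H ⧸ N, inferInstance, inferInstance, Θ₁, fun x => lam x.out, ⟨fun l => ?_, h.emb, ?_, ?_,
    ?_, ?_, fun q hq hd => h.pr q hq (hd.trans (Subgroup.card_quotient_dvd_card N)), ?_,
    fun q hq hd => ?_⟩, ?_⟩
  · obtain ⟨x, rfl⟩ := h.surj l
    exact ⟨x, rfl⟩
  · exact (key 1 (map_one _)).trans h.one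
  · intro a b
    induction a using QuotientGroup.induction_on with | H a =>
    induction b using QuotientGroup.induction_on with | H b =>
    intro ha hb
    rw [← QuotientGroup.mk_mul, key _ ha, key _ hb, key _ (by rw [map_mul, ← hΘ, ha, ← hΘ, hb, one_mul]),
      h.mul _ _ ha hb]
  · intro a b
    induction a using QuotientGroup.induction_on with | H a =>
    induction b using QuotientGroup.induction_on with | H b =>
    intro ha
    rw [hΘ] at ha
    rw [← QuotientGroup.mk_inv, ← QuotientGroup.mk_mul, ← QuotientGroup.mk_mul, key _ ha,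
      key _ (by simp [ha]), h.cj _ _ ha]
  · intro a
    induction a using QuotientGroup.induction_on with | H a =>
    intro ha
    obtain ⟨x, h1, h2⟩ := h.fr a ha
    exact ⟨x, h1, by rwa [← key _ h1] at h2⟩
  · intro a
    induction a using QuotientGroup.induction_on with | H a =>
    intro e ha he
    rw [key _ ha, h.ex a e ha he]
  · obtain ⟨z, hz, e⟩ := h.el q hq hd
    exact ⟨z, hz, by rw [key _ hz, e]⟩
  · intro a
    induction a using QuotientGroup.induction_on with | H a =>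
    intro h1 h2
    exact (QuotientGroup.eq_one_iff a).2 ⟨h1, (key _ h1).symm.trans h2⟩

open Cfsg Cfsg.Agent.Char Cfsg.Agent.CharDeep Subgroup in
theorem gagola {G : Type u} [Group G] [Finite G] (hs : Group.IsSolvable G) :
    ∃ (H : Type u) (_ : Group H) (_ : Finite H) (χ : IrrCharacter H),
      (∀ h : H, χ.1 h = χ.1 1 → h = 1) ∧ (charDegree χ.1) ^ 2 = (center H).index ∧
      (∃ f : G →* H ⧸ center H, Function.Injective f) ∧ (∀ p : ℕ, p.Prime →
        ((p ∣ Nat.card H ↔ p ∣ Nat.card G) ∧ (p ∣ Nat.card (center H) ↔ p ∣ Nat.card G))) ∧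
      Squarefree (Nat.card (center H)) := by
  obtain ⟨H₀, L, _, _, _, Θ₀, lam₀, h₀⟩ := exists_CT _ G hs rfl
  obtain ⟨H, _, _, Θ, lam, h, hf⟩ := h₀.faith
  have := Fintype.ofFinite H
  have hZ : center H = Θ.ker := by
    ext z
    rw [MonoidHom.mem_ker, mem_center_iff]
    refine ⟨fun hz => by_contra fun h1 => ?_, fun hz x => ?_⟩
    · obtain ⟨x, -, h2⟩ := h.fr z h1
      rw [hz x] at h2
      simp [h.one] at h2
    · have hi : Θ z⁻¹ = 1 := by rw [map_inv, hz, inv_one]
      have := hf (x * z * x⁻¹ * z⁻¹) (by simp [hz]) (by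
        rw [h.mul _ _ (by simp [hz]) hi, h.cj _ _ hz, ← h.mul _ _ hz hi, mul_inv_cancel, h.one])
      rwa [mul_inv_eq_one, mul_inv_eq_iff_eq_mul] at this
  have hk : ∀ z : center H, Θ z = 1 := fun z => MonoidHom.mem_ker.1 (hZ.le z.2)
  let l₀ : center H →* ℂ := ⟨⟨fun z => lam z, h.one⟩, fun a b => h.mul _ _ (hk a) (hk b)⟩
  have hl : Function.Injective l₀ := (injective_iff_map_eq_one l₀).2 fun z hz =>
    Subtype.ext (hf _ (hk z) hz)
  obtain ⟨χ, hχ, h1⟩ := exists_irr_over (center H) (isIrrCharacter_hom l₀.toHomUnits)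
  obtain ⟨l₁, h2⟩ := hχ.exists_hom_of_le_center (center H) le_rfl
  have h3 : ∀ z : center H, (l₁ z : ℂ) = lam z := by
    have e : (fun z : center H => χ z) = χ 1 • fun z => (l₁ z : ℂ) := by
      ext z
      rw [Pi.smul_apply, smul_eq_mul, mul_comm, ← h2, mul_one]
    rw [e, classInner_smul_left] at h1
    exact congrFun ((isIrrCharacter_hom l₁).eq_of_classInner_ne_zero
      (isIrrCharacter_hom l₀.toHomUnits) (right_ne_zero_of_mul h1))
  have hv : ∀ x, x ∉ center H → χ x = 0 := fun x hx => by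
    obtain ⟨y, hy1, hy2⟩ := h.fr x (by rwa [hZ] at hx)
    have := h2 ⟨_, hZ.ge hy1⟩ x
    rw [h3, inv_mul_cancel_right, hχ.isClassFunction] at this
    exact (mul_left_eq_self₀.1 this.symm).resolve_left hy2
  have hp : ∀ p : ℕ, p.Prime → p ∣ Nat.card G → p ∣ Nat.card (center H) := fun p hp hd => by
    obtain ⟨z, hz, e⟩ := h.el p hp hd
    rw [← e]
    exact (orderOf_injective l₀ hl ⟨z, hZ.ge hz⟩) ▸ orderOf_dvd_natCard _
  refine ⟨H, inferInstance, inferInstance, ⟨χ, hχ⟩, fun x hx => ?_, ?_, ?_, fun p hq =>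
    ⟨⟨h.pr p hq, fun hd => (hp p hq hd).trans (card_subgroup_dvd_card _)⟩,
      ⟨fun hd => h.pr p hq (hd.trans (card_subgroup_dvd_card _)), hp p hq⟩⟩, ?_⟩
  · by_cases hc : x ∈ center H
    · have := h2 ⟨x, hc⟩ 1
      rw [h3, mul_one, show χ x = χ 1 from hx] at this
      exact hf x (hk ⟨x, hc⟩) ((mul_left_eq_self₀.1 this.symm).resolve_right hχ.apply_one_ne_zero)
    · exact absurd (hx.symm.trans (hv x hc)) hχ.apply_one_ne_zero
  · have e := card_mul_classInner χ χ
    rw [hχ.classInner_self, mul_one, ← Fintype.sum_subtype_add_sum_subtype (· ∈ center H),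
      Finset.sum_eq_zero (s := Finset.univ (α := {x // x ∉ center H})) fun x _ => by
        rw [hv _ x.2, zero_mul], add_zero, Finset.sum_congr rfl (g := fun _ => χ 1 * χ 1) fun z _ => by
        have e1 := h2 z 1
        have e2 := h2 z⁻¹ 1
        rw [mul_one] at e1 e2
        rw [← hχ.apply_inv, e1, ← coe_inv, e2, mul_mul_mul_comm, ← Units.val_mul, ← map_mul,
          mul_inv_cancel, map_one, Units.val_one, one_mul], Finset.sum_const, Finset.card_univ,
      ← Nat.card_eq_fintype_card, ← (center H).card_mul_index, hχ.apply_one_eq_charDegree,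
      nsmul_eq_mul, Nat.cast_mul] at e
    have := mul_left_cancel₀ natCard_cast_ne_zero e
    rw [sq]
    exact_mod_cast this.symm
  · obtain ⟨ι, hι⟩ := h.emb
    let e : H ⧸ center H ≃* L := (QuotientGroup.quotientMulEquivOfEq hZ).trans
      (QuotientGroup.quotientKerEquivOfSurjective Θ h.surj)
    exact ⟨e.symm.toMonoidHom.comp ι, e.symm.injective.comp hι⟩
  · have := isCyclic_of_injective_ringHom l₀ hl
    refine Squarefree.squarefree_of_dvd (y := UniqueFactorizationMonoid.radical (Nat.card G)) ?_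
      UniqueFactorizationMonoid.squarefree_radical
    rw [← IsCyclic.exponent_eq_card]
    refine Monoid.exponent_dvd_of_forall_pow_eq_one fun z => hl ?_
    rw [map_pow, map_one]
    exact h.ex _ _ (hk z) fun q hq hd => (UniqueFactorizationMonoid.dvd_radical_iff_of_irreducible
      hq.prime.irreducible Nat.card_pos.ne').2 hd

end Cfsg.Agent.Isa.Ga
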