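import Cfsg.Agent.PLocal.Stable
import Cfsg.Agent.Solv.Separable
import Cfsg.Agent.BG.Base4
import Cfsg.Agent.BMod.Defect
import Cfsg.Agent.Transfer.Abelian

/-! Fixed spaces of elements of prime order `p > 3` in solvable linear groups (Flavell). (helper12) -/

set_option autoImplicit false
set_option linter.unusedVariables false
set_option linter.unusedSectionVars false

namespace Cfsg.Agent.Isa.Fl

open Cfsg Module Subgroup MulAction
open scoped _root_.Classical commutatorElement

universe u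

variable {p : ℕ} [hp : Fact p.Prime]

section grp
variable {G : Type*} [Group G] [Finite G]

theorem idx0 {A : Subgroup G} [A.Normal] {q : ℕ} (hq : q.Prime) (hA : ∀ a ∈ A, a ^ q = 1) {x : G}
    (hx : x ^ p = 1) : ∃ s, Nat.card A = s * Nat.card (A ⊓ centralizer {x} : Subgroup G) ∧
      (∀ r, r.Prime → r ∣ s → r = q) ∧ (p ∣ s ∨ p ∣ s - 1) := by
  have : Fact q.Prime := ⟨hq⟩
  obtain ⟨s, hs⟩ := card_dvd_of_le (inf_le_left : A ⊓ centralizer {x} ≤ A)
  have hr : ∀ r, r.Prime → r ∣ Nat.card A → r = q := fun r hr hd => by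
    obtain ⟨k, hk⟩ := IsPGroup.iff_card.1 (show IsPGroup q A from fun a => ⟨1, Subtype.ext (by
      simpa using hA a a.2)⟩)
    exact (Nat.prime_dvd_prime_iff_eq hr hq).1 (hr.dvd_of_dvd_pow (hk ▸ hd))
  have hr' : ∀ r, r.Prime → r ∣ s → r = q := fun r h hd => hr r h (hs ▸ hd.mul_left _)
  refine ⟨s, by rw [hs, mul_comm], hr', ?_⟩
  have h := Transfer.card_modEq_card_inf_centralizer (p := p) (A := zpowers x) (Q := A)
    (IsPGroup.of_card_dvd_pow (n := 1) (by
      rw [Nat.card_zpowers, pow_one]; exact orderOf_dvd_of_pow_eq_one hx)) le_normalizer_of_normal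
  rw [zpowers_eq_closure, centralizer_closure] at h
  have h0 : 0 < s := Nat.pos_of_mul_pos_left (hs ▸ Nat.card_pos)
  have h2 := (Nat.modEq_iff_dvd' (card_le_of_le inf_le_left)).1 h.symm
  rw [hs, ← Nat.mul_sub_one] at h2
  rcases (Nat.Prime.dvd_mul hp.out).1 h2 with h2 | h2
  · rcases Nat.eq_or_lt_of_le h0 with h1 | h1
    · exact Or.inr (by simp [← h1])
    · have := hr' _ (Nat.minFac_prime h1.ne') (Nat.minFac_dvd s)
      rw [hr p hp.out (hs ▸ h2.mul_right _), ← this]
      exact Or.inl (Nat.minFac_dvd s)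
  · exact Or.inr h2

theorem le_cent {A : Subgroup G} [A.Normal] {x : G} (hgen : normalClosure {x} = ⊤)
    (h : A ≤ centralizer {x}) : A ≤ center G := fun a ha => by
  have : normalClosure {x} ≤ centralizer (A : Set G) := normalClosure_le_normal (by
    rintro _ rfl b hb
    exact mem_centralizer_singleton_iff.1 (h hb))
  exact mem_center_iff.2 fun g => (this (hgen ▸ mem_top g) a ha).symm

theorem le_of_card {A : Subgroup G} {x : G}
    (h : Nat.card A = 1 * Nat.card (A ⊓ centralizer {x} : Subgroup G)) : A ≤ centralizer {x} :=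
  inf_eq_left.1 (eq_of_le_of_card_ge inf_le_left (by omega))

end grp

theorem fpr (n : ℕ) : ∀ (G : Type u) [Group G] [Finite G] [Group.IsSolvable G], Nat.card G = n →
    ∀ x : G, x ^ p = 1 → normalClosure {x} = ⊤ → ∀ H : Subgroup G, H ≠ ⊤ →
      p * Nat.card {g | g⁻¹ * x * g ∈ H} ≤ Nat.card G := by
  induction n using Nat.strong_induction_on with
  | _ n ih =>
  intro G _ _ _ hn x hx hgen H hH
  obtain ⟨N, hN, -⟩ := BG.minnormal_exists (H := (⊤ : Subgroup G)) (M := ⊤)
    (fun e => hH (top_le_iff.1 (e ▸ bot_le))) le_normalizer_of_normal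
  have : N.Normal := normalizer_eq_top_iff.1 (top_le_iff.1 hN.norm)
  obtain ⟨q, hq, hc, hNq⟩ := BG.minnormal_solvable hN le_top (BG.solvable_of _)
  by_cases h : H ⊔ N = ⊤
  · rcases Set.eq_empty_or_nonempty {g | g⁻¹ * x * g ∈ H} with e | ⟨g₀, hg₀⟩
    · simp [e]
    have hdec : ∀ g : G, ∃ a ∈ N, ∃ b ∈ H, g = a * b := fun g => by
      have : g ∈ ((N ⊔ H : Subgroup G) : Set G) := by rw [sup_comm, h]; trivial
      rw [normal_mul] at this
      obtain ⟨a, ha, b, hb, e⟩ := this
      exact ⟨a, ha, b, hb, e.symm⟩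
    have hi : H ⊓ N = ⊥ := by
      refine (hN.min (H ⊓ N) inf_le_right fun g _ => ?_).resolve_right fun e => hH ?_
      · obtain ⟨a, ha, b, hb, rfl⟩ := hdec g
        refine mul_mem ?_ ?_ <;> refine Transfer.mem_normalizer_of_conj_smul_le
          (Transfer.conj_smul_le_iff.2 fun y hy => ?_)
        · rw [show a * y = y * a from congrArg Subtype.val (mul_comm' (⟨a, ha⟩ : N) ⟨y, hy.2⟩),
            mul_inv_cancel_right]
          exact hy
        · exact ⟨H.mul_mem (H.mul_mem hb hy.1) (H.inv_mem hb), this.conj_mem _ hy.2 _⟩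
      · rw [← h, sup_eq_left.2 (inf_eq_right.1 e)]
    set y := g₀⁻¹ * x * g₀ with hy
    have hyp : y ^ p = 1 := by
      have := conj_pow (a := g₀⁻¹) (b := x) (i := p)
      rw [inv_inv] at this
      rw [hy, this, hx]
      group
    obtain ⟨s, hs, -, hs2⟩ := idx0 (p := p) hq hNq hyp
    have h1 : Nat.card {g | g⁻¹ * x * g ∈ H} ≤
        Nat.card (N ⊓ centralizer {y} : Subgroup G) * Nat.card H := by
      rw [← Nat.card_prod]
      refine (Nat.card_mono (Set.toFinite _) fun g hg => ?_).trans (Finite.card_range_le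
        fun z : (N ⊓ centralizer {y} : Subgroup G) × H => g₀ * z.1 * z.2)
      obtain ⟨a, ha, b, hb, e⟩ := hdec (g₀⁻¹ * g)
      refine ⟨(⟨a, ha, mem_centralizer_singleton_iff.2 ?_⟩, ⟨b, hb⟩), by
        simp only [mul_assoc, ← e, mul_inv_cancel_left]⟩
      have h2 : a⁻¹ * y * a * y⁻¹ ∈ H ⊓ N := by
        refine mem_inf.2 ⟨H.mul_mem ?_ (H.inv_mem hg₀), ?_⟩
        · have := mul_mem (mul_mem hb hg) (inv_mem hb)
          rw [show g = g₀ * a * b by rw [mul_assoc, ← e]; group] at this
          convert this using 1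
          rw [hy]
          group
        · rw [mul_assoc, mul_assoc, ← mul_assoc y]
          exact mul_mem (inv_mem ha) (this.conj_mem _ ha _)
      rw [hi, mem_bot, mul_inv_eq_one, mul_assoc, inv_mul_eq_iff_eq_mul] at h2
      exact h2.symm
    have h3 : s ≠ 1 := by
      rintro rfl
      have hgen' : normalClosure {y} = ⊤ := top_le_iff.1 (hgen ▸ normalClosure_le_normal (by
        rintro _ rfl
        have := (normalClosure_normal (s := {y})).conj_mem _ (subset_normalClosure rfl) g₀
        rwa [hy, show ∀ z : G, g₀ * (g₀⁻¹ * z * g₀) * g₀⁻¹ = z from fun z => by group] at this))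
      have hz := le_cent hgen' (le_of_card hs)
      have hHn : H.Normal := ⟨fun z hz' g => by
        obtain ⟨a, ha, b, hb, rfl⟩ := hdec g
        have := mem_center_iff.1 (hz ha) (b * z * b⁻¹)
        rw [show a * b * z * (a * b)⁻¹ = a * (b * z * b⁻¹) * a⁻¹ by group, ← this,
          mul_inv_cancel_right]
        exact mul_mem (mul_mem hb hz') (inv_mem hb)⟩
      exact hH (top_le_iff.1 (hgen' ▸ normalClosure_le_normal (by rintro _ rfl; exact hg₀)))
    have h0 : 0 < s := Nat.pos_of_mul_pos_right (hs ▸ Nat.card_pos)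
    have h4 : p ≤ s := hs2.elim (Nat.le_of_dvd h0) fun h => (Nat.le_of_dvd (by omega) h).trans (by omega)
    have h5 : Nat.card N * Nat.card H ≤ Nat.card G := by
      rw [← Nat.card_prod]
      refine Nat.card_le_card_of_injective (fun z => (z.1 : G) * z.2) fun z w e => ?_
      replace e : (z.1 : G) * z.2 = w.1 * w.2 := e
      have : (w.1 : G)⁻¹ * z.1 ∈ H ⊓ N := mem_inf.2 ⟨by
        rw [show (w.1 : G)⁻¹ * z.1 = w.2 * (z.2 : G)⁻¹ by
          rw [inv_mul_eq_iff_eq_mul, ← mul_assoc, eq_mul_inv_iff_mul_eq]; exact e]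
        exact mul_mem w.2.2 (inv_mem z.2.2), mul_mem (inv_mem w.1.2) z.1.2⟩
      rw [hi, mem_bot, inv_mul_eq_one] at this
      exact Prod.ext (Subtype.ext this.symm) (Subtype.ext (mul_left_cancel (this ▸ e)))
    rw [hs] at h5
    nlinarith [Nat.mul_le_mul h4 h1]
  · have h1 := ih _ (by
      rw [← hn, card_eq_card_quotient_mul_card_subgroup N]
      exact lt_mul_of_one_lt_right Nat.card_pos (one_lt_card_iff_ne_bot N |>.2 hN.ne))
      (G ⧸ N) rfl x (by rw [← QuotientGroup.mk_pow, hx, QuotientGroup.mk_one]) (by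
        rw [show ({(x : G ⧸ N)} : Set (G ⧸ N)) = QuotientGroup.mk' N '' {x} by simp,
          ← map_normalClosure _ _ (QuotientGroup.mk'_surjective N), hgen,
          map_top_of_surjective _ (QuotientGroup.mk'_surjective N)]) (H.map (QuotientGroup.mk' N))
      fun e => h (by rw [← QuotientGroup.ker_mk' N, ← comap_map_eq, e, comap_top])
    have h2 := QuotientGroup.card_preimage_mk N {g : G ⧸ N | g⁻¹ * x * g ∈ H.map (QuotientGroup.mk' N)}
    have h3 : Nat.card {g | g⁻¹ * x * g ∈ H} ≤ _ := le_of_le_of_eq (Nat.card_mono (Set.toFinite _)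
      fun g hg => by simpa using mem_map_of_mem (QuotientGroup.mk' N) hg) h2
    rw [card_eq_card_quotient_mul_card_subgroup N]
    nlinarith [Nat.mul_le_mul_left (Nat.card N) h1]

theorem idx {H R : Type*} [Group H] [Finite H] [Group.IsSolvable H] [CommGroup R] {A : Subgroup H}
    [hA : A.Normal] (hm : BG.MinNormal A ⊤) {x : H} (hx : x ^ p = 1) (hgen : normalClosure {x} = ⊤)
    (h3 : 3 < p) (b : A →* A →* R) (alt : ∀ a, b a a = 1) (nd : ∀ a, (∀ c, b a c = 1) → a = 1)
    (inv : ∀ a c, b (MulAut.conjNormal x a) (MulAut.conjNormal x c) = b a c) :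
    4 * ((p - 1) * Nat.card (A ⊓ centralizer {x} : Subgroup H)) ≤ (p - 4) * Nat.card A := by
  obtain ⟨q, hq, hc, hAq⟩ := BG.minnormal_solvable hm le_top (BG.solvable_of _)
  obtain ⟨s, hs, hs1, hs2⟩ := idx0 (p := p) hq hAq hx
  have cyc : ∀ a c : A, c ∈ zpowers a → b a c = 1 := by
    rintro a _ ⟨n, rfl⟩
    simp [alt]
  have nc : ∀ a : A, (a : H) ∈ center H → a = 1 := fun a ha => nd a fun c => by
    rcases hm.min (zpowers (a : H)) (zpowers_le.2 a.2) (fun g _ => Transfer.mem_normalizer_of_conj_smul_le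
      (Transfer.conj_smul_le_iff.2 fun y hy => by
        rwa [mem_center_iff.1 (zpowers_le.2 ha hy), mul_inv_cancel_right]))
      with e | e
    · rw [show a = 1 from Subtype.ext (zpowers_eq_bot.1 e), map_one, MonoidHom.one_apply]
    · obtain ⟨n, hn⟩ : (c : H) ∈ zpowers (a : H) := e.ge c.2
      exact cyc a c ⟨n, Subtype.ext hn⟩
  have h1 : s ≠ 1 := by
    rintro rfl
    exact hm.ne (eq_bot_iff.2 fun a ha => congrArg Subtype.val
      (nc ⟨a, ha⟩ (le_cent hgen (le_of_card hs) ha)))
  have h2 : ¬ s.Prime := fun hsp => by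
    let δ : A →* A := MonoidHom.mk' (fun a => MulAut.conjNormal x a * a⁻¹) fun a c => by
      rw [map_mul, mul_inv_rev, mul_comm' c⁻¹, mul_assoc, mul_assoc, ← mul_assoc _ a⁻¹,
        mul_comm' _ a⁻¹, mul_assoc]
    have hδ : ∀ a, δ a = MulAut.conjNormal x a * a⁻¹ := fun _ => rfl
    have hk : ∀ a : A, a ∈ δ.ker ↔ (a : H) ∈ centralizer {x} := fun a => by
      rw [MonoidHom.mem_ker, hδ, mul_inv_eq_one, Subtype.ext_iff, MulAut.conjNormal_apply,
        mul_inv_eq_iff_eq_mul, mem_centralizer_singleton_iff, eq_comm]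
    have hB : Nat.card δ.range = s := by
      have e : Nat.card δ.ker = Nat.card (A ⊓ centralizer {x} : Subgroup H) := by
        rw [← Nat.card_congr (subgroupOfEquivOfLe (inf_le_left : A ⊓ centralizer {x} ≤ A)).toEquiv]
        congr 2
        ext a
        simp [hk, mem_subgroupOf]
      have := δ.ker.index_mul_card
      rw [index_ker, e, hs] at this
      exact Nat.eq_of_mul_eq_mul_right Nat.card_pos this
    have : Fact (Nat.card δ.range).Prime := ⟨hB ▸ hsp⟩
    obtain ⟨a, ha⟩ : ∃ a, δ a ≠ 1 := by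
      by_contra hc
      push Not at hc
      have : δ.range = ⊥ := eq_bot_iff.2 (by rintro _ ⟨a, rfl⟩; exact hc a)
      rw [this, card_bot] at hB
      exact h1 hB.symm
    have hz : zpowers (δ a) = δ.range := by
      refine eq_of_le_of_card_ge (zpowers_le.2 ⟨a, rfl⟩) (Nat.le_of_dvd Nat.card_pos ?_)
      rw [(Nat.dvd_prime this.out).1 (card_dvd_of_le (zpowers_le.2 (⟨a, rfl⟩ : δ a ∈ δ.range)))
        |>.resolve_left fun e => ha (zpowers_eq_bot.1 (card_eq_one.1 e))]
    by_cases h4 : δ a ∈ δ.ker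
    · have h5 : ∀ (n : ℕ) (c : H), c ∈ A → x ^ n * c * (x ^ n)⁻¹ * c⁻¹ ∈ centralizer {x} := by
        intro n c hc
        induction n with
        | zero => simp
        | succ n ih =>
          have e := (hk _).1 ((zpowers_le.2 h4) (hz.ge ⟨⟨c, hc⟩, rfl⟩))
          have e2 : x ∈ centralizer {x} := mem_centralizer_singleton_iff.2 rfl
          convert mul_mem (mul_mem (mul_mem e2 ih) (inv_mem e2)) e using 1
          simp only [hδ, coe_mul, MulAut.conjNormal_apply, coe_inv]
          group
      have h6 : ∀ n : ℕ, x ^ n * a * (x ^ n)⁻¹ = δ a ^ n * a := fun n => by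
        induction n with
        | zero => simp
        | succ n ih =>
          have e : Commute (δ a : H) x := mem_centralizer_singleton_iff.1 ((hk _).1 h4)
          calc _ = x * (x ^ n * a * (x ^ n)⁻¹) * x⁻¹ := by group
            _ = δ a ^ n * (x * a * x⁻¹ * (a : H)⁻¹) * a := by
              rw [ih, ← mul_assoc x, ← (e.pow_left n).eq]
              group
            _ = _ := by rw [pow_succ]; rfl
      have h7 : p = q := by
        have := h6 p
        rw [hx, one_mul, inv_one, mul_one, eq_comm, mul_eq_right] at this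
        have h1' : (δ a : H) ≠ 1 := fun e => ha (Subtype.ext e)
        have := orderOf_eq_prime this h1'
        exact (Nat.prime_dvd_prime_iff_eq hp.out hq).1
          (this ▸ orderOf_dvd_of_pow_eq_one (hAq _ (δ a).2))
      subst h7
      have hAp : IsPGroup p A := fun a => ⟨1, Subtype.ext (by simpa using hAq a a.2)⟩
      have h8 := PLocal.stableOn_of_pSolv (p := p) (by omega) (H := ⊤) (P := A)
        (Solv.isPSolvable_of_isSolvable p _) (by omega) hAp hm.norm x trivial (by
          rw [commutator_eq_bot_iff_le_centralizer, zpowers_eq_closure, centralizer_closure,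
            ← zpowers_eq_closure, commutator_comm, commutator_le]
          intro y hy c hc
          obtain ⟨n, rfl⟩ := (mem_powers_iff_mem_zpowers.2 hy)
          exact h5 n c hc)
      have h9 : IsPGroup p (MulAut.conjNormal (H := A)).range := by
        rintro ⟨_, g, rfl⟩
        obtain ⟨k, hk⟩ := PLocal.exists_pow_mem_of_mem_opMod le_normalizer_of_normal
          (normalClosure_le_normal (Set.singleton_subset_iff.2 h8) (hgen ▸ mem_top g))
        refine ⟨k, Subtype.ext ?_⟩
        rw [coe_pow, ← map_pow]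
        ext c
        rw [MulAut.conjNormal_apply, ← hk c c.2, mul_inv_cancel_right]
        rfl
      obtain ⟨c, hc, hc1⟩ := h9.exists_fixed_point_of_prime_dvd_card_of_fixed_point A
        (hs ▸ Dvd.dvd.mul_right (hs1 s hsp dvd_rfl ▸ dvd_rfl) _) (a := 1) fun g => smul_one g
      refine hc1 (nc c (mem_center_iff.2 fun g => ?_)).symm
      exact mul_inv_eq_iff_eq_mul.1 (congrArg Subtype.val (hc ⟨_, g, rfl⟩))
    · refine ha (nd _ fun c => ?_)
      have h5 : δ (δ a) ∈ δ.range := ⟨_, rfl⟩
      obtain ⟨n, hn⟩ : δ c ∈ zpowers (δ (δ a)) := by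
        have : zpowers (δ (δ a)) = δ.range := by
          refine eq_of_le_of_card_ge (zpowers_le.2 h5) (Nat.le_of_dvd Nat.card_pos ?_)
          rw [(Nat.dvd_prime this.out).1 (card_dvd_of_le (zpowers_le.2 h5))
            |>.resolve_left fun e => h4 (zpowers_eq_bot.1 (card_eq_one.1 e))]
        exact this.ge ⟨c, rfl⟩
      have h6 : MulAut.conjNormal x ((δ a ^ n)⁻¹ * c) = (δ a ^ n)⁻¹ * c := by
        rw [← mul_inv_eq_one, ← hδ, map_mul, map_inv, map_zpow, inv_mul_eq_one]
        exact hn
      have h7 : b (δ a) ((δ a ^ n)⁻¹ * c) = 1 := by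
        generalize (δ a ^ n)⁻¹ * c = c' at h6
        rw [hδ a, map_mul b, map_inv b, MonoidHom.mul_apply, MonoidHom.inv_apply,
          ← inv a, h6, mul_inv_cancel]
      rwa [map_mul, map_inv, cyc _ _ ⟨n, rfl⟩, inv_one, one_mul] at h7
  have h0 : 0 < s := Nat.pos_of_mul_pos_right (hs ▸ Nat.card_pos)
  have h4 : p ≤ s := hs2.elim (Nat.le_of_dvd h0) fun h => (Nat.le_of_dvd (by omega) h).trans (by omega)
  rw [hs, ← mul_assoc, ← mul_assoc]
  refine Nat.mul_le_mul_right _ (not_lt.1 fun h => ?_)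
  obtain ⟨r, rfl⟩ : ∃ r, p = r + 4 := ⟨p - 4, by omega⟩
  have hp' := hp.out
  rw [Nat.add_sub_cancel, show r + 4 - 1 = r + 3 from rfl] at h
  have hr : r ≤ 3 := by nlinarith
  have k2 := hs1 2 Nat.prime_two
  have k3 := hs1 3 Nat.prime_three
  have k5 := hs1 5 Nat.prime_five
  interval_cases r
  · norm_num at hp'
  · have : s < 16 := by omega
    interval_cases s <;> first | omega | norm_num at h2
  · norm_num at hp'
  · have : s = 7 := by omega
    subst this
    norm_num at h2

end Cfsg.Agent.Isa.Fl
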