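import Cfsg.Agent.Isa.K6

/-! Fixed spaces of elements of prime order `p > 3` in solvable linear groups, II. (helper12) -/

set_option autoImplicit false
set_option linter.unusedVariables false
set_option linter.unusedSectionVars false

namespace Cfsg.Agent.Isa.Fl

open Cfsg Module Subgroup MulAction LinearMap
open scoped _root_.Classical commutatorElement

universe u

variable {p : ℕ} [hp : Fact p.Prime] {k W : Type*} [Field k] [AddCommGroup W] [Module k W]
  [FiniteDimensional k W] {G : Type*} [Group G] [Finite G]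

theorem orb {Ω : Type*} [Fintype Ω] [MulAction G Ω] {x : G} (hx : orderOf x = p) (X : End k W)
    (π : Ω → End k W) (hs : ∑ i, π i = 1) (hX : ∀ i, X * π i = π (x • i) * X) {d : ℕ}
    (hd : ∀ i, finrank k (range (π i)) ≤ d) :
    p * finrank k (ker (X - 1)) ≤ (Nat.card Ω + (p - 1) * Nat.card (fixedBy Ω x)) * d := by
  have := Fintype.ofFinite (zpowers x)
  let Q := Quotient (orbitRel (zpowers x) Ω)
  let F : ker (X - 1) →ₗ[k] ∀ o : Q, range (π o.out) :=
    LinearMap.pi fun o => (π o.out).rangeRestrict ∘ₗ (ker (X - 1)).subtype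
  have hF : Function.Injective F := (injective_iff_map_eq_zero F).2 fun v hv => by
    have h1 : X v = v := sub_eq_zero.1 v.2
    have h2 : ∀ (n : ℕ) i, π i v = 0 → π (x ^ n • i) v = 0 := fun n i h => by
      induction n with
      | zero => simpa using h
      | succ n ih => rw [pow_succ', mul_smul, ← h1, ← Module.End.mul_apply, ← hX,
          Module.End.mul_apply, ih, map_zero]
    refine Subtype.ext ((LinearMap.congr_fun hs v.1).symm.trans ?_)
    rw [LinearMap.sum_apply]
    refine Finset.sum_eq_zero fun i _ => ?_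
    obtain ⟨⟨g, hg⟩, e⟩ := orbitRel_apply.1 (Quotient.exact (Quotient.out_eq (⟦i⟧ : Q)).symm)
    obtain ⟨n, rfl⟩ := mem_powers_iff_mem_zpowers.2 hg
    rw [← e]
    exact h2 n _ (congrArg Subtype.val (congrFun hv _))
  have h1 : finrank k (ker (X - 1)) ≤ Fintype.card Q * d := by
    refine (finrank_le_finrank_of_injective hF).trans ?_
    rw [finrank_pi_fintype]
    exact (Finset.sum_le_card_nsmul _ _ _ fun o _ => hd _).trans (by simp)
  have h2 := sum_card_fixedBy_eq_card_orbits_mul_card_group (zpowers x) Ω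
  have h3 : Fintype.card (zpowers x) = p := by rw [← Nat.card_eq_fintype_card, Nat.card_zpowers, hx]
  rw [h3, ← Finset.add_sum_erase _ _ (Finset.mem_univ 1)] at h2
  have h4 : ∑ g ∈ Finset.univ.erase (1 : zpowers x), Fintype.card (fixedBy Ω g) ≤
      (p - 1) * Nat.card (fixedBy Ω x) := by
    refine (Finset.sum_le_card_nsmul _ _ (Nat.card (fixedBy Ω x)) fun g hg => ?_).trans (by
      simp [h3])
    rw [← Nat.card_eq_fintype_card]
    refine Nat.card_mono (Set.toFinite _) fun i hi => ?_
    have : Fact (Nat.card (zpowers x)).Prime := ⟨by rw [Nat.card_zpowers, hx]; exact hp.out⟩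
    obtain ⟨n, hn⟩ := mem_zpowers_of_prime_card (G := zpowers x) rfl (Finset.ne_of_mem_erase hg)
      (g' := ⟨x, mem_zpowers x⟩)
    have := fixedBy_subset_fixedBy_zpow Ω g n hi
    rwa [show g ^ n = _ from hn] at this
  have h5 : Fintype.card (fixedBy Ω (1 : zpowers x)) ≤ Nat.card Ω := by
    rw [← Nat.card_eq_fintype_card]
    exact Finite.card_subtype_le _
  calc _ ≤ Fintype.card Q * p * d := by nlinarith [Nat.mul_le_mul_left p h1]
    _ ≤ _ := Nat.mul_le_mul_right _ (h2.ge.trans (Nat.add_le_add h5 h4))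

theorem indep {Ω : Type*} [Fintype Ω] (π : Ω → End k W) (h1 : ∀ i, π i * π i = π i)
    (h2 : ∀ i j, i ≠ j → π i * π j = 0) {d : ℕ} (hd : ∀ i, d ≤ finrank k (range (π i))) :
    Nat.card Ω * d ≤ finrank k W := by
  let F : (∀ i, range (π i)) →ₗ[k] W := ∑ i, (range (π i)).subtype ∘ₗ LinearMap.proj i
  have hF : Function.Injective F := (injective_iff_map_eq_zero F).2 fun v hv => funext fun i => by
    have := congrArg (π i) hv
    simp only [F, LinearMap.sum_apply, map_sum, map_zero] at this
    rw [Finset.sum_eq_single i (fun j _ hj => ?_) (by simp)] at this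
    · obtain ⟨w, hw⟩ := (v i).2
      refine Subtype.ext (hw.symm.trans ((LinearMap.congr_fun (h1 i) w).symm.trans ?_))
      rw [Module.End.mul_apply, hw]
      exact this
    · obtain ⟨w, hw⟩ := (v j).2
      show π i (v j) = 0
      rw [← hw, ← Module.End.mul_apply, h2 i j hj.symm, LinearMap.zero_apply]
  refine le_trans ?_ (finrank_le_finrank_of_injective hF)
  rw [finrank_pi_fintype, Nat.card_eq_fintype_card]
  exact Finset.card_nsmul_le_sum _ _ _ fun i _ => hd i

theorem rk_le {U U' π π' : End k W} (hU : U * U' = 1) (h : U * π = π' * U) :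
    finrank k (range π') ≤ finrank k (range π) := by
  refine le_trans (Submodule.finrank_mono ?_) (Submodule.finrank_map_le U (range π))
  rintro _ ⟨w, rfl⟩
  exact ⟨_, ⟨U' w, rfl⟩, by rw [← Module.End.mul_apply, h, Module.End.mul_apply,
    ← Module.End.mul_apply U, hU, Module.End.one_apply]⟩

theorem weight {L : Type*} [Group L] (σ : L →* End k W) {v : W} (hv : v ≠ 0)
    (h : ∀ y, ∃ c : k, σ y v = c • v) : ∃ μ : L →* kˣ, ∀ y, σ y v = (μ y : k) • v := by
  choose c hc using h
  refine ⟨MonoidHom.toHomUnits ⟨⟨c, smul_left_injective k hv ?_⟩, fun a b =>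
    smul_left_injective k hv ?_⟩, hc⟩
  · simp [← hc]
  · simp only [← hc, map_mul, Module.End.mul_apply, mul_smul]
    rw [hc b, map_smul, hc a, smul_comm]

theorem exists_weight [IsAlgClosed k] [Nontrivial W] {L : Type*} [Group L] (hL : ∀ a b : L, a * b = b * a)
    (σ : L →* End k W) : ∃ (μ : L →* kˣ) (v : W), v ≠ 0 ∧ ∀ y, σ y v = (μ y : k) • v := by
  obtain ⟨U, ⟨h0, hU⟩, hm⟩ := (wellFounded_lt (α := Submodule k W)).has_min
    {U | U ≠ ⊥ ∧ ∀ y, ∀ w ∈ U, σ y w ∈ U} ⟨⊤, top_ne_bot, fun _ _ _ => trivial⟩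
  obtain ⟨v, hv, hv0⟩ := U.exists_mem_ne_zero_of_ne_bot h0
  obtain ⟨μ, hμ⟩ := weight σ hv0 fun y => by
    have : Nontrivial U := Submodule.nontrivial_iff_ne_bot.2 h0
    obtain ⟨c, hc⟩ := Module.End.exists_eigenvalue ((σ y).restrict (hU y))
    obtain ⟨w, hw, hw0⟩ := hc.exists_hasEigenvector
    have : U ⊓ (σ y).eigenspace c = U := by
      refine (eq_or_lt_of_le inf_le_left).resolve_right (hm _ ⟨fun e => hw0 (Subtype.ext ?_),
        fun z u hu => ⟨hU z u hu.1, Module.End.mem_eigenspace_iff.2 ?_⟩⟩)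
      · exact e.le ⟨w.2, Module.End.mem_eigenspace_iff.2
          (congrArg Subtype.val (Module.End.mem_eigenspace_iff.1 hw))⟩
      · rw [← Module.End.mul_apply, ← map_mul, hL, map_mul, Module.End.mul_apply,
          Module.End.mem_eigenspace_iff.1 hu.2, map_smul]
    exact ⟨c, Module.End.mem_eigenspace_iff.1 (this.ge hv).2⟩
  exact ⟨μ, v, hv0, hμ⟩

section pr
variable (T : G →* End k W) (L : Subgroup G) [hL : L.Normal] [Fintype L]

/-- weight projection -/
noncomputable def pr (μ : L →* kˣ) : End k W := (Nat.card L : k)⁻¹ • ∑ y : L, ((μ y⁻¹ : kˣ) : k) • T y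

/-- conjugation action on weights -/
noncomputable abbrev wAct : MulAction G (L →* kˣ) where
  smul g μ := μ.comp (MulAut.conjNormal g⁻¹).toMonoidHom
  one_smul μ := by
    ext y
    show ((μ (MulAut.conjNormal 1⁻¹ y) : kˣ) : k) = _
    simp
  mul_smul a b μ := by
    ext y
    show ((μ (MulAut.conjNormal (a * b)⁻¹ y) : kˣ) : k) = μ (MulAut.conjNormal b⁻¹ (MulAut.conjNormal a⁻¹ y))
    rw [mul_inv_rev, map_mul, MulAut.mul_apply]

attribute [local instance] wAct

variable {L}

theorem wAct_apply (g : G) (μ : L →* kˣ) (y : L) : (g • μ) y = μ (MulAut.conjNormal g⁻¹ y) := rfl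

theorem mul_pr (μ : L →* kˣ) (y : L) : T y * pr T L μ = (μ y : k) • pr T L μ := by
  rw [pr, mul_smul_comm, smul_comm (μ y : k), Finset.mul_sum, Finset.smul_sum (r := (μ y : k))]
  congr 1
  refine Fintype.sum_equiv (Equiv.mulLeft y) _ _ fun z => ?_
  simp [smul_smul, ← mul_assoc, mul_comm (μ y : k)]

theorem pr_apply (h0 : (Nat.card L : k) ≠ 0) {μ : L →* kˣ} {v : W} (h : ∀ y : L, T y v = (μ y : k) • v) :
    pr T L μ v = v := by
  simp only [pr, LinearMap.smul_apply, LinearMap.sum_apply, h, smul_smul, ← Units.val_mul, ← map_mul,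
    inv_mul_cancel, map_one, Units.val_one, one_smul]
  rw [Finset.sum_const, Finset.card_univ, ← Nat.card_eq_fintype_card, ← Nat.cast_smul_eq_nsmul k,
    smul_smul, inv_mul_cancel₀ h0, one_smul]

theorem pr_sq (h0 : (Nat.card L : k) ≠ 0) (μ : L →* kˣ) : pr T L μ * pr T L μ = pr T L μ :=
  LinearMap.ext fun v => pr_apply T h0 fun y => by
    rw [← Module.End.mul_apply, mul_pr, LinearMap.smul_apply]

theorem pr_ne {μ ν : L →* kˣ} (h : μ ≠ ν) : pr T L μ * pr T L ν = 0 := by
  rw [pr, smul_mul_assoc, Finset.sum_mul]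
  simp only [smul_mul_assoc, mul_pr, smul_smul, ← Finset.sum_smul]
  have := sum_hom_units_eq_zero ((Units.coeHom k).comp (μ⁻¹ * ν)) fun e => h (MonoidHom.ext fun y =>
    inv_mul_eq_one.1 (Units.ext (DFunLike.congr_fun e y)))
  rw [show ∑ y : L, ((μ y⁻¹ : kˣ) : k) * ν y = 0 by simpa using this, mul_zero, zero_smul]

theorem conj_pr (g : G) (μ : L →* kˣ) : T g * pr T L μ = pr T L (g • μ) * T g := by
  rw [pr, pr, mul_smul_comm, smul_mul_assoc, Finset.mul_sum, Finset.sum_mul]
  congr 1
  refine Fintype.sum_equiv (MulAut.conjNormal g).toEquiv _ _ fun y => ?_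
  rw [mul_smul_comm, smul_mul_assoc, ← map_mul, ← map_mul, wAct_apply]
  simp

end pr

attribute [local instance] wAct

theorem sq_lt {X : End k W} {X' : End k W} (h1 : X * X' = 1) (hX : X ≠ 1) :
    finrank k (ker (X - 1)) * finrank k (ker (X - 1)) <
      finrank k (ker (mulLeft k X ∘ₗ mulRight k X' - 1)) := by
  let Ψ : ((W ⧸ range (X - 1)) →ₗ[k] ker (X - 1)) →ₗ[k] End k W :=
    (lcomp k W (range (X - 1)).mkQ) ∘ₗ (llcomp k _ _ W (ker (X - 1)).subtype)
  have hΨ : ∀ f w, Ψ f w = f ((range (X - 1)).mkQ w) := fun _ _ => rfl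
  have hi : Function.Injective Ψ := fun f g e => LinearMap.ext fun w => by
    obtain ⟨w, rfl⟩ := (range (X - 1)).mkQ_surjective w
    exact Subtype.ext (LinearMap.congr_fun e w)
  have hfx : ∀ w : ker (X - 1), X w = w := fun w => sub_eq_zero.1 w.2
  have hlt : range Ψ < ker (mulLeft k X ∘ₗ mulRight k X' - 1) := by
    refine lt_of_le_of_ne ?_ fun e => hX (LinearMap.ext fun w => ?_)
    · rintro _ ⟨f, rfl⟩
      refine sub_eq_zero.2 (LinearMap.ext fun w => ?_)
      show X (Ψ f (X' w)) = Ψ f w
      rw [hΨ, hfx, hΨ]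
      refine congrArg (fun u => (f u : W)) ((Submodule.Quotient.eq (range (X - 1))).2 ⟨X' w, ?_⟩).symm
      rw [LinearMap.sub_apply, ← Module.End.mul_apply, h1]
      rfl
    · obtain ⟨f, hf⟩ : (1 : End k W) ∈ range Ψ := e.ge (sub_eq_zero.2 (by simpa using h1))
      have := LinearMap.congr_fun hf w
      rw [hΨ, Module.End.one_apply] at this
      rw [Module.End.one_apply, ← this, hfx]
  have h2 := Submodule.finrank_lt_finrank_of_lt hlt
  rw [finrank_range_of_inj hi, Module.finrank_linearMap] at h2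
  have h3 := (range (X - 1)).finrank_quotient_add_finrank
  have h4 := (X - 1).finrank_range_add_finrank_ker
  rwa [show finrank k (W ⧸ range (X - 1)) = finrank k (ker (X - 1)) by omega] at h2

theorem exists_lift {L A R : Type*} [Group L] [Group A] [Group R] (φ : L →* A)
    (hφ : Function.Surjective φ) (g : L →* R) (h : ∀ l, φ l = 1 → g l = 1) :
    ∃ g' : A →* R, ∀ l, g' (φ l) = g l :=
  ⟨φ.liftOfSurjective hφ ⟨g, h⟩, φ.liftOfRightInverse_comp_apply _ _ _⟩

/-- every nontrivial normal subgroup contains a subgroup of invertible order without fixed points -/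
def Hy (ρ : G →* End k W) : Prop := ∀ N : Subgroup G, N.Normal → N ≠ ⊥ →
  ∃ N' ≤ N, (Nat.card N' : k) ≠ 0 ∧ ∑ᶠ y : N', ρ y = 0

theorem Hy.ex [Nontrivial W] {ρ : G →* End k W} (h : Hy ρ) (N : Subgroup G) [hN : N.Normal]
    (h1 : ∀ y ∈ N, (orderOf y : k) ≠ 0 → ρ y = 1) : N = ⊥ := by_contra fun h0 => by
  obtain ⟨N', hle, h2, h3⟩ := h N hN h0
  have := Fintype.ofFinite N'
  rw [finsum_eq_sum_of_fintype, Finset.sum_congr rfl fun (y : N') _ => h1 y (hle y.2) fun e => h2 (by
    obtain ⟨c, hc⟩ := orderOf_dvd_natCard y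
    rw [hc, Nat.cast_mul, ← orderOf_coe, e, zero_mul]), Finset.sum_const, Finset.card_univ,
    ← Nat.card_eq_fintype_card, ← Nat.cast_smul_eq_nsmul k] at h3
  exact one_ne_zero ((smul_eq_zero.1 h3).resolve_left h2)

theorem irr_case [IsAlgClosed k] [Nontrivial W] [Group.IsSolvable G] (h3 : 3 < p) {x : G}
    (hx : orderOf x = p) (hgen : normalClosure {x} = ⊤) (ρ : G →* End k W) (h : Hy ρ)
    (hi : ∀ U : Submodule k W, (∀ g, ∀ w ∈ U, ρ g w ∈ U) → U = ⊥ ∨ U = ⊤) :
    2 * finrank k (ker (ρ x - 1)) < finrank k W := by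
  have := Fintype.ofFinite G
  have hn : 0 < finrank k W := finrank_pos
  have hf : Function.Injective ρ := (MonoidHom.ker_eq_bot_iff ρ).1 (h.ex _ fun y hy _ => hy)
  have hxp : x ^ p = 1 := hx ▸ pow_orderOf_eq_one x
  have hx1 : x ≠ 1 := fun e => hp.out.ne_one (by rw [← hx, e, orderOf_one])
  have hZ : ∀ z ∈ center G, ∃ c : k, ρ z = c • 1 := fun z hz => by
    obtain ⟨c, hc⟩ := Module.End.exists_eigenvalue (ρ z)
    refine ⟨c, LinearMap.ext fun w => Module.End.mem_eigenspace_iff.1 (((hi _ fun g u hu =>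
      Module.End.mem_eigenspace_iff.2 ?_).resolve_left hc).ge trivial)⟩
    rw [← Module.End.mul_apply, ← map_mul, ← mem_center_iff.1 hz, map_mul, Module.End.mul_apply,
      Module.End.mem_eigenspace_iff.1 hu, map_smul]
  by_cases hxZ : x ∈ center G
  · obtain ⟨c, hc⟩ := hZ x hxZ
    have : ker (ρ x - 1) = ⊥ := (hi _ fun g w hw => by
      rw [hc, mem_ker, LinearMap.sub_apply, sub_eq_zero] at hw ⊢
      exact (map_smul (ρ g) c w).symm.trans (congrArg (ρ g) hw)).resolve_right fun e => hx1 (hf (by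
        rw [map_one, ← sub_eq_zero, ← ker_eq_top, e]))
    rwa [this, finrank_bot]
  let π := QuotientGroup.mk' (center G)
  have hπ : ∀ g, π g = 1 ↔ g ∈ center G := QuotientGroup.eq_one_iff
  obtain ⟨A, hA, -⟩ := BG.minnormal_exists (H := (⊤ : Subgroup (G ⧸ center G))) (M := ⊤)
    (fun e => hxZ ((hπ x).1 (e.le trivial))) le_normalizer_of_normal
  have : A.Normal := normalizer_eq_top_iff.1 (top_le_iff.1 hA.norm)
  obtain ⟨q, hq, hc, hAq⟩ := BG.minnormal_solvable hA le_top (BG.solvable_of _)
  set L := A.comap π with hL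
  have hZL : center G ≤ L := fun z hz => by rw [mem_comap, (hπ z).2 hz]; exact one_mem _
  have h0 : (Nat.card L : k) ≠ 0 := by
    obtain ⟨l, hl⟩ := ExpChar.exists k
    rcases hl with _ | @⟨l, hl, _⟩
    · exact Nat.cast_ne_zero.2 Nat.card_pos.ne'
    have := Fact.mk hl
    rw [Ne, CharP.cast_eq_zero_iff k l]
    intro hd
    have := BG.abelian_nil hc
    have : Group.IsNilpotent L := Subgroup.isNilpotent_of_ker_le_center (π.subgroupComap A) (fun y hy =>
      mem_center_iff.2 fun g => Subtype.ext (mem_center_iff.1 ((hπ y).1 (congrArg Subtype.val hy)) g))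
    obtain ⟨P⟩ : Nonempty (Sylow l L) := inferInstance
    have := Sylow.characteristic_of_normal P (Sylow.normal_of_normalizerCondition Group.normalizerCondition_of_isNilpotent P)
    refine P.ne_bot_of_dvd_card hd ((map_eq_bot_iff_of_injective _ L.subtype_injective).1
      (h.ex _ ?_))
    rintro _ ⟨y, hy, rfl⟩ e
    obtain ⟨n, hn⟩ := IsPGroup.iff_orderOf.1 P.isPGroup' ⟨y, hy⟩
    rw [coe_subtype, orderOf_coe, ← orderOf_mk y hy, hn] at e
    rcases n with _ | n
    · rw [show y = 1 from congrArg Subtype.val (orderOf_eq_one_iff.1 hn), map_one, map_one]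
    · simp at e
  by_cases hab : ∀ a b : L, a * b = b * a
  · obtain ⟨μ, v, hv0, hv⟩ := exists_weight hab (ρ.comp L.subtype)
    let S := stabilizer G μ
    let P : G ⧸ S → End k W := fun i => pr ρ L (ofQuotientStabilizer G μ i)
    have hP : ∀ g i, ρ g * P i = P (g • i) * ρ g := fun g i => by
      simp only [P, conj_pr]
      rw [ofQuotientStabilizer_smul]
    have h1 : ∀ i, P i * P i = P i := fun i => pr_sq ρ h0 _
    have h2 : ∀ i j, i ≠ j → P i * P j = 0 := fun i j e =>
      pr_ne ρ fun e' => e (injective_ofQuotientStabilizer G μ e')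
    have hP1 : P (1 : G) v = v := pr_apply ρ h0 (by
      rw [ofQuotientStabilizer_mk, one_smul]; exact hv)
    have hE : ∀ j, (∑ i, P i) * P j = P j := fun j => by
      rw [Finset.sum_mul, Finset.sum_eq_single j (fun i _ e => h2 i j e) (by simp), h1]
    have hs : ∑ i, P i = 1 := by
      have := (hi (range (∑ i, P i)) fun g _ ⟨w, hw⟩ => ⟨ρ g w, by
        rw [← hw, ← Module.End.mul_apply, ← Module.End.mul_apply, Finset.mul_sum, Finset.sum_mul]
        congr 1
        exact (Fintype.sum_equiv (MulAction.toPerm g) _ _ fun i => hP g i).symm⟩).resolve_left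
          fun e => hv0 (e.le ⟨v, by rw [← hP1, ← Module.End.mul_apply, hE]⟩)
      refine LinearMap.ext fun w => ?_
      obtain ⟨w, rfl⟩ := this.ge (Submodule.mem_top (x := w))
      rw [← Module.End.mul_apply, Finset.mul_sum]
      simp only [hE, Module.End.one_apply]
    have hr : ∀ i j, finrank k (range (P i)) ≤ finrank k (range (P j)) := fun i j => by
      obtain ⟨g, rfl⟩ := exists_smul_eq G j i
      exact rk_le (U' := ρ g⁻¹) (by rw [← map_mul, mul_inv_cancel, map_one]) (hP g j)
    have hS : S ≠ ⊤ := fun e => hA.ne (eq_bot_iff.2 fun a ha => by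
      obtain ⟨y, rfl⟩ := QuotientGroup.mk'_surjective _ a
      have : Subsingleton (G ⧸ S) := QuotientGroup.subsingleton_iff.2 e
      rw [Fintype.sum_subsingleton _ ((1 : G) : G ⧸ S)] at hs
      have h4 := mul_pr ρ (ofQuotientStabilizer G μ (1 : G)) ⟨y, ha⟩
      rw [show pr ρ L _ = 1 from hs, mul_one] at h4
      exact (hπ y).2 (mem_center_iff.2 fun g => hf (by rw [map_mul, map_mul, h4]; simp)))
    have e1 := orb hx (ρ x) P hs (hP x) fun i => hr i (1 : G)
    have e2 := indep P h1 h2 fun i => hr (1 : G) i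
    have e3 := fpr _ G rfl x hxp hgen S hS
    have e4 := QuotientGroup.card_preimage_mk S (fixedBy (G ⧸ S) x)
    rw [show QuotientGroup.mk ⁻¹' fixedBy (G ⧸ S) x = {g | g⁻¹ * x * g ∈ S} from Set.ext fun g => by
      simp [eq_comm (b := (g : G ⧸ S)), QuotientGroup.eq, mul_assoc]] at e4
    rw [e4, card_eq_card_quotient_mul_card_subgroup S, mul_comm (Nat.card S), ← mul_assoc] at e3
    replace e3 := Nat.le_of_mul_le_mul_right e3 Nat.card_pos
    obtain ⟨r, rfl⟩ : ∃ r, p = r + 4 := ⟨p - 4, by omega⟩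
    rw [show r + 4 - 1 = r + 3 from rfl] at e1
    by_contra hlt
    generalize finrank k (range (P (1 : G))) = d, Nat.card (fixedBy (G ⧸ S) x) = f,
      Nat.card (G ⧸ S) = m, finrank k (ker (ρ x - 1)) = t, finrank k W = n at *
    have e5 : (r + 4) * f * d ≤ n := (Nat.mul_le_mul_right d e3).trans e2
    have e6 : (r + 4) * ((r + 4) * t) ≤ (r + 4) * n + (r + 3) * n := by
      nlinarith [Nat.mul_le_mul_left (r + 4) e1, Nat.mul_le_mul_left (r + 4) e2,
        Nat.mul_le_mul_left (r + 3) e5]
    have e7 : (r + 4) * (r + 4) * n ≤ (4 * r + 14) * n := by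
      nlinarith [Nat.mul_le_mul_left ((r + 4) * (r + 4)) (not_lt.1 hlt)]
    have := Nat.le_of_mul_le_mul_right e7 hn
    nlinarith
  · have hC : ∀ y : L, (∀ l : L, (l : G) * y = y * l) → (y : G) ∈ center G := fun y hy => by
      rcases hA.min ((L ⊓ centralizer (L : Set G)).map π) (map_le_iff_le_comap.2 inf_le_left) (by
        have := (inferInstance : (L ⊓ centralizer (L : Set G)).Normal).map π
          (QuotientGroup.mk'_surjective _)
        exact le_normalizer_of_normal) with e | e
      · exact (hπ y).1 (e.le (mem_map_of_mem π (mem_inf.2 ⟨y.2, fun l hl => hy ⟨l, hl⟩⟩)))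
      · refine absurd (fun a b => Subtype.ext ?_) hab
        obtain ⟨c, hc, e⟩ := e.ge a.2
        have hz := mem_center_iff.1 (QuotientGroup.eq.1 e)
        calc (a : G) * b = c * (c⁻¹ * a * b) := by group
          _ = b * a := by rw [← hz, ← mul_assoc, ← hc.2 b b.2]; group
    let τ : G →* End k (End k W) := Representation.linHom ρ ρ
    have hτ : ∀ g T, τ g T = ρ g * T * ρ g⁻¹ := fun _ _ => rfl
    have hτ' : ∀ g l, τ g (ρ l) = ρ (g * l * g⁻¹) := fun g l => by rw [hτ, map_mul, map_mul]
    have hu : ∀ g, ρ g * ρ g⁻¹ = 1 := fun g => by rw [← map_mul, mul_inv_cancel, map_one]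
    have hτm : ∀ g S T, τ g (S * T) = τ g S * τ g T := fun g S T => by
      have := hu g⁻¹
      rw [inv_inv] at this
      simp only [hτ, mul_assoc, ← mul_assoc (ρ g⁻¹), this, one_mul]
    have hne : ∀ g, ρ g ≠ 0 := fun g => left_ne_zero_of_mul_eq_one (hu g)
    choose m hm using fun l : L => weight (τ.comp L.subtype) (hne l) fun y => by
      obtain ⟨c, e⟩ := hZ (y * l * (y : G)⁻¹ * (l : G)⁻¹) ((hπ _).1 (by
        have := congrArg Subtype.val (mul_comm' (⟨π y, y.2⟩ : A) ⟨π l, l.2⟩)
        simp only [coe_mul] at this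
        simp [this]))
      exact ⟨c, (hτ' y l).trans (by rw [← smul_one_mul, ← e, ← map_mul, inv_mul_cancel_right])⟩
    replace hm : ∀ l y : L, τ y (ρ l) = (m l y : k) • ρ l := hm
    have un : ∀ (l y : L) (c : kˣ), τ y (ρ l) = (c : k) • ρ l → m l y = c := fun l y c e =>
      Units.ext (smul_left_injective k (hne l) ((hm l y).symm.trans e))
    have hm1 : ∀ l y : L, m l y = 1 ↔ (y : G) * l = l * y := fun l y =>
      ⟨fun e => mul_inv_eq_iff_eq_mul.1 (hf (by rw [← hτ', hm, e, Units.val_one, one_smul])),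
        fun e => un _ _ _ (by rw [hτ', e, mul_inv_cancel_right, Units.val_one, one_smul])⟩
    let M : L →* L →* kˣ := MonoidHom.mk' m fun a b => MonoidHom.ext fun y => un _ _ _ (by
      rw [coe_mul, map_mul, hτm, hm, hm, smul_mul_smul_comm]; rfl)
    let φ : L →* A := π.subgroupComap A
    have hφ : Function.Surjective φ :=
      π.subgroupComap_surjective_of_surjective A (QuotientGroup.mk'_surjective _)
    have hφ1 : ∀ l, φ l = 1 ↔ (l : G) ∈ center G := fun l => Subtype.ext_iff.trans (hπ l)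
    obtain ⟨M', hM'⟩ := exists_lift φ hφ M fun l hl => MonoidHom.ext fun y =>
      (hm1 l y).2 (mem_center_iff.1 ((hφ1 l).1 hl) y)
    obtain ⟨b, hb⟩ := exists_lift φ hφ M'.flip fun y hy => MonoidHom.ext fun a => by
      obtain ⟨l, rfl⟩ := hφ a
      rw [MonoidHom.flip_apply, hM']
      exact (hm1 l y).2 (mem_center_iff.1 ((hφ1 y).1 hy) l).symm
    replace hb : ∀ y l, b (φ y) (φ l) = m l y := fun y l => by
      rw [hb, MonoidHom.flip_apply, hM']; rfl
    have hcj : ∀ l, MulAut.conjNormal (π x) (φ l) = φ (MulAut.conjNormal x l) := fun l =>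
      Subtype.ext (show π x * π l * (π x)⁻¹ = π (x * l * x⁻¹) by simp)
    have hmx : ∀ l y : L, m (MulAut.conjNormal x l) (MulAut.conjNormal x y) = m l y := fun l y =>
      un _ _ _ (by
        rw [MulAut.conjNormal_apply, MulAut.conjNormal_apply, ← hτ' x l, ← map_smul, ← hm,
          ← Module.End.mul_apply, ← Module.End.mul_apply, ← map_mul, ← map_mul,
          inv_mul_cancel_right])
    have hxo : orderOf (π x) = p := orderOf_eq_prime (by rw [← map_pow, hxp, map_one])
      fun e => hxZ ((hπ x).1 e)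
    have e3 := idx (p := p) hA (x := π x) (by rw [← map_pow, hxp, map_one]) (by
      rw [← Set.image_singleton, ← map_normalClosure _ _ (QuotientGroup.mk'_surjective _), hgen,
        map_top_of_surjective _ (QuotientGroup.mk'_surjective _)]) h3 b (fun a => by
      obtain ⟨l, rfl⟩ := hφ a
      rw [hb, hm1]) (fun a ha => by
      obtain ⟨y, rfl⟩ := hφ a
      exact (hφ1 y).2 (hC y fun l => ((hm1 l y).1 ((hb y l).symm.trans (ha _))).symm)) fun a c => by
      obtain ⟨y, rfl⟩ := hφ a
      obtain ⟨l, rfl⟩ := hφ c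
      rw [hcj, hcj, hb, hb, hmx]
    letI : MulAction (G ⧸ center G) A := MulAction.compHom A (MulAut.conjNormal (H := A))
    let P : A → End k (End k W) := fun e => pr τ L (M' e)
    have hP : ∀ i, τ x * P i = P (π x • i) * τ x := fun i => by
      obtain ⟨l, rfl⟩ := hφ i
      simp only [P, conj_pr]
      congr 2
      ext y
      rw [show π x • φ l = _ from hcj l, hM', hM', wAct_apply]
      exact congrArg Units.val ((hmx _ _).symm.trans (by simp [M]))
    have h1 : ∀ i, P i * P i = P i := fun i => pr_sq τ h0 _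
    have h2 : ∀ i j, i ≠ j → P i * P j = 0 := fun i j e => pr_ne τ fun e' => e (by
      refine (injective_iff_map_eq_one M').2 (fun a ha => ?_) e'
      obtain ⟨l, rfl⟩ := hφ a
      rw [hM'] at ha
      exact (hφ1 l).2 (hC l fun y => (hm1 l y).1 (DFunLike.congr_fun ha y)))
    have hs : ∑ i, P i = 1 := by
      have e : ∀ y : L, ∑ i : A, ((M' i y⁻¹ : kˣ) : k) • τ y =
          (∑ i : A, ((b (φ y⁻¹) i : kˣ) : k)) • 1 := fun y => by
        rw [← Finset.sum_smul, Finset.sum_congr rfl (g := fun i => ((b (φ y⁻¹) i : kˣ) : k))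
          fun i _ => by obtain ⟨l, rfl⟩ := hφ i; rw [hb, hM']; rfl]
        by_cases hy : (y : G) ∈ center G
        · obtain ⟨c, hc⟩ := hZ y hy
          congr 1
          refine LinearMap.ext fun T => ?_
          rw [hτ, hc, smul_one_mul, smul_mul_assoc, ← mul_smul_comm, ← smul_one_mul, ← hc, hu,
            mul_one, Module.End.one_apply]
        · rw [show ∑ i : A, ((b (φ y⁻¹) i : kˣ) : k) = 0 from
            sum_hom_units_eq_zero ((Units.coeHom k).comp (b (φ y⁻¹))) fun e => hy (by
              simpa using hC y⁻¹ fun l => ((hm1 l y⁻¹).1 ((hb _ l).symm.trans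
                (Units.ext (DFunLike.congr_fun e (φ l))))).symm), zero_smul, zero_smul]
      simp only [P, pr]
      rw [← Finset.smul_sum, Finset.sum_comm]
      simp only [e]
      rw [← Finset.sum_smul, Finset.sum_comm, Finset.sum_eq_single 1 (fun i _ hi => ?_) (by simp)]
      · simp [smul_smul, inv_mul_cancel₀ (by simpa using h0 : (Fintype.card L : k) ≠ 0)]
      · obtain ⟨l, rfl⟩ := hφ i
        simp only [hb]
        rw [← Equiv.sum_comp (Equiv.inv L)]
        simpa using sum_hom_units_eq_zero ((Units.coeHom k).comp (m l)) fun e => hi ((hφ1 l).2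
          (hC l fun y => (hm1 l y).1 (Units.ext (DFunLike.congr_fun e y))))
    have hr : ∀ i j, finrank k (range (P i)) ≤ finrank k (range (P j)) := fun i j => by
      obtain ⟨l, hl⟩ := hφ (i * j⁻¹)
      refine rk_le (U := mulLeft k (ρ l)) (U' := mulLeft k (ρ (l : G)⁻¹)) (LinearMap.ext fun T => by
        simp [← mul_assoc, hu]) (LinearMap.ext fun T => ?_)
      rw [eq_mul_inv_iff_mul_eq] at hl
      simp only [P, pr, ← hl, map_mul M', hM', Module.End.mul_apply, mulLeft_apply,
        LinearMap.smul_apply, LinearMap.sum_apply, hτm, hm, mul_smul_comm, Finset.mul_sum,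
        smul_mul_assoc, smul_smul]
      congr 1
      refine Finset.sum_congr rfl fun y _ => ?_
      congr 1
      simp [M, mul_right_comm]
    have e1 := orb hxo (τ x) P hs hP fun i => hr i 1
    have e2 := indep P h1 h2 fun i => hr 1 i
    have e4 : _ < finrank k (ker (τ x - 1)) := sq_lt (hu x) fun e => hx1 (hf (e.trans (map_one ρ).symm))
    have e5 : Nat.card (fixedBy A (π x)) = Nat.card (A ⊓ centralizer {π x} : Subgroup _) := by
      rw [← Nat.card_congr (subgroupOfEquivOfLe (inf_le_left : A ⊓ centralizer {π x} ≤ A)).toEquiv]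
      refine Nat.card_congr (Equiv.setCongr (Set.ext fun a => ?_))
      show MulAut.conjNormal (π x) a = a ↔ _
      rw [Subtype.ext_iff, MulAut.conjNormal_apply, mul_inv_eq_iff_eq_mul, eq_comm]
      simp [mem_subgroupOf, mem_centralizer_singleton_iff]
    rw [Module.finrank_linearMap] at e2
    rw [← e5] at e3
    obtain ⟨r, rfl⟩ : ∃ r, p = r + 4 := ⟨p - 4, by omega⟩
    rw [Nat.add_sub_cancel] at e3
    by_contra hlt
    generalize finrank k (range (P 1)) = d, (r + 4 - 1) * Nat.card (fixedBy A (π x)) = f,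
      Nat.card A = a, finrank k (ker (ρ x - 1)) = t, finrank k W = n,
      finrank k (ker (τ x - 1)) = T at *
    have e6 := Nat.mul_le_mul (not_lt.1 hlt) (not_lt.1 hlt)
    have e7 : (r + 4) * (4 * T) ≤ (r + 4) * (n * n) := by
      nlinarith [Nat.mul_le_mul_right d e3, Nat.mul_le_mul_left (r + 4) e2]
    have := Nat.le_of_mul_le_mul_left e7 (by omega)
    nlinarith

theorem gen_case [IsAlgClosed k] [Group.IsSolvable G] (h3 : 3 < p) {x : G} (hx : orderOf x = p)
    (hgen : normalClosure {x} = ⊤) (n : ℕ) : ∀ (V : Type u) [AddCommGroup V] [Module k V]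
    [FiniteDimensional k V] [Nontrivial V], finrank k V = n → ∀ ρ : Representation k G V, Hy ρ →
      2 * finrank k (ker (ρ x - 1)) < finrank k V := by
  induction n using Nat.strong_induction_on with
  | _ n ih =>
  intro V _ _ _ _ hn ρ h
  by_cases hi : ∀ U : Submodule k V, (∀ g, ∀ w ∈ U, ρ g w ∈ U) → U = ⊥ ∨ U = ⊤
  · exact irr_case h3 hx hgen ρ h hi
  push Not at hi
  obtain ⟨U, hU, h0, h1⟩ := hi
  have := Fintype.ofFinite G
  have := Submodule.nontrivial_iff_ne_bot.2 h0
  have := Submodule.Quotient.nontrivial_iff.2 h1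
  have e := U.finrank_quotient_add_finrank
  have e0 : 0 < finrank k U := finrank_pos
  have e0' : 0 < finrank k (V ⧸ U) := finrank_pos
  have e1 := ih _ (by omega) U rfl (ρ.subrepresentation U hU) fun N hN h0 => by
    obtain ⟨N', h1, h2, h3⟩ := h N hN h0
    refine ⟨N', h1, h2, LinearMap.ext fun w => Subtype.ext ?_⟩
    rw [finsum_eq_sum_of_fintype] at h3 ⊢
    simpa using LinearMap.congr_fun h3 w
  have e2 := ih _ (by omega) (V ⧸ U) rfl (ρ.quotient U hU) fun N hN h0 => by
    obtain ⟨N', h1, h2, h3⟩ := h N hN h0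
    refine ⟨N', h1, h2, LinearMap.ext fun w => ?_⟩
    obtain ⟨w, rfl⟩ := U.mkQ_surjective w
    rw [finsum_eq_sum_of_fintype] at h3 ⊢
    simpa using congrArg U.mkQ (LinearMap.congr_fun h3 w)
  let F : ker (ρ x - 1) →ₗ[k] ker (ρ.quotient U hU x - 1) :=
    (U.mkQ ∘ₗ (ker (ρ x - 1)).subtype).codRestrict _ fun v => sub_eq_zero.2
      (congrArg U.mkQ (sub_eq_zero.1 v.2))
  have e3 := F.finrank_range_add_finrank_ker
  have e4 := (range F).finrank_le
  have e5 : finrank k (ker F) ≤ finrank k (ker (ρ.subrepresentation U hU x - 1)) := by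
    have hm : ∀ v : ker F, (v.1 : V) ∈ U := fun v =>
      (Submodule.Quotient.mk_eq_zero U).1 (congrArg Subtype.val v.2)
    refine finrank_le_finrank_of_injective (f := (((ker (ρ x - 1)).subtype ∘ₗ
      (ker F).subtype).codRestrict U hm).codRestrict _ fun v => sub_eq_zero.2
        (Subtype.ext (sub_eq_zero.1 v.1.2))) fun a b e => ?_
    exact Subtype.ext (Subtype.ext (congrArg (fun z => z.1.1) e))
  omega

theorem flavell [Group.IsSolvable G] (h3 : 3 < p) {x : G} (hx : orderOf x = p)
    (hgen : normalClosure {x} = ⊤) (l : ℕ) [Fact l.Prime] [CharP k l] (ρ : Representation k G W)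
    [hi : ρ.IsIrreducible] (hf : Function.Injective ρ) :
    2 * finrank k (ker (ρ x - 1)) < finrank k W := by
  have := Fintype.ofFinite G
  have hnt : Nontrivial W := by
    by_contra hc
    have := not_nontrivial_iff_subsingleton.1 hc
    exact hp.out.ne_one (by rw [← hx, hf (Subsingleton.elim (ρ x) (ρ 1)), orderOf_one])
  have h : Hy ρ := fun N hN h0 => by
    obtain ⟨V, q, h1, h2, h4, hq, hc, h5⟩ := BG.solvable_norm_abelem (H := N) (M := ⊤)
      (BG.solvable_of _) h0 le_normalizer_of_normal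
    have hV : V.Normal := normalizer_eq_top_iff.1 (top_le_iff.1 h2)
    have := Fact.mk hq
    have hVq : IsPGroup q V := fun a => ⟨1, Subtype.ext (by simpa using h5 a a.2)⟩
    have hfix : ∀ w, (∀ y : V, ρ y w = w) → w = 0 := fun w hw => by
      let S : Subrepresentation ρ := ⟨⨅ y : V, ker (ρ y - 1), fun g v hv =>
        (Submodule.mem_iInf _).2 fun y => by
          have := sub_eq_zero.1 ((Submodule.mem_iInf _).1 hv ⟨_, hV.conj_mem' _ y.2 g⟩)
          refine sub_eq_zero.2 (show ρ y (ρ g v) = ρ g v from ?_)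
          conv_rhs => rw [← show ρ (g⁻¹ * y * g) v = v from this]
          simp [← Module.End.mul_apply, ← map_mul, ← mul_assoc]⟩
      rcases eq_bot_or_eq_top S with e | e
      · exact (congrArg Subrepresentation.toSubmodule e).le
          ((Submodule.mem_iInf _).2 fun y => sub_eq_zero.2 (hw y))
      · refine absurd (eq_bot_iff.2 fun y hy => hf (LinearMap.ext fun v => ?_)) h4
        rw [map_one]
        exact sub_eq_zero.1 ((Submodule.mem_iInf _).1
          ((congrArg Subrepresentation.toSubmodule e).ge trivial) ⟨y, hy⟩)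
    refine ⟨V, h1, fun e => ?_, LinearMap.ext fun w => hfix _ fun y => ?_⟩
    · obtain ⟨m, hm⟩ := IsPGroup.iff_card.1 hVq
      rw [CharP.cast_eq_zero_iff k l, hm] at e
      obtain rfl := (Nat.prime_dvd_prime_iff_eq Fact.out hq).1 (Nat.Prime.dvd_of_dvd_pow Fact.out e)
      letI : DistribMulAction V W := DistribMulAction.compHom W (ρ.comp V.subtype)
      obtain ⟨v, hv⟩ := exists_ne (0 : W)
      obtain ⟨w, -, h6, h7⟩ := BMod.exists_fixed_ne_zero hVq (V := W) (fun v => by
        rw [← Nat.cast_smul_eq_nsmul k, CharP.cast_eq_zero, zero_smul]) ⊤ (fun _ _ _ => trivial)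
        trivial hv
      exact h6 (hfix w h7)
    · rw [finsum_eq_sum_of_fintype, ← Module.End.mul_apply, Finset.mul_sum]
      congr 1
      exact Fintype.sum_equiv (Equiv.mulLeft y) _ _ fun z => (map_mul ρ _ _).symm
  let K := AlgebraicClosure k
  let σ : Representation K G (TensorProduct k K W) :=
    (Module.End.baseChangeHom k K W : End k W →* _).comp ρ
  have hn : finrank K (TensorProduct k K W) = finrank k W := Module.finrank_baseChange
  have := Module.nontrivial_of_finrank_pos (R := K) (hn ▸ finrank_pos (R := k) (M := W))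
  have e1 := gen_case h3 hx hgen _ _ rfl σ fun N hN h0 => by
    obtain ⟨N', h1, h2, h3⟩ := h N hN h0
    refine ⟨N', h1, by rwa [← map_natCast (algebraMap k K), _root_.map_ne_zero], ?_⟩
    rw [finsum_eq_sum_of_fintype] at h3 ⊢
    exact ((map_sum (Module.End.baseChangeHom k K W) _ _).symm.trans (congrArg _ h3)).trans (map_zero _)
  have e2 : finrank k (ker (ρ x - 1)) ≤ finrank K (ker (σ x - 1)) := by
    rw [← Module.finrank_baseChange (R := K)]
    refine finrank_le_finrank_of_injective (f := ((ker (ρ x - 1)).subtype.baseChange K).codRestrict _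
      fun v => ?_) fun a b e => Module.Flat.lTensor_preserves_injective_linearMap (M := K) _
        (ker (ρ x - 1)).injective_subtype (congrArg Subtype.val e)
    have : (σ x - 1) ∘ₗ (ker (ρ x - 1)).subtype.baseChange K = 0 := by
      rw [show σ x - 1 = (ρ x - 1).baseChange K by rw [baseChange_sub, baseChange_one]; rfl,
        ← baseChange_comp, comp_ker_subtype, baseChange_zero]
    exact LinearMap.congr_fun this v
  omega

end Cfsg.Agent.Isa.Fl
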