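import Cfsg.Agent.Isa.K7
import Cfsg.Agent.BG.Base6
import Cfsg.Agent.BG.S2Abelem

/-! Maximal solvable subgroups generated by two conjugates of a subgroup of prime order (Flavell).
(helper12) -/

set_option autoImplicit false
set_option linter.unusedVariables false
set_option linter.unusedSectionVars false

namespace Cfsg.Agent.Isa.Fl

open Cfsg Cfsg.Agent.BG Module Subgroup
open scoped _root_.Classical commutatorElement

local notation "Sol" => Group.IsSolvable
local notation "Nil" => Group.IsNilpotent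

variable {p q r : ℕ} [hp : Fact p.Prime] {G : Type*} [Group G] [Finite G] {A V Q R : Subgroup G} {x a : G}

theorem sq_cent_lt (h3 : 3 < p) [hr : Fact r.Prime] (hV : IsElementaryAbelian r V) (hm : MinNormal V A)
    (hs : Sol A) (hx : x ∈ A) (hxp : x ^ p = 1) (hgen : normalClosure {(⟨x, hx⟩ : A)} = ⊤)
    (hc : ¬ A ≤ C[V]) : #(V ⊓ C1[x]) * #(V ⊓ C1[x]) < #V := by
  let ρ := abRep hV hm.norm
  let σ : Representation (ZMod r) (A ⧸ ρ.ker) (AbV hV) := QuotientGroup.lift ρ.ker ρ le_rfl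
  have hσ : ∀ g : A, σ g = ρ g := fun _ => rfl
  have hf : Function.Injective σ := fun a b => QuotientGroup.induction_on a fun a =>
    QuotientGroup.induction_on b fun b e => QuotientGroup.eq.2 (by
      rw [MonoidHom.mem_ker, map_mul, ← hσ b, ← e, hσ, ← map_mul, inv_mul_cancel, map_one])
  have : Nontrivial (Subrepresentation σ) := ⟨⊥, ⊤, fun e => hm.ne (by
    rw [← AbV.toSub_top (hV := hV), ← AbV.toSub_bot (hV := hV)]
    exact congrArg (fun S : Subrepresentation σ => AbV.toSub S.toSubmodule) e.symm)⟩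
  have : σ.IsIrreducible := ⟨fun S => (hm.min _ (AbV.toSub_le S.toSubmodule)
    (norm_toSub (hA := hm.norm) fun g v hv => S.apply_mem_toSubmodule g hv)).imp
      (fun e => Subrepresentation.toSubmodule_injective (AbV.toSub_eq_bot.1 e))
      fun e => Subrepresentation.toSubmodule_injective (AbV.toSub_eq_self.1 e)⟩
  have h := flavell h3 (x := ((⟨x, hx⟩ : A) : A ⧸ ρ.ker)) (orderOf_eq_prime (by
    rw [← QuotientGroup.mk_pow, show (⟨x, hx⟩ : A) ^ p = 1 from Subtype.ext hxp, QuotientGroup.mk_one])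
    fun e => hc fun g hg => abRep_eq_one.1 ((hgen.ge.trans (normalClosure_le_normal
      (Set.singleton_subset_iff.2 ((QuotientGroup.eq_one_iff _).1 e)))) (mem_top (⟨g, hg⟩ : A)))) (by
      rw [← QuotientGroup.mk'_apply, ← Set.image_singleton,
        ← map_normalClosure _ _ (QuotientGroup.mk'_surjective _), hgen,
        map_top_of_surjective _ (QuotientGroup.mk'_surjective _)]) r σ hf
  rw [show LinearMap.ker (σ (⟨x, hx⟩ : A) - 1) = AbV.ofSub hV C1[x] from Submodule.ext fun v =>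
    sub_eq_zero.trans (abRep_apply_eq_self (hA := hm.norm))] at h
  rw [AbV.card_inf_eq_pow hV, AbV.card_eq_pow hV, ← pow_add]
  exact Nat.pow_lt_pow_right hr.out.one_lt (by omega)

theorem core (h3 : 3 < p) [hr : Fact r.Prime] [hq : Fact q.Prime] (hV : IsElementaryAbelian r V)
    (hm : MinNormal V A) (hs : Sol A) (hxp : x ^ p = 1) (ha : a ∈ A)
    (hA : A = zpowers x ⊔ cj a (zpowers x)) (hQ : Q ⊴ A) (hQq : IsPGroup q Q) (hqr : q ≠ r)
    (hc : V ⊓ C[Q] = ⊥) : ∃ v ∈ V, V ≤ zpowers x ⊔ cj (v * a) (zpowers x) := by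
  have hx : x ∈ A := hA.ge (mem_sup_left (mem_zpowers x))
  have hVr : IsPGroup r V := fun a => ⟨1, Subtype.ext (by simpa using hV.2 a a.2)⟩
  have hV' : PiGrp {q}ᶜ V := p'group_of_ne hVr hqr.symm
  have hQV : Q ≤ N[V] := hQ.le.trans hm.norm
  by_contra hcon
  push Not at hcon
  have key : ∀ v ∈ V, ∃ w ∈ V ⊓ C1[x], ∃ u ∈ V ⊓ C1[a * x * a⁻¹], v = w * u := fun v hv => by
    set B := zpowers x ⊔ cj (v * a) (zpowers x) with hB
    have hy : v * (a * x * a⁻¹) * v⁻¹ ∈ B := mem_sup_right (by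
      rw [cj_mul]; exact conj_mem_cj _ (conj_mem_cj _ (mem_zpowers x)))
    have hBV : B ≤ N[V] := sup_le (zpowers_le.2 (hm.norm hx))
      (cj_le_of_mem (mul_mem (normG V hv) (hm.norm ha)) (zpowers_le.2 (hm.norm hx)))
    have hAB : A ≤ B ⊔ V := by
      rw [hA, cj_zpowers]
      refine sup_le (le_sup_left.trans le_sup_left) (zpowers_le.2 ?_)
      simpa [mul_assoc] using conj_mem_of_norm' (normG _ (mem_sup_right hv)) (mem_sup_left hy)
    have hi : B ⊓ V = ⊥ := (hm.min _ inf_le_right (hAB.trans (sup_le (normsI (normG B) hBV)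
      (sub_abelian_norm hV.1 inf_le_right)))).resolve_right fun e => hcon v hv (inf_eq_right.1 e)
    have hBQ : B ≤ N[Q ⊔ V] := by
      have h1 : A ⊔ V ≤ N[Q ⊔ V] := sup_le (normsY hQ.norm hm.norm) (normsG le_sup_right)
      exact sup_le (zpowers_le.2 (h1 (mem_sup_left hx))) ((cj_le_of_mem (mul_mem (mem_sup_right hv)
        (mem_sup_left ha)) (zpowers_le.2 (mem_sup_left hx))).trans h1)
    set D := (Q ⊔ V) ⊓ B with hD
    have hDV : Q ⊔ V = D ⊔ V := by
      rw [hD, ← group_modr (Or.inl hBV) le_sup_right,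
        inf_eq_left.2 (sup_le (hQ.le.trans hAB) le_sup_right)]
    have hDN : D ≤ N[V] := inf_le_right.trans hBV
    have hDi : D ⊓ V = ⊥ := le_bot_iff.1 ((inf_le_inf_right V inf_le_right).trans hi.le)
    have hcd : #D = #Q := by
      have e1 := card_sup_mul_inf (Or.inl hQV)
      have e2 := card_sup_mul_inf (Or.inl hDN)
      rw [pgroup_p'_TI hQq hV'] at e1
      rw [hDi, ← hDV, e1] at e2
      exact (Nat.eq_of_mul_eq_mul_right (cardG_pos V) e2).symm
    have hS : SylowIn q Q (Q ⊔ V) := pHall_of_compl (IsComplIn.mk' (Or.inl hQV) rfl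
      (pgroup_p'_TI hQq hV')) hQq.pi hV'
    obtain ⟨g, hg, e⟩ := Sylow_trans hS (pHall_of_card_le hS inf_le_left
      (by show PiNat {q} #D; rw [hcd]; exact hQq.pi) hcd.ge)
    obtain ⟨w, hw, u, hu, rfl⟩ := (mem_sup_norml hQV).1 (sup_comm Q V ▸ hg)
    rw [cj_mul, cj_of_mem hu] at e
    have h1 : ∀ y ∈ A, ∀ t ∈ V, t * y * t⁻¹ ∈ B → w⁻¹ * t ∈ V ⊓ C1[y] := fun y hy t ht hB => by
      have h2 : w⁻¹ * t ∈ V := mul_mem (inv_mem hw) ht
      have h3 : w⁻¹ * (t * y * t⁻¹) * w ∈ N[Q] := by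
        rw [← mem_cj, ← N_cj, ← e]
        exact normsI hBQ (normG B) hB
      have h4 : w⁻¹ * (t * y * t⁻¹) * w * y⁻¹ ∈ V ⊓ N[Q] := mem_inf.2 ⟨by
        have := mul_mem h2 (conj_mem_of_norm (hm.norm hy) (inv_mem h2))
        convert this using 1
        group, mul_mem h3 (inv_mem (hQ.norm hy))⟩
      have h5 : V ⊓ N[Q] ≤ V ⊓ C[Q] := le_inf inf_le_left (TI_cent inf_le_right
        (normsI hQV (normsG (normG Q))) (le_bot_iff.1 ((inf_le_inf_right Q inf_le_left).trans
          (by rw [inf_comm, pgroup_p'_TI hQq hV']))))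
      have h6 := mul_inv_eq_one.1 (mem_bot.1 (hc.le (h5 h4)))
      refine ⟨h2, mem_cent1.2 ?_⟩
      conv_rhs => rw [← h6]
      group
    have h2 := h1 x hx 1 (one_mem _) (by simpa using mem_sup_left (mem_zpowers x))
    exact ⟨w, by simpa using inv_mem h2, _, h1 _ (mul_mem (mul_mem ha hx) (inv_mem ha)) v hv hy,
      by group⟩
  have h1 := sq_cent_lt h3 hV hm hs hx hxp (top_le_iff.1 fun g _ => by
    have : A ≤ (normalClosure {(⟨x, hx⟩ : A)}).map A.subtype := by
      have h := normal_map_subtype (normalClosure_normal (s := {(⟨x, hx⟩ : A)}))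
      have h' : zpowers x ≤ (normalClosure {(⟨x, hx⟩ : A)}).map A.subtype :=
        zpowers_le.2 (mem_map_of_mem A.subtype (x := ⟨x, hx⟩) (subset_normalClosure rfl))
      exact hA.le.trans (sup_le h' (cj_le_of_norm (h.norm ha) h'))
    obtain ⟨y, hy, e⟩ := this g.2
    exact Subtype.ext e ▸ hy) fun h => hm.ne (by
      rw [← hc, inf_eq_left.2 (cents_symm (hQ.le.trans h))])
  have h2 : #V ≤ #(V ⊓ C1[x]) * #(V ⊓ C1[a * x * a⁻¹]) := by
    rw [← Nat.card_prod]
    refine Nat.card_le_card_of_surjective (fun z => ⟨z.1 * z.2, mul_mem z.1.2.1 z.2.2.1⟩) fun v => ?_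
    obtain ⟨w, hw, u, hu, e⟩ := key v v.2
    exact ⟨(⟨w, hw⟩, ⟨u, hu⟩), Subtype.ext e.symm⟩
  rw [show V ⊓ C1[a * x * a⁻¹] = cj a (V ⊓ C1[x]) by
    rw [cj_inf, cj_of_norm (hm.norm ha), C1_conj], card_cj] at h2
  omega

theorem cent_of_max (h3 : 3 < p) [hr : Fact r.Prime] [hq : Fact q.Prime] (hs : Sol A) (hxp : x ^ p = 1)
    (ha : a ∈ A) (hA : A = zpowers x ⊔ cj a (zpowers x))
    (hmax : ∀ B : Subgroup G, A ≤ B → Sol B → (∃ b ∈ B, B = zpowers x ⊔ cj b (zpowers x)) → B = A)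
    (hQ : Q ⊴ A) (hQq : IsPGroup q Q) (hqr : q ≠ r) (n : ℕ) :
    ∀ R : Subgroup G, #R = n → IsPGroup r R → A ≤ N[R] → Q ≤ C[R] := by
  induction n using Nat.strong_induction_on with
  | _ n ih =>
  intro R hn hR hAR
  by_contra hc
  have hlt : ∀ U < R, A ≤ N[U] → Q ≤ C[U] := fun U h1 h2 =>
    ih _ (hn ▸ proper_card h1) U rfl (IsPGroup.sub hR h1.le) h2
  have hQR : Q ≤ N[R] := hQ.le.trans hAR
  have hco : (#R).Coprime #Q := pnat_coprime' (p'group_of_ne hR hqr.symm) hQq.pi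
  have h1 : ⁅R, Q⁆ = R := (eq_or_lt_of_le (commg_subl hQR)).resolve_right fun h =>
    hc (coprime_commGG1P hQR hco (commG1'.2 (hlt _ h (normsR hAR hQ.norm))))
  have hAN : A ≤ N[Phi R] := norms_Phi hAR
  have hRN : R ≤ N[Phi R] := (Phi_normal R).norm
  have hx : x ∈ A := hA.ge (mem_sup_left (mem_zpowers x))
  have hV := Phi_quotient_abelem hR
  have h2 : R /ᵍ Phi R ⊓ C[Q /ᵍ Phi R] = ⊥ := by
    have := coprime_abel_cent_TI (quotient_norms (Phi R) hQR) (coprime_morph _ hco) hV.1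
    rwa [← quotientR hRN (hQ.le.trans hAN), h1] at this
  have h0 : R ≠ ⊥ := fun e => hc (by rw [e, cent_bot]; exact le_top)
  obtain ⟨_, hv0, h4⟩ := core h3 hV (A := A /ᵍ Phi R) (x := coset _ x) (a := coset _ a)
    ⟨quotient_neq1 hRN (Phi_proper h0).not_ge, quotient_norms _ hAR, fun U hU hAU => by
      obtain ⟨U, h5, h6, rfl⟩ := inv_quotientS (Phi_normal R) hU
      refine (eq_or_lt_of_le h6).symm.imp (fun h => le_bot_iff.1 ((le_inf hU ?_).trans h2.le))
        fun e => by rw [e]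
      exact quotient_cents _ (cents_symm (hlt U h (norms_of_quotient hAN
        ((Phi_normal R).subl h5 h6) hAU)))⟩ (quotient_sol _ hs)
    (by rw [← coset_pow (hAN hx), hxp, coset_one]) (mem_quotient (hAN ha) ha) (by
      rw [← quotient_zpowers (hAN hx), ← quotientJ (hAN ha), ← quotientY (zpowers_le.2 (hAN hx))
        (cj_le_of_mem (hAN ha) (zpowers_le.2 (hAN hx))), ← hA])
    (quotient_normal _ hQ) (hQq.quo _) hqr h2
  obtain ⟨v, hv, hv', rfl⟩ := mem_quotient_iff.1 hv0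
  have hva := mul_mem hv' (hAN ha)
  have hz := zpowers_le.2 (hAN hx)
  rw [← coset_mul hv' (hAN ha), ← quotient_zpowers (hAN hx), ← quotientJ hva,
    ← quotientY hz (cj_le_of_mem hva hz), quotientSK hRN (sup_le hz (cj_le_of_mem hva hz))] at h4
  set B := zpowers x ⊔ cj (v * a) (zpowers x) with hB
  have hRB : R ≤ B := inf_eq_left.1 (Phi_nongen inf_le_left (by
    rw [← group_modr (Or.inl (sup_le hz (cj_le_of_mem hva hz))) (Phi_sub R), sup_comm]
    exact le_inf le_rfl h4))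
  have hAB : A ≤ B := hA.le.trans (sup_le le_sup_left (by
    rw [← cj_le_iff_of_mem (hRB hv), ← cj_mul]; exact le_sup_right))
  have hBs : Sol B := solvableS (sup_le (zpowers_le.2 (mem_sup_left hx)) (cj_le_of_mem
    (mul_mem (mem_sup_right hv) (mem_sup_left ha)) (zpowers_le.2 (mem_sup_left hx))))
    (solvableY (Or.inl hAR) hs (nilpotent_sol hR.isNilpotent))
  have := hmax B hAB hBs ⟨_, mul_mem (hRB hv) (hAB ha), rfl⟩
  exact hc (TI_cent hQR ((hRB.trans this.le).trans hQ.norm) (coprime_TI hco.symm))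

theorem nil_of_max (h3 : 3 < p) (hs : Sol A) (hxp : x ^ p = 1)
    (ha : a ∈ A) (hA : A = zpowers x ⊔ cj a (zpowers x))
    (hmax : ∀ B : Subgroup G, A ≤ B → Sol B → (∃ b ∈ B, B = zpowers x ⊔ cj b (zpowers x)) → B = A)
    (hV : Nil V) (hAV : A ≤ N[V]) : Nil (fittingOf A ⊔ V : Subgroup G) := by
  have hFV := (Fitting_sub A).trans hAV
  have key : ∀ r, r.Prime → Op r A ⊔ Op r V ≤ fittingOf (fittingOf A ⊔ V) := fun r hr => by
    have := Fact.mk hr
    have hn : A ≤ N[Op r V] := norms_pcore _ hAV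
    refine Fitting_max ⟨sup_le_sup (pcore_sub_Fitting r A) (pcore_sub _ V), sup_le
      ((Fitting_sub A).trans (normsY (pcore_normal _ A).norm hn)) ?_⟩
      (PiNat.pg (p := r) (pgroupY (Or.inl ((pcore_sub _ A).trans hn)) (pcore_pgroup _ _)
        (pcore_pgroup _ _))).isNilpotent
    refine (nilpotent_Fitting hV).ge.trans (Fitting_le_of_pcore fun s hs' _ => ?_)
    have := Fact.mk hs'
    by_cases e : r = s
    · subst e
      exact normsG le_sup_right
    · exact cents_norm (le_cent_sup (cents_symm (cent_of_max h3 hs hxp ha hA hmax (pcore_normal _ A)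
        (Op_pgroup r A) e _ _ rfl (Op_pgroup s V) (norms_pcore _ hAV))) (normal_pi_cent
          (pcore_normal _ V) (pcore_normal _ V) (pcore_pgroup _ _) (p'group_of_ne (Op_pgroup r V) e)))
  have : fittingOf A ⊔ V ≤ fittingOf (fittingOf A ⊔ V) :=
    sup_le (Fitting_le_of_pcore fun r hr _ => le_sup_left.trans (key r hr))
      ((nilpotent_Fitting hV).ge.trans (Fitting_le_of_pcore fun r hr _ => le_sup_right.trans (key r hr)))
  rw [le_antisymm this (Fitting_sub _)]
  exact Fitting_nil _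

end Cfsg.Agent.Isa.Fl
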