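import Cfsg.Agent.Gen2.FCStruct
import Cfsg.Agent.Gen2.QuatAct
import Cfsg.Agent.Solv.Fitting

/-! Solvable linear groups whose point stabilizers are `p`-groups and which are transitive on nonzero vectors:
normal `p`-complement and abelian Sylow `p`-subgroups. -/

set_option autoImplicit false

namespace Cfsg.Agent.Isa.K9

open Subgroup

variable {H : Type*} [Group H] [Finite H] {p : ℕ}

/-- A normal subgroup containing commutators and `p'`-elements whose `p`-elements centralize `R`. -/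
def Good (p : ℕ) (R M : Subgroup H) : Prop :=
  M.Normal ∧ (∀ a b : H, a * b * a⁻¹ * b⁻¹ ∈ M) ∧ (∀ g : H, (orderOf g).Coprime p → g ∈ M) ∧
    ∀ g ∈ M, (∃ k, orderOf g = p ^ k) → g ∈ centralizer (R : Set H)

omit [Finite H] in
theorem good_top {R : Subgroup H} (h : ∀ g : H, (∃ k, orderOf g = p ^ k) → g ∈ centralizer (R : Set H)) :
    Good p R ⊤ := ⟨inferInstance, fun _ _ => trivial, fun _ _ => trivial, fun g _ hg => h g hg⟩

theorem good_of_comm {A : Type*} [Group A] (f : H →* A) (hc : ∀ a b, f a * f b = f b * f a) {R : Subgroup H}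
    (hk : f.ker ≤ centralizer (R : Set H)) : ∃ M, Good p R M := by
  let M : Subgroup H :=
    { carrier := {g | (orderOf (f g)).Coprime p}
      one_mem' := by simp
      mul_mem' := fun {a b} ha hb => by
        show (orderOf (f (a * b))).Coprime p
        rw [map_mul]
        exact Nat.Coprime.coprime_dvd_left (Commute.orderOf_mul_dvd_mul_orderOf (hc a b))
          (Nat.Coprime.mul_left ha hb)
      inv_mem' := fun {a} ha => by
        show (orderOf (f a⁻¹)).Coprime p
        rw [map_inv, orderOf_inv]; exact ha }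
  refine ⟨M, ⟨fun a ha g => ?_⟩, fun a b => ?_, fun g hg => ?_, fun g hg ⟨k, hk'⟩ => hk ?_⟩
  · show (orderOf (f (g * a * g⁻¹))).Coprime p
    rw [map_mul, map_mul, hc g a, map_inv, mul_inv_cancel_right]; exact ha
  · show (orderOf (f (a * b * a⁻¹ * b⁻¹))).Coprime p
    rw [map_mul, map_mul, map_mul, hc a b, map_inv, map_inv]; simp
  · exact Nat.Coprime.coprime_dvd_left (orderOf_map_dvd f g) hg
  · have h1 : orderOf (f g) ∣ p ^ k := hk' ▸ orderOf_map_dvd f g
    have h2 : (orderOf (f g)).Coprime (p ^ k) := Nat.Coprime.pow_right _ hg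
    exact orderOf_eq_one_iff.1 (Nat.Coprime.eq_one_of_dvd h2 h1)

theorem good_of_cyclic {R : Subgroup H} [R.Normal] (hc : IsCyclic R) : ∃ M, Good p R M := by
  refine good_of_comm (MulAut.conjNormal (H := R)) (fun a b => ?_) fun g hg r hr => ?_
  · ext x
    obtain ⟨c, hc⟩ := hc.exists_generator
    have key : ∀ α β : MulAut R, α (β x) = β (α x) := fun α β => by
      obtain ⟨i, hi⟩ := hc (α c)
      obtain ⟨j, hj⟩ := hc (β c)
      obtain ⟨k, rfl⟩ := hc x
      simp only at hi hj ⊢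
      rw [map_zpow, map_zpow, map_zpow, map_zpow, ← hi, ← hj, map_zpow, map_zpow, ← hi, ← hj, ← zpow_mul,
        ← zpow_mul, ← zpow_mul, ← zpow_mul]
      congr 1; ring
    exact congrArg Subtype.val (key (MulAut.conjNormal a) (MulAut.conjNormal b))
  · have := congrArg Subtype.val (DFunLike.congr_fun hg ⟨r, hr⟩)
    simp only [MulAut.conjNormal_apply, MulAut.one_apply] at this
    rw [mul_inv_eq_iff_eq_mul] at this
    exact this.symm

/-- Conclusion from a family of good subgroups. -/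
theorem concl [hp : Fact p.Prime] [Group.IsSolvable H] (hO : pCore p H = ⊥)
    (h : ∀ q : ℕ, q.Prime → ∃ M, Good p (pCore q H) M) :
    HasNormalPComplement p H ∧ ∀ Q : Sylow p H, IsMulCommutative (Q : Subgroup H) := by
  choose! M hM using h
  let L : Subgroup H := ⨅ q : Nat.Primes, M q
  have hLn : L.Normal := ⟨fun a ha g => mem_iInf.2 fun q => (hM q q.2).1.conj_mem _ (mem_iInf.1 ha q) g⟩
  have hL1 : ∀ g ∈ L, (∃ k, orderOf g = p ^ k) → g = 1 := fun g hg hk => by
    have h1 : g ∈ centralizer (fittingSubgroup H : Set H) := by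
      rw [Solv.fitting_eq_iSup_pCore]
      have : (⨆ q : Nat.Primes, pCore (q : ℕ) H) ≤ centralizer {g} := iSup_le fun q r hr =>
        mem_centralizer_singleton_iff.2 ((hM q q.2).2.2.2 g (mem_iInf.1 hg q) hk r hr)
      exact fun r hr => mem_centralizer_singleton_iff.1 (this hr)
    have h2 : zpowers g ≤ pCore p H := Solv.le_pCore_of_le_fitting (Gen2.isPGroup_zpowers_iff.2 hk)
      (zpowers_le.2 (Solv.centralizer_fitting_le h1))
    rw [hO] at h2
    exact mem_bot.1 (h2 (mem_zpowers g))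
  have hd : ∀ Q : Sylow p H, Disjoint L (Q : Subgroup H) := fun Q =>
    disjoint_def.2 fun {g} hg hq => hL1 g hg (Gen2.pElt_of_mem Q.isPGroup' hq)
  refine ⟨?_, fun Q => ⟨⟨fun a b => Subtype.ext ?_⟩⟩⟩
  · obtain ⟨Q⟩ : Nonempty (Sylow p H) := inferInstance
    refine ⟨Q, L, hLn, isComplement'_of_coprime ?_ ?_⟩
    · -- `H / L` is a `p`-group
      have hq : IsPGroup p (H ⧸ L) := by
        refine IsPGroup.iff_card.2 ⟨_, Nat.eq_prime_pow_of_unique_prime_dvd Nat.card_pos.ne' fun {q} hq hd => ?_⟩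
        by_contra hne
        have := Fact.mk hq
        obtain ⟨S⟩ : Nonempty (Sylow q H) := inferInstance
        have hS : (S : Subgroup H) ≤ L := fun g hg => mem_iInf.2 fun r => (hM r r.2).2.2.1 g (by
          obtain ⟨k, hk⟩ := Gen2.pElt_of_mem S.isPGroup' hg
          rw [hk]; exact Nat.Coprime.pow_left _ ((Nat.coprime_primes hq hp.out).2 hne))
        exact S.not_dvd_index (hd.trans (index_dvd_of_le hS))
      obtain ⟨k, hk⟩ := hq.exists_card_eq
      have h1 : Nat.card L * L.index = Nat.card H := L.card_mul_index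
      have h2 : Nat.card Q * (Q : Subgroup H).index = Nat.card H := (Q : Subgroup H).card_mul_index
      obtain ⟨m, hm⟩ := Q.isPGroup'.exists_card_eq
      have hc : (Nat.card L).Coprime p := by
        rw [Nat.coprime_comm, hp.out.coprime_iff_not_dvd]
        intro hd
        obtain ⟨x, hx⟩ := exists_prime_orderOf_dvd_card' p hd
        have := hL1 x x.2 ⟨1, by rw [orderOf_coe, hx, pow_one]⟩
        rw [← orderOf_coe, this, orderOf_one] at hx
        exact hp.out.one_lt.ne hx
      have h3 : L.index = p ^ k := hk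
      have h4 : Nat.card Q ∣ L.index := by
        refine Nat.Coprime.dvd_of_dvd_mul_left (k := Nat.card Q) (n := L.index) (m := Nat.card L) ?_ ?_
        · rw [hm]; exact Nat.Coprime.pow_left _ hc.symm
        · rw [h1]; exact card_subgroup_dvd_card _
      have h5 : L.index ∣ Nat.card Q := by
        refine Nat.Coprime.dvd_of_dvd_mul_right (n := (Q : Subgroup H).index) ?_ ?_
        · rw [h3]; exact Nat.Coprime.pow_left _ (hp.out.coprime_iff_not_dvd.2 Q.not_dvd_index)
        · rw [h2]; exact index_dvd_card _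
      rw [← Nat.dvd_antisymm h5 h4, h1]
    · obtain ⟨m, hm⟩ := Q.isPGroup'.exists_card_eq
      rw [hm]
      refine Nat.Coprime.pow_right _ ?_
      rw [Nat.coprime_comm, hp.out.coprime_iff_not_dvd]
      intro hd
      obtain ⟨x, hx⟩ := exists_prime_orderOf_dvd_card' p hd
      have := hL1 x x.2 ⟨1, by rw [orderOf_coe, hx, pow_one]⟩
      rw [← orderOf_coe, this, orderOf_one] at hx
      exact hp.out.one_lt.ne hx
  · have h1 : (a : H) * b * (a : H)⁻¹ * (b : H)⁻¹ ∈ L := mem_iInf.2 fun q => (hM q q.2).2.1 _ _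
    have h2 := disjoint_def.1 (hd Q) h1 (mul_mem (mul_mem (mul_mem a.2 b.2) (inv_mem a.2)) (inv_mem b.2))
    show (a : H) * b = b * a
    rw [mul_inv_eq_one, mul_inv_eq_iff_eq_mul] at h2
    exact h2

/-- A quaternion group acting on an elementary abelian 3-group with its involution inverting: a small subgroup
invariant under the centralizer. -/
theorem exists_small {V : Type*} [CommGroup V] [Finite V] [Nontrivial V] (h3 : ∀ v : V, v ^ 3 = 1)
    (E : Set (MulAut V)) {I J : MulAut V} (hI : ∀ v, I (I v) = v⁻¹) (hJ : ∀ v, J (J v) = v⁻¹)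
    (hIJ : ∀ v, J (I v) = (I (J v))⁻¹) (hE : ∀ e ∈ E, (∀ v, e (I v) = I (e v)) ∧ ∀ v, e (J v) = J (e v)) :
    ∃ U : Subgroup V, U ≠ ⊥ ∧ Nat.card U * Nat.card U ≤ Nat.card V ∧ ∀ e ∈ E, ∀ u ∈ U, e u ∈ U := by
  let α : V →* V := MonoidHom.id V * (I : V →* V) * (J : V →* V)
  let β : V →* V := MonoidHom.id V * (I : V →* V)⁻¹ * (J : V →* V)⁻¹
  have hα : ∀ v, α v = v * I v * J v := fun v => rfl
  have hβ : ∀ v, β v = v * (I v)⁻¹ * (J v)⁻¹ := fun v => rfl
  have hne : ∀ v : V, v⁻¹ = v → v = 1 := fun v hv => by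
    have := h3 v
    rw [pow_succ, pow_two] at this
    nth_rewrite 1 [← hv] at this
    simpa using this
  have hαβ : ∀ v, α (β v) = 1 := fun v => by
    rw [hα, hβ]
    simp only [map_mul, map_inv, hI, hJ, hIJ, inv_inv]
    have := h3 v
    rw [pow_succ, pow_two] at this
    calc _ = (v * v * v) * (I v * (I v)⁻¹) * (J v * (J v)⁻¹) * (I (J v) * (I (J v))⁻¹) := by
          simp only [mul_assoc, mul_comm, mul_left_comm]
      _ = 1 := by rw [this]; simp
  obtain ⟨w, hw⟩ := exists_ne (1 : V)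
  have hα1 : α.range ≠ ⊥ := fun h => by
    have h1 : ∀ v, J v = (v * I v)⁻¹ := fun v => by
      have : α v = 1 := mem_bot.1 (h ▸ MonoidHom.mem_range.2 ⟨v, rfl⟩)
      rw [hα] at this
      exact eq_inv_of_mul_eq_one_right this
    have h2 : J (I w) = I (J w) := by rw [h1, h1, map_inv, map_mul]
    rw [hIJ] at h2
    exact hw (by simpa using hne _ h2)
  have hβ1 : α.ker ≠ ⊥ := fun h => by
    have h1 : ∀ v, J v = v * (I v)⁻¹ := fun v => by
      have : β v = 1 := mem_bot.1 (h ▸ MonoidHom.mem_ker.2 (hαβ v))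
      rw [hβ, mul_inv_eq_one] at this
      exact this.symm
    have h2 : J (I w) = I (J w) := by rw [h1, h1, map_mul, map_inv]
    rw [hIJ] at h2
    exact hw (by simpa using hne _ h2)
  have hc : Nat.card α.ker * Nat.card α.range = Nat.card V := by
    rw [← α.ker.card_mul_index, index_ker]
  have hcomm : ∀ e ∈ E, ∀ v, e (α v) = α (e v) := fun e he v => by
    rw [hα, hα, map_mul, map_mul, (hE e he).1, (hE e he).2]
  rcases le_total (Nat.card α.ker) (Nat.card α.range) with h | h
  · refine ⟨α.ker, hβ1, hc ▸ Nat.mul_le_mul_left _ h, fun e he u hu => ?_⟩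
    rw [MonoidHom.mem_ker] at hu ⊢
    rw [← hcomm e he, hu, map_one]
  · refine ⟨α.range, hα1, hc ▸ Nat.mul_le_mul_right _ h, fun e he u hu => ?_⟩
    obtain ⟨v, rfl⟩ := hu
    exact ⟨e v, (hcomm e he v).symm⟩

theorem arith {u v m a b c d e f : ℕ} (hu : u = 3 ^ a) (hv : v = 3 ^ b) (hu1 : 1 < u) (huv : u * u ≤ v)
    (hm0 : 0 < m) (hm : m + 1 ≤ u) {N : ℕ} (hN : N * 3 ^ d = 3 ^ c * (v - 1)) (h1 : N ∣ 24 * (m * 3 ^ e))
    (h16 : 16 ∣ N) (_hf : f = 0) : False := by
  have hb : b ≠ 0 := by rintro rfl; simp at hv; nlinarith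
  have hv1 : 1 ≤ v := by rw [hv]; exact Nat.one_le_pow _ _ (by norm_num)
  have hcop : (v - 1).Coprime 3 := by
    rw [Nat.coprime_comm, Nat.prime_three.coprime_iff_not_dvd]
    intro h
    have h3 : 3 ∣ v := hv ▸ dvd_pow_self 3 hb
    have := (Nat.dvd_sub_iff_right hv1 h3).1 h
    omega
  have h2 : v - 1 ∣ N := (hcop.pow_right d).dvd_of_dvd_mul_right (hN ▸ dvd_mul_left _ _)
  have h3 : v - 1 ∣ 8 * m := by
    refine (hcop.pow_right (e + 1)).dvd_of_dvd_mul_right ?_
    rw [show 8 * m * 3 ^ (e + 1) = 24 * (m * 3 ^ e) by ring]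
    exact h2.trans h1
  have h4 := Nat.le_of_dvd (by omega) h3
  have h5 : u ≤ 7 := by
    by_contra h
    have : u * u ≥ 8 * u := Nat.mul_le_mul_right u (by omega)
    omega
  have h6 : u = 3 := by
    rcases a with - | - | a
    · simp at hu; omega
    · simpa using hu
    · rw [pow_succ, pow_succ] at hu
      have : 1 ≤ 3 ^ a := Nat.one_le_pow _ _ (by norm_num)
      omega
  have h7 : v = 9 := by
    rcases b with - | - | - | b
    · simp at hv; omega
    · simp at hv; rw [h6] at huv; omega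
    · simpa using hv
    · rw [pow_succ, pow_succ, pow_succ] at hv
      have : 1 ≤ 3 ^ b := Nat.one_le_pow _ _ (by norm_num)
      omega
  have h8 : 16 ∣ 3 ^ c * (v - 1) := hN ▸ h16.mul_right _
  have h9 : 16 ∣ v - 1 := (Nat.Coprime.pow_right c (by norm_num)).dvd_of_dvd_mul_left h8
  omega

theorem main [hp : Fact p.Prime] [Group.IsSolvable H] {V : Type*} [CommGroup V] [Finite V] [Nontrivial V]
    (hV : ∀ v : V, v ^ p = 1) (φ : H →* MulAut V) (hO : pCore p H = ⊥)
    (hs : ∀ h v, v ≠ 1 → φ h v = v → ∃ k, orderOf h = p ^ k)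
    (hc : ∃ c d, Nat.card H * p ^ d = p ^ c * (Nat.card V - 1)) :
    HasNormalPComplement p H ∧ ∀ Q : Sylow p H, IsMulCommutative (Q : Subgroup H) := by
  refine concl hO fun q hq => ?_
  have := Fact.mk hq
  by_cases hR : pCore q H = ⊥
  · exact ⟨⊤, good_top fun g _ r hr => by rw [hR] at hr; rw [mem_bot.1 hr]; simp⟩
  have hqp : q ≠ p := by rintro rfl; exact hR hO
  set R := pCore q H with hRd
  have hRp : IsPGroup q R := Solv.isPGroup_pCore q H
  have hfpf : ∀ h ∈ R, h ≠ 1 → ∀ v, φ h v = v → v = 1 := fun h hh h1 v hv => by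
    by_contra hv1
    obtain ⟨k, hk⟩ := hs h v hv1 hv
    obtain ⟨l, hl⟩ := Gen2.pElt_of_mem hRp hh
    have h2 : (p ^ k).Coprime (q ^ l) := Nat.Coprime.pow _ _ ((Nat.coprime_primes hp.out hq).2 hqp.symm)
    rw [← hk, ← hl, Nat.coprime_self, orderOf_eq_one_iff] at h2
    exact h1 h2
  have hnt : Nontrivial R := (nontrivial_iff_ne_bot R).2 hR
  have hFC : Gen2.IsFC R := Gen2.isFC_of_action (φ.comp R.subtype) fun h h1 v hv =>
    hfpf h h.2 (fun e => h1 (Subtype.ext e)) v hv
  rcases hFC.isCyclic_or_quaternion (P := ⊤) (hRp.to_subgroup ⊤) with hcy | ⟨rfl, n, hn, ⟨e⟩⟩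
  · exact good_of_cyclic (isCyclic_of_surjective _ topEquiv.surjective)
  replace e : R ≃* QuaternionGroup (2 ^ n) := topEquiv.symm.trans e
  by_cases hall : ∀ g : H, (∃ k, orderOf g = p ^ k) → g ∈ centralizer (R : Set H)
  · exact ⟨⊤, good_top hall⟩
  push Not at hall
  obtain ⟨g, ⟨k, hk⟩, hg⟩ := hall
  have hodd : ∀ g : H, (∃ k, orderOf g = p ^ k) → Odd (orderOf g) := fun g ⟨k, hk⟩ =>
    hk ▸ (hp.out.odd_of_ne_two hqp.symm).pow
  have hgn : g ∈ normalizer (R : Set H) := by rw [normalizer_eq_top]; trivial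
  have hne : ∃ a, Invol.conjEnd R hgn a ≠ a := by
    by_contra hcon
    push Not at hcon
    refine hg fun r hr => ?_
    have := congrArg Subtype.val (hcon ⟨r, hr⟩)
    rw [Invol.coe_conjEnd, mul_inv_eq_iff_eq_mul] at this
    exact this.symm
  obtain ⟨c, hc'⟩ : ∃ c : R, (zpowers c).index ∣ 2 := by
    refine ⟨e.symm (.a 1), ?_⟩
    rw [← index_map_equiv _ e, MonoidHom.map_zpowers]
    simp [Gen2.index_zpowers_quat]
  obtain ⟨e'⟩ : Nonempty (R ≃* QuaternionGroup 2) := by
    refine (Invol.four_or_quat_of_cyclic_index hRp hc' (Invol.oddEnd_conjEnd R hgn (hodd g ⟨k, hk⟩))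
      hne).resolve_left fun h4 => ?_
    have := Gen2.eight_dvd_card_quat hn e
    rw [h4.card_four] at this; omega
  obtain ⟨i, j, hij⟩ := Invol.exists_quat e'
  have h6 := (Invol.threePt_quat hij).dvd_six
  rw [normalizer_eq_top, relIndex_top_right] at h6
  set E := centralizer (R : Set H) with hE
  set K := R ⊔ E with hK
  -- `[K : E]` divides `4`
  have hz : i * i ∈ E := fun r hr => (hij.commute_sq hr).symm
  have h4 : E.relIndex K ∣ 4 := by
    rw [hK, relIndex_sup_right]
    have h1 : Nat.card (E.subgroupOf R) * E.relIndex R = 8 := hij.card ▸ (E.subgroupOf R).card_mul_index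
    have h2 : 2 ∣ Nat.card (E.subgroupOf R) := by
      have := orderOf_dvd_natCard (⟨⟨i * i, mul_mem hij.i_mem hij.i_mem⟩, hz⟩ : E.subgroupOf R)
      rwa [← orderOf_coe, ← orderOf_coe, orderOf_eq_prime (p := 2) (by rw [pow_two]; exact hij.i4) hij.ii] at this
    obtain ⟨m, hm⟩ := h2
    rw [hm, mul_assoc] at h1
    exact ⟨m, by rw [mul_comm]; omega⟩
  have hKE : ∀ g ∈ K, (∃ k, orderOf g = p ^ k) → g ∈ E := fun g hg hk => by
    have h1 : (⟨g, hg⟩ : K) ^ 4 ∈ E.subgroupOf K := by
      obtain ⟨m, hm⟩ := h4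
      rw [hm, pow_mul]
      exact pow_mem (pow_index_mem (E.subgroupOf K) _) _
    have h2 : g ^ 4 ∈ E := h1
    have h3 : (orderOf g).Coprime 4 := Nat.Coprime.pow_right 2 (Nat.coprime_two_right.2 (hodd g hk))
    obtain ⟨m, hm⟩ := exists_pow_eq_self_of_coprime h3.symm
    exact hm ▸ pow_mem h2 m
  have hp3 : p = 3 := by
    have h1 : g ∉ K := fun h => hg (hKE g h ⟨k, hk⟩)
    have h2 : p ∣ K.index := by
      by_contra h
      have h3 : (orderOf g).Coprime K.index := hk ▸ Nat.Coprime.pow_left _ (hp.out.coprime_iff_not_dvd.2 h)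
      obtain ⟨m, hm⟩ := exists_pow_eq_self_of_coprime h3.symm
      exact h1 (hm ▸ pow_mem (pow_index_mem K g) m)
    have h3 := h2.trans h6
    have h5 := Nat.le_of_dvd (by norm_num) h3
    have h7 := hp.out
    interval_cases p <;> simp_all (config := {decide := true})
  subst hp3
  have h3 : K.index ∣ 3 := by
    by_contra h3
    have h2 : 2 ∣ K.index := by
      have := Nat.le_of_dvd (by norm_num) h6
      generalize K.index = m at *
      interval_cases m <;> omega
    have h16 : 16 ∣ Nat.card H := by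
      rw [← K.card_mul_index]
      exact Nat.mul_dvd_mul (a := 8) (c := 2) (hij.card ▸ card_dvd_of_le le_sup_left) h2
    have hinv : ∀ v, φ (i * i) v = v⁻¹ := fun v => by
      refine eq_inv_of_mul_eq_one_left (hfpf (i * i) (mul_mem hij.i_mem hij.i_mem) hij.ii _ ?_)
      rw [map_mul (φ (i * i)), ← MulAut.mul_apply, ← map_mul φ, hij.i4, map_one, MulAut.one_apply, mul_comm]
    obtain ⟨U, hU1, hU2, hU3⟩ := exists_small hV (φ '' E) (I := φ i) (J := φ j)
      (fun v => by rw [← MulAut.mul_apply, ← map_mul, hinv])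
      (fun v => by rw [← MulAut.mul_apply, ← map_mul, hij.sq, hinv])
      (fun v => by
        rw [← hinv, ← MulAut.mul_apply, ← MulAut.mul_apply, ← MulAut.mul_apply, ← map_mul, ← map_mul, ← map_mul,
          hij.ji])
      (by
        rintro - ⟨x, hx, rfl⟩
        refine ⟨fun v => ?_, fun v => ?_⟩
        · rw [← MulAut.mul_apply, ← MulAut.mul_apply, ← map_mul, ← map_mul, hx i hij.i_mem]
        · rw [← MulAut.mul_apply, ← MulAut.mul_apply, ← map_mul, ← map_mul, hx j hij.j_mem])
    obtain ⟨⟨u, hu⟩, hu1⟩ := ne_bot_iff_exists_ne_one.1 hU1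
    replace hu1 : u ≠ 1 := fun e => hu1 (Subtype.ext e)
    let _ : MulAction E V := MulAction.compHom V (φ.comp E.subtype)
    have hsm : ∀ (x : E) (v : V), x • v = φ x v := fun _ _ => rfl
    have hSp : IsPGroup 3 (MulAction.stabilizer E u) := fun x => by
      obtain ⟨k, hk⟩ := hs (x : E) u hu1 x.2
      refine ⟨k, Subtype.ext (Subtype.ext ?_)⟩
      simp only [SubmonoidClass.coe_pow, OneMemClass.coe_one]
      rw [← hk, pow_orderOf_eq_one]
    obtain ⟨f, hf⟩ := hSp.exists_card_eq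
    have hm : (MulAction.stabilizer E u).index + 1 ≤ Nat.card U := by
      rw [MulAction.index_stabilizer, ← Set.ncard_insert_of_notMem (a := 1) (by
        rintro ⟨x, hx⟩
        exact hu1 (by simpa [hsm] using hx)), ← SetLike.coe_sort_coe U, Nat.card_coe_set_eq]
      refine Set.ncard_le_ncard ?_
      rintro v (rfl | ⟨x, rfl⟩)
      · exact U.one_mem
      · exact hU3 _ ⟨x, x.2, rfl⟩ u hu
    have hVp : IsPGroup 3 V := fun v => ⟨1, by simpa using hV v⟩
    obtain ⟨a, ha⟩ := (hVp.to_subgroup U).exists_card_eq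
    obtain ⟨b, hb⟩ := hVp.exists_card_eq
    obtain ⟨c, d, hcd⟩ := hc
    refine arith (e := f) ha hb ((Finite.one_lt_card_iff_nontrivial).2 ((nontrivial_iff_ne_bot U).2 hU1)) hU2
      (Nat.pos_of_ne_zero index_ne_zero_of_finite) hm hcd ?_ h16 rfl
    rw [← hf, mul_comm _ (Nat.card _), card_mul_index, ← E.card_mul_index, mul_comm,
      ← relIndex_mul_index (le_sup_right : E ≤ K)]
    exact Nat.mul_dvd_mul_right (Nat.mul_dvd_mul (b := 4) (d := 6) h4 h6) _
  refine ⟨K, inferInstance, fun a b => ?_, fun g hg => ?_, hKE⟩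
  · have hcy : IsCyclic (H ⧸ K) := isCyclic_of_card_dvd_prime (p := 3) h3
    rw [← QuotientGroup.eq_one_iff]
    simp only [QuotientGroup.mk_mul, QuotientGroup.mk_inv]
    rw [hcy.isMulCommutative.is_comm.comm (a : H ⧸ K)]; simp
  · obtain ⟨m, hm⟩ := exists_pow_eq_self_of_coprime (Nat.Coprime.coprime_dvd_right h3 hg).symm
    exact hm ▸ pow_mem (pow_index_mem K g) m

end Cfsg.Agent.Isa.K9
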